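import Cfsg.Agent.Lib.ReflectionsSpinor.PSUAutBasic

/-!
# Field automorphisms of odd order of `PSU_n(q)`: conjugacy, centralisers and splitting of classes
-/

set_option autoImplicit false
set_option linter.unusedSectionVars false

open Matrix
open CfsgLib.ClassicalForms

namespace CfsgLib.ReflectionsSpinor.PSUAut

universe u v

variable {n q : ℕ} {F : Type u} [Field F]

local notation "M" => Matrix (Fin n) (Fin n) F
local notation "GUn" => Cfsg.GU n F q
local notation "PU" => Cfsg.PSU n F q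

/-- The conjugation as an automorphism. -/
noncomputable def conjE (c : Conj F q) : F ≃+* F :=
  RingEquiv.ofBijective c.σ ⟨fun a b h => by simpa [c.invol] using congrArg c.σ h, fun a => ⟨c.σ a, c.invol a⟩⟩

theorem conjE_apply (c : Conj F q) (a : F) : conjE c a = c.σ a := rfl

theorem conjE_ne_one (c : Conj F q) : conjE c ≠ 1 := fun h =>
  c.ne (RingHom.ext fun a => DFunLike.congr_fun h a)

theorem conjE_mul_self (c : Conj F q) : conjE c * conjE c = 1 := RingEquiv.ext fun a => c.invol a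

theorem conj_comm (c : Conj F q) (σ : F ≃+* F) (a : F) : σ (c.σ a) = c.σ (σ a) := by
  rw [c.apply, c.apply, map_pow]

theorem mem_GU_conj_iff [Finite F] (c : Conj F q) (g : GL (Fin n) F) :
    g ∈ GUn ↔ (Units.val g : M)ᵀ * (Units.val g : M).map c.σ = 1 :=
  PSL.mem_GU_iff (σ := conjE c) (fun a => c.apply a) g

/-- A scalar times an element of `GU`. -/
theorem exists_smul_mem_GU [Finite F] (c : Conj F q) (hn : 1 ≤ n) (g : ↥GUn) (μ : Fˣ)
    (hμ : (μ : F) * c.σ μ = 1) :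
    ∃ g' : ↥GUn, g'.1 = Units.map (Matrix.scalar (Fin n)).toMonoidHom μ * g.1 ∧
      semiAut g' 1 = semiAut g 1 := by
  refine ⟨⟨_, (scalar_mem_GU_iff c hn μ).2 hμ⟩ * g, rfl, ?_⟩
  rw [← toAutHom_apply, map_mul, toAutHom_apply, semiAut_scalar ⟨μ, rfl⟩, one_mul]
  rfl

/-- The twisted norm inside `GU`. -/
theorem twNorm_mem (g : ↥GUn) (σ : F ≃+* F) : ∀ k, Descent.twNorm σ g.1 k ∈ GUn
  | 0 => one_mem _
  | k + 1 => mul_mem g.2 (gmap_mem σ (twNorm_mem g σ k))

theorem semiAut_pow (g : ↥GUn) (σ : F ≃+* F) : ∀ k : ℕ,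
    semiAut g σ ^ k = semiAut ⟨Descent.twNorm σ g.1 k, twNorm_mem g σ k⟩ (σ ^ k)
  | 0 => by rw [pow_zero, pow_zero]; exact semiAut_one.symm
  | k + 1 => by
    rw [pow_succ', semiAut_pow g σ k, semiAut_mul, pow_succ']
    rfl

variable [Fintype F]

theorem orderOf_semiAut_one (hF : Fintype.card F = q ^ 2) (hn : 3 ≤ n) (hs : ¬ (n = 3 ∧ q = 2))
    (σ : F ≃+* F) : orderOf (semiAut (1 : ↥GUn) σ) = orderOf σ := by
  have hpow : ∀ k, semiAut (1 : ↥GUn) σ ^ k = semiAut 1 (σ ^ k) := by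
    intro k
    induction k with
    | zero => rw [pow_zero, pow_zero]; exact semiAut_one.symm
    | succ k ih => rw [pow_succ', pow_succ', ih, semiAut_mul, map_one, one_mul]
  refine orderOf_eq_orderOf_iff.2 fun k => ?_
  rw [hpow]
  exact ⟨eq_one_of_semiAut_eq_one hF hn hs, fun h => by rw [h, semiAut_one]⟩

/-- The conjugations of the field and of the fixed field of an automorphism of odd order agree. -/
theorem exists_conj_compat (c : Conj F q) {F₀ : Type v} [Field F₀] [Finite F₀] (i : F₀ →+* F) {q₀ r : ℕ}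
    (hF₀ : Nat.card F₀ = q₀ ^ 2) (hq : q = q₀ ^ r) (hodd : Odd r) :
    ∃ c₀ : Conj F₀ q₀, ∀ x, c.σ (i x) = i (c₀.σ x) := by
  obtain ⟨c₀⟩ := exists_conj hF₀
  refine ⟨c₀, fun x => ?_⟩
  obtain ⟨k, rfl⟩ := hodd
  rw [c.apply, c₀.apply, hq, ← map_pow, pow_succ q₀, pow_mul q₀ 2 k, ← hF₀, pow_mul]
  congr 2
  haveI : Fintype F₀ := Fintype.ofFinite F₀
  rw [Nat.card_eq_fintype_card]
  exact FiniteField.pow_card_pow k x

/-- An element of `GU` fixed by `σ` up to a scalar is a norm-one multiple of a unitary matrix over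
the fixed field. -/
theorem exists_decomp (c : Conj F q) (σ : F ≃+* F) {F₀ : Type v} [Field F₀] [Finite F₀] (i : F₀ →+* F)
    (hi' : ∀ y, σ y = y → ∃ x, i x = y) {q₀ : ℕ} (c₀ : Conj F₀ q₀) (hcomp : ∀ x, c.σ (i x) = i (c₀.σ x))
    (hn : 1 ≤ n) (g : ↥GUn) (l : F) (hl : (Units.val g.1 : M).map σ = l • (Units.val g.1 : M)) :
    ∃ (ν : Fˣ) (A : ↥(Cfsg.GU n F₀ q₀)), (ν : F) * c.σ ν = 1 ∧
      (Units.val g.1 : M) = (ν : F) • (Units.val A.1 : Matrix (Fin n) (Fin n) F₀).map i := by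
  set G : M := Units.val g.1 with hG
  haveI : Nonempty (Fin n) := ⟨⟨0, hn⟩⟩
  obtain ⟨i₁, j₁, hab⟩ : ∃ a b, G a b ≠ 0 := by
    by_contra hno
    push Not at hno
    exact g.1.ne_zero (Matrix.ext hno)
  set a := G i₁ j₁
  have hl0 : l ≠ 0 := by
    rintro rfl
    have := congrFun (congrFun hl i₁) j₁
    rw [zero_smul] at this
    exact hab ((map_eq_zero σ).1 this)
  have hfix : ∀ u w, σ (G u w / a) = G u w / a := fun u w => by
    have h1 := congrFun (congrFun hl u) w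
    have h2 := congrFun (congrFun hl i₁) j₁
    simp only [Matrix.map_apply, Matrix.smul_apply, smul_eq_mul] at h1 h2
    rw [map_div₀, h1, h2, mul_div_mul_left _ _ hl0]
  choose x hx using fun u w => hi' _ (hfix u w)
  set X : Matrix (Fin n) (Fin n) F₀ := Matrix.of x
  have hX : X.map i = a⁻¹ • G := by
    ext u w
    rw [Matrix.map_apply, Matrix.smul_apply, smul_eq_mul, mul_comm, ← div_eq_mul_inv]
    exact hx u w
  have hXc : (X.map c₀.σ).map i = c.σ a⁻¹ • G.map c.σ := by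
    rw [Matrix.map_map, show (⇑i ∘ ⇑c₀.σ) = (⇑c.σ ∘ ⇑i) from funext fun y => (hcomp y).symm,
      ← Matrix.map_map, hX]
    ext u w; simp
  set d : F := a * c.σ a with hd
  have hd0 : d ≠ 0 := mul_ne_zero hab (fun h => hab (c.eq_zero h))
  set P : Matrix (Fin n) (Fin n) F₀ := Xᵀ * X.map c₀.σ with hP
  have hPi : P.map i = d⁻¹ • (1 : M) := by
    rw [hP, Matrix.map_mul, Matrix.transpose_map, hXc, hX, Matrix.transpose_smul, Matrix.smul_mul,
      Matrix.mul_smul, (mem_GU_conj_iff c g.1).1 g.2, smul_smul, hd, map_inv₀, ← mul_inv]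
  set d₀ := P ⟨0, hn⟩ ⟨0, hn⟩
  have hd₀ : i d₀ = d⁻¹ := by
    have := congrFun (congrFun hPi ⟨0, hn⟩) ⟨0, hn⟩
    simpa using this
  obtain ⟨e, he⟩ := c₀.exists_norm (d := d₀) (i.injective (by
    rw [← hcomp, hd₀, map_inv₀, hd, map_mul, c.invol, mul_comm]))
  have hd₀0 : d₀ ≠ 0 := by
    intro h0
    rw [h0, map_zero] at hd₀
    exact inv_ne_zero hd0 hd₀.symm
  have he0 : e ≠ 0 := by
    rintro rfl
    rw [zero_mul] at he
    exact hd₀0 he.symm
  have hPd : P = d₀ • 1 := by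
    ext u w
    refine i.injective ?_
    have hPe := congrFun (congrFun hPi u) w
    rw [Matrix.map_apply] at hPe
    rw [hPe, Matrix.smul_apply, Matrix.smul_apply, smul_eq_mul, smul_eq_mul, map_mul, hd₀]
    by_cases huw : u = w <;> simp [huw, Matrix.one_apply]
  set Y : Matrix (Fin n) (Fin n) F₀ := e⁻¹ • X with hY
  have hYmap : Y.map c₀.σ = c₀.σ e⁻¹ • X.map c₀.σ := by ext u w; simp [hY]
  have hY1 : Yᵀ * Y.map c₀.σ = 1 := by
    rw [hYmap, hY, Matrix.transpose_smul, Matrix.smul_mul, Matrix.mul_smul, ← hP, hPd, smul_smul, smul_smul,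
      map_inv₀, ← mul_inv, he, inv_mul_cancel₀ hd₀0, one_smul]
  have hYu : IsUnit Y := by
    rw [Matrix.isUnit_iff_isUnit_det]
    refine IsUnit.of_mul_eq_one (Y.map c₀.σ).det ?_
    rw [← Matrix.det_transpose Y, ← Matrix.det_mul, hY1, Matrix.det_one]
  have hν : a * i e ≠ 0 := mul_ne_zero hab ((map_ne_zero i).2 he0)
  refine ⟨Units.mk0 (a * i e) hν, ⟨hYu.unit, (mem_GU_conj_iff c₀ _).2 hY1⟩, ?_, ?_⟩
  · rw [Units.val_mk0, map_mul, hcomp, mul_mul_mul_comm, ← map_mul, he, hd₀, ← hd, mul_inv_cancel₀ hd0]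
  · show G = (a * i e) • (e⁻¹ • X).map i
    rw [show (e⁻¹ • X).map i = i e⁻¹ • X.map i by ext u w; simp, hX, smul_smul, smul_smul, map_inv₀]
    rw [show a * i e * (i e)⁻¹ * a⁻¹ = 1 by field_simp [(map_ne_zero i).2 he0], one_smul]

/-- An element of the coset of order `r` is conjugate to the standard field automorphism. -/
theorem isConjUnder_of_pow_eq_one (hF : Fintype.card F = q ^ 2) (hn : 3 ≤ n) (hs : ¬ (n = 3 ∧ q = 2))
    (g : ↥GUn) {σ : F ≃+* F} {r : ℕ} (hr : orderOf σ = r) (hodd : Odd r) {q₀ : ℕ} (hq : q = q₀ ^ r)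
    (h : semiAut g σ ^ r = 1) :
    Cfsg.IsConjUnder (Cfsg.inndiagPSU n F q) (semiAut 1 σ) (semiAut g σ) := by
  classical
  haveI : Nonempty (Fin n) := ⟨⟨0, by omega⟩⟩
  have hF' : Nat.card F = q ^ 2 := by rw [Nat.card_eq_fintype_card, hF]
  obtain ⟨c⟩ := exists_conj hF'
  have hr0 : 0 < r := hr ▸ Descent.orderOf_ringEquiv_pos σ
  have hσr : σ ^ r = 1 := by rw [← hr, pow_orderOf_eq_one]
  rw [semiAut_pow, hσr, semiAut_one_right_eq_one_iff hF hn hs] at h
  obtain ⟨z, hz⟩ := (Cfsg.Geo.mem_scalars_iff _).1 h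
  have hzz : (z : F) * c.σ z = 1 := by
    have h1 := twNorm_mem g σ r
    rw [show Descent.twNorm σ g.1 r = Units.map (Matrix.scalar (Fin n)).toMonoidHom z from
      Units.ext (hz.trans (Matrix.smul_one_eq_diagonal _))] at h1
    exact (scalar_mem_GU_iff c (by omega) z).1 h1
  have hfix : σ (z : F) = z := by
    have h1 : ∀ k, g.1 * gmap σ (Descent.twNorm σ g.1 k) = Descent.twNorm σ g.1 k * gmap (σ ^ k) g.1 := by
      intro k
      induction k with
      | zero =>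
        show g.1 * gmap σ 1 = 1 * gmap (σ ^ 0) g.1
        rw [map_one, mul_one, one_mul, pow_zero]
        exact Units.ext (by ext i j; rfl)
      | succ k ih =>
        show g.1 * gmap σ (g.1 * gmap σ (Descent.twNorm σ g.1 k)) =
          g.1 * gmap σ (Descent.twNorm σ g.1 k) * _
        have hpow : gmap (σ ^ (k + 1)) g.1 = gmap σ (gmap (σ ^ k) g.1) := by
          refine Units.ext ?_
          show (Units.val g.1 : M).map (⇑(σ ^ (k + 1))) = ((Units.val g.1 : M).map (⇑(σ ^ k))).map σ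
          rw [Matrix.map_map, pow_succ']
          rfl
        rw [mul_assoc, hpow, ← map_mul, ← ih]
    have h2 : (Units.val g.1 : M) * ((z : F) • (1 : M)).map σ =
        ((z : F) • (1 : M)) * (Units.val g.1 : M).map (⇑(σ ^ r)) := by
      rw [← hz]
      exact congrArg Units.val (h1 r)
    have h3 : ((z : F) • (1 : M)).map σ = σ (z : F) • (1 : M) := by
      ext i j; by_cases hij : i = j <;> simp [hij]
    have h4 : (Units.val g.1 : M).map (⇑(σ ^ r)) = (Units.val g.1 : M) := by rw [hσr]; ext i j; rfl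
    rw [h3, h4, Matrix.mul_smul, Matrix.mul_one, Matrix.smul_mul, Matrix.one_mul] at h2
    obtain ⟨i, j, hij⟩ : ∃ i j, (Units.val g.1 : M) i j ≠ 0 := by
      by_contra hno
      push Not at hno
      exact g.1.ne_zero (Matrix.ext hno)
    have h5 := congrFun (congrFun h2 i) j
    simp only [Matrix.smul_apply, smul_eq_mul] at h5
    exact mul_right_cancel₀ hij h5
  -- a norm-one scalar whose `σ`-norm is `z⁻¹`
  let N : Fˣ →* Fˣ := ∏ i ∈ Finset.range r, Units.map (σ ^ i).toRingHom.toMonoidHom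
  let T : Fˣ →* Fˣ := Units.map c.σ.toMonoidHom
  have hN : ∀ x : Fˣ, (N x : F) = ∏ i ∈ Finset.range r, (⇑(σ ^ i) (x : F)) := fun x => by
    simp [N, MonoidHom.finsetProd_apply]
  have hNT : ∀ x, N (T x) = T (N x) := fun x => Units.ext (by
    show (N (T x) : F) = c.σ (N x : F)
    rw [hN, hN, map_prod]
    exact Finset.prod_congr rfl fun i _ => conj_comm c _ _)
  have hfixpow : ∀ (y : F), σ y = y → ∀ i : ℕ, (⇑(σ ^ i)) y = y := fun y hy i => by
    induction i with
    | zero => rfl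
    | succ i ih => rw [pow_succ']; show σ ((σ ^ i) y) = y; rw [ih, hy]
  have hNz : N z = z ^ r := Units.ext (by
    rw [hN, Finset.prod_congr rfl fun i _ => hfixpow _ hfix i, Finset.prod_const, Finset.card_range,
      Units.val_pow_eq_pow_val])
  have hTz : T z = z⁻¹ := eq_inv_of_mul_eq_one_right (Units.ext hzz)
  obtain ⟨μ₀, hμ₀⟩ := Descent.exists_prod_eq σ hr z⁻¹ (by simp [Units.val_inv_eq_inv_val, hfix])
  have hμ₀' : N μ₀ = z⁻¹ := Units.ext (by rw [hN]; exact hμ₀)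
  set μ : Fˣ := z * (μ₀ * (T μ₀)⁻¹) ^ ((r + 1) / 2) with hμdef
  have hμ : N μ = z⁻¹ := by
    rw [hμdef, map_mul, map_pow, map_mul, map_inv, hNT, hμ₀', map_inv, hTz, inv_inv, hNz, ← mul_inv, ← pow_two,
      inv_pow, ← pow_mul]
    obtain ⟨k, rfl⟩ := hodd
    rw [show 2 * ((2 * k + 1 + 1) / 2) = 2 * k + 1 + 1 by omega, pow_succ z (2 * k + 1), mul_inv, ← mul_assoc,
      mul_inv_cancel, one_mul]
  have hμT : T μ = μ⁻¹ := by
    have hTT : T (T μ₀) = μ₀ := Units.ext (c.invol _)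
    rw [hμdef, map_mul, map_pow, map_mul, map_inv, hTT, hTz, mul_inv, ← inv_pow, mul_inv, inv_inv,
      mul_comm (T μ₀)]
  have hμc : (μ : F) * c.σ μ = 1 := by
    have h1 : μ * T μ = 1 := by rw [hμT, mul_inv_cancel]
    exact congrArg Units.val h1
  obtain ⟨g', hg', hg'aut⟩ := exists_smul_mem_GU c (by omega) g μ hμc
  have hnorm : Descent.twNorm σ g'.1 r = 1 := by
    refine Units.ext ?_
    rw [hg', Descent.twNorm_scalar, ← hN, hμ]
    show ((z⁻¹ : Fˣ) : F) • (Units.val (Descent.twNorm σ g.1 r) : M) = _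
    rw [hz, smul_smul, Units.inv_mul, one_smul]
    rfl
  obtain ⟨H, hH⟩ := Descent.exists_eq_mul_inv σ g'.1 hr hr0 hnorm
  have hHσ : Units.val g'.1 * (Units.val H : M).map σ = (Units.val H : M) :=
    congrArg Units.val (eq_mul_inv_iff_mul_eq.1 hH)
  set A : M := (Units.val H : M)ᵀ * (Units.val H : M).map c.σ with hA
  have hAσ : A.map σ = A := by
    rw [hA]
    conv_rhs => rw [← hHσ]
    rw [Matrix.map_mul, Matrix.map_mul, Matrix.transpose_map, Matrix.transpose_mul, Matrix.map_map,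
      show (⇑σ ∘ ⇑c.σ) = (⇑c.σ ∘ ⇑σ) from funext (conj_comm c σ), ← Matrix.map_map]
    calc ((Units.val H : M).map σ)ᵀ * ((Units.val H : M).map σ).map c.σ
        = ((Units.val H : M).map σ)ᵀ * ((Units.val g'.1 : M)ᵀ * (Units.val g'.1 : M).map c.σ) *
            ((Units.val H : M).map σ).map c.σ := by rw [(mem_GU_conj_iff c g'.1).1 g'.2, Matrix.mul_one]
      _ = _ := by simp only [Matrix.mul_assoc]
  -- descend to the fixed field
  set i₁ : fixedField σ →+* F := (fixedField σ).subtype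
  have hK : Nat.card (fixedField σ) = q₀ ^ 2 := by
    have h1 := card_eq_fixedField_pow σ hr
    rw [hF', hq, ← pow_mul, mul_comm r 2, pow_mul] at h1
    exact Nat.pow_left_injective (by omega) h1.symm
  obtain ⟨c₀, hcomp⟩ := exists_conj_compat c i₁ hK hq hodd
  let A₀ : Matrix (Fin n) (Fin n) (fixedField σ) := Matrix.of fun a b =>
    ⟨A a b, mem_fixedField.2 (congrFun (congrFun hAσ a) b)⟩
  have hA₀ : A₀.map i₁ = A := rfl
  have hA₀u : IsUnit A₀.det := by
    refine isUnit_iff_ne_zero.2 fun h0 => ?_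
    have h1 : (A₀.map i₁).det = 0 := by rw [← RingHom.mapMatrix_apply, ← RingHom.map_det, h0, map_zero]
    rw [hA₀, hA, Matrix.det_mul, Matrix.det_transpose, ← RingHom.mapMatrix_apply, ← RingHom.map_det] at h1
    have hH' := ((Matrix.isUnit_iff_isUnit_det _).1 H.isUnit).ne_zero
    exact mul_ne_zero hH' ((map_ne_zero c.σ).2 hH') h1
  have hherm : (A₀.map (conjE c₀))ᵀ = A₀ := by
    refine Matrix.map_injective i₁.injective ?_
    show ((A₀.map (conjE c₀))ᵀ).map i₁ = A₀.map i₁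
    rw [Matrix.transpose_map, Matrix.map_map,
      show (⇑i₁ ∘ ⇑(conjE c₀)) = (⇑c.σ ∘ ⇑i₁) from funext fun y => (hcomp y).symm, ← Matrix.map_map, hA₀, hA,
      Matrix.map_mul, Matrix.transpose_mul, Matrix.transpose_map, Matrix.transpose_transpose, Matrix.map_map,
      show (⇑c.σ ∘ ⇑c.σ) = id from funext c.invol, Matrix.map_id]
  obtain ⟨P, hP⟩ := PSL.exists_hermitian_congr (conjE c₀) (conjE_ne_one c₀) (conjE_mul_self c₀)
    (Matrix.GeneralLinearGroup.mk'' A₀ hA₀u) hherm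
  change A₀ = _ at hP
  let Q0 : M := ((Units.val P : Matrix (Fin n) (Fin n) (fixedField σ))ᵀ).map i₁
  have hQ0 : IsUnit Q0 := by
    rw [Matrix.isUnit_iff_isUnit_det]
    show IsUnit (((Units.val P : Matrix (Fin n) (Fin n) (fixedField σ))ᵀ).map i₁).det
    rw [← RingHom.mapMatrix_apply, ← RingHom.map_det, Matrix.det_transpose]
    exact ((Matrix.isUnit_iff_isUnit_det _).1 P.isUnit).map i₁
  set Q : GL (Fin n) F := hQ0.unit
  have hQσ : gmap σ Q = Q := Units.ext (Matrix.ext fun a b =>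
    ((Units.val P : Matrix (Fin n) (Fin n) (fixedField σ)) b a).2)
  have hAQ : A = (Units.val Q : M)ᵀ * (Units.val Q : M).map c.σ := by
    rw [← hA₀, hP, Matrix.map_mul, IsUnit.unit_spec]
    show _ = (((Units.val P : Matrix (Fin n) (Fin n) (fixedField σ))ᵀ).map i₁)ᵀ * _
    simp only [Q0, Matrix.transpose_map, Matrix.transpose_transpose, Matrix.map_map]
    rw [show (⇑i₁ ∘ ⇑(conjE c₀)) = (⇑c.σ ∘ ⇑i₁) from funext fun y => (hcomp y).symm]
  have hmem : H * Q⁻¹ ∈ GUn := by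
    refine (mem_GU_conj_iff c _).2 ?_
    rw [Units.val_mul, Matrix.transpose_mul, Matrix.map_mul]
    calc (Units.val Q⁻¹ : M)ᵀ * (Units.val H : M)ᵀ * ((Units.val H : M).map c.σ * (Units.val Q⁻¹ : M).map c.σ)
        = (Units.val Q⁻¹ : M)ᵀ * A * (Units.val Q⁻¹ : M).map c.σ := by rw [hA]; simp only [Matrix.mul_assoc]
      _ = ((Units.val Q⁻¹ : M)ᵀ * (Units.val Q : M)ᵀ) *
            ((Units.val Q : M).map c.σ * (Units.val Q⁻¹ : M).map c.σ) := by
          rw [hAQ]; simp only [Matrix.mul_assoc]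
      _ = _ := by
        rw [← Matrix.transpose_mul, Units.mul_inv, Matrix.transpose_one, ← Matrix.map_mul, Units.mul_inv,
          Matrix.map_one _ (map_zero _) (map_one _), Matrix.one_mul]
  refine ⟨semiAut ⟨H * Q⁻¹, hmem⟩ 1, semiAut_mem_inndiag _, ?_⟩
  have e1 : semiAut g σ = semiAut g' σ := by
    rw [show semiAut g σ = semiAut g 1 * semiAut 1 σ by rw [semiAut_mul, gmapU_one, mul_one, one_mul],
      ← hg'aut, semiAut_mul, gmapU_one, mul_one, one_mul]
  rw [e1, semiAut_inv, semiAut_mul, semiAut_mul, one_mul, inv_one, mul_one]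
  simp only [gmapU_one, map_one, mul_one]
  refine congrArg (semiAut · σ) (Subtype.ext ?_)
  show g'.1 = H * Q⁻¹ * gmap σ (H * Q⁻¹)⁻¹
  rw [_root_.mul_inv_rev, inv_inv, map_mul, hQσ, map_inv, ← mul_assoc, inv_mul_cancel_right]
  exact hH

theorem orderOf_eq_iff_isConjUnder_field (hF : Fintype.card F = q ^ 2) (hn : 3 ≤ n)
    (hs : ¬ (n = 3 ∧ q = 2)) {σ : F ≃+* F} {r : ℕ} (hr : orderOf (semiAut (1 : ↥GUn) σ) = r) (hodd : Odd r)
    {q₀ : ℕ} (hq : q = q₀ ^ r) {δ : MulAut PU} (hδ : δ ∈ Cfsg.inndiagPSU n F q) :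
    orderOf (δ * semiAut 1 σ) = r ↔
      Cfsg.IsConjUnder (Cfsg.inndiagPSU n F q) (semiAut 1 σ) (δ * semiAut 1 σ) := by
  constructor
  · intro h
    obtain ⟨g, rfl⟩ := mem_inndiag_iff.1 hδ
    rw [semiAut_mul, map_one, mul_one, one_mul] at h ⊢
    refine isConjUnder_of_pow_eq_one hF hn hs g ?_ hodd hq (orderOf_dvd_iff_pow_eq_one.1 h.dvd)
    rw [← hr, orderOf_semiAut_one hF hn hs]
  · rintro ⟨d, -, he⟩
    rw [he, ← hr]
    exact (MulAut.conj d).orderOf_eq _

/-! ### The centraliser -/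

/-- The unitary group over a subfield. -/
noncomputable def mapU (c : Conj F q) {F₀ : Type v} [Field F₀] [Finite F₀] (i : F₀ →+* F) {q₀ : ℕ}
    (c₀ : Conj F₀ q₀) (hcomp : ∀ x, c.σ (i x) = i (c₀.σ x)) : ↥(Cfsg.GU n F₀ q₀) →* ↥GUn :=
  ((Matrix.GeneralLinearGroup.map i).comp (Cfsg.GU n F₀ q₀).subtype).codRestrict _ fun g => by
    refine (mem_GU_conj_iff c _).2 ?_
    show ((Units.val g.1 : Matrix (Fin n) (Fin n) F₀).map i)ᵀ *
      ((Units.val g.1 : Matrix (Fin n) (Fin n) F₀).map i).map c.σ = 1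
    rw [Matrix.map_map, show (⇑c.σ ∘ ⇑i) = (⇑i ∘ ⇑c₀.σ) from funext hcomp, ← Matrix.map_map,
      ← Matrix.transpose_map, ← Matrix.map_mul, (mem_GU_conj_iff c₀ g.1).1 g.2,
      Matrix.map_one _ (map_zero _) (map_one _)]

theorem coe_mapU (c : Conj F q) {F₀ : Type v} [Field F₀] [Finite F₀] (i : F₀ →+* F) {q₀ : ℕ}
    (c₀ : Conj F₀ q₀) (hcomp : ∀ x, c.σ (i x) = i (c₀.σ x)) (g : ↥(Cfsg.GU n F₀ q₀)) :
    (Units.val (mapU c i c₀ hcomp g).1 : M) = (Units.val g.1 : Matrix (Fin n) (Fin n) F₀).map i := rfl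

theorem inndiag_inf_centralizer_field (hF : Fintype.card F = q ^ 2) (hn : 3 ≤ n) (hs : ¬ (n = 3 ∧ q = 2))
    (c : Conj F q) (σ : F ≃+* F) {F₀ : Type v} [Field F₀] [Finite F₀] (i : F₀ →+* F)
    (hi : ∀ x, σ (i x) = i x) (hi' : ∀ y, σ y = y → ∃ x, i x = y) {q₀ : ℕ} (c₀ : Conj F₀ q₀)
    (hcomp : ∀ x, c.σ (i x) = i (c₀.σ x)) :
    Cfsg.inndiagPSU n F q ⊓ Subgroup.centralizer {semiAut (1 : ↥GUn) σ} =
      ((mapU (n := n) c i c₀ hcomp).range).map toAutHom := by
  haveI : Nonempty (Fin n) := ⟨⟨0, by omega⟩⟩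
  have hcomm : ∀ g : ↥GUn, semiAut g 1 ∈ Subgroup.centralizer {semiAut (1 : ↥GUn) σ} ↔
      (g⁻¹ * gmapU σ g).1 ∈ Cfsg.Geo.scalars (Fin n) F := by
    intro g
    rw [Subgroup.mem_centralizer_singleton_iff]
    have e1 : semiAut (1 : ↥GUn) σ * semiAut g 1 = semiAut (gmapU σ g) 1 * semiAut 1 σ := by
      rw [semiAut_mul, semiAut_mul, map_one, one_mul, mul_one, mul_one, one_mul]
    rw [e1, mul_left_inj, ← toAutHom_apply, ← toAutHom_apply, ← Subgroup.mem_subgroupOf,
      ← toAutHom_ker hF hn hs, MonoidHom.mem_ker, map_mul, map_inv, inv_mul_eq_one]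
  apply le_antisymm
  · rintro β ⟨hβ, hc⟩
    obtain ⟨g, rfl⟩ := mem_inndiag_iff.1 hβ
    obtain ⟨l, hl⟩ := (Cfsg.Geo.mem_scalars_iff _).1 ((hcomm g).1 hc)
    have hl' : (Units.val g.1 : M).map σ = (l : F) • (Units.val g.1 : M) := by
      have := congrArg ((Units.val g.1 : M) * ·) hl
      simp only [Subgroup.coe_mul, Subgroup.coe_inv, Units.val_mul] at this
      rw [← Matrix.mul_assoc, Units.mul_inv, Matrix.one_mul, coe_gmapU, Matrix.mul_smul, Matrix.mul_one] at this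
      exact this
    obtain ⟨ν, A, hν, hgA⟩ := exists_decomp c σ i hi' c₀ hcomp (by omega) g (l : F) hl'
    obtain ⟨g', hg', hg'aut⟩ := exists_smul_mem_GU c (by omega) (mapU c i c₀ hcomp A) ν hν
    refine ⟨_, ⟨A, rfl⟩, ?_⟩
    rw [toAutHom_apply, ← hg'aut]
    refine congrArg (semiAut · 1) (Subtype.ext (Units.ext ?_))
    rw [hg', hgA, Units.val_mul, coe_mapU]
    show Matrix.scalar (Fin n) (ν : F) * _ = _
    rw [Matrix.scalar_apply, ← Matrix.smul_one_eq_diagonal, Matrix.smul_mul, Matrix.one_mul]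
  · rintro _ ⟨_, ⟨h, rfl⟩, rfl⟩
    refine ⟨semiAut_mem_inndiag _, (hcomm _).2 ?_⟩
    have : gmapU σ (mapU c i c₀ hcomp h) = mapU c i c₀ hcomp h := by
      refine Subtype.ext (Units.ext ?_)
      rw [coe_gmapU, coe_mapU]
      ext a b
      exact hi _
    rw [this, inv_mul_cancel]
    exact one_mem _

theorem nonempty_centralizer_field_equiv (hF : Fintype.card F = q ^ 2) (hn : 3 ≤ n) (hs : ¬ (n = 3 ∧ q = 2))
    (σ : F ≃+* F) {F₀ : Type v} [Field F₀] [Finite F₀] (i : F₀ →+* F) (hi : ∀ x, σ (i x) = i x)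
    (hi' : ∀ y, σ y = y → ∃ x, i x = y) {q₀ r : ℕ} (hF₀ : Nat.card F₀ = q₀ ^ 2) (hq : q = q₀ ^ r)
    (hodd : Odd r) :
    Nonempty (↥(Cfsg.inndiagPSU n F q ⊓ Subgroup.centralizer {semiAut (1 : ↥GUn) σ}) ≃* Cfsg.PGU n F₀ q₀) := by
  obtain ⟨c⟩ := exists_conj (show Nat.card F = q ^ 2 by rw [Nat.card_eq_fintype_card, hF])
  obtain ⟨c₀, hcomp⟩ := exists_conj_compat c i hF₀ hq hodd
  let Φ : ↥(Cfsg.GU n F₀ q₀) →* MulAut PU := toAutHom.comp (mapU c i c₀ hcomp)
  have hker : Φ.ker = (Cfsg.Geo.scalars (Fin n) F₀).subgroupOf (Cfsg.GU n F₀ q₀) := by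
    ext h
    show toAutHom (mapU c i c₀ hcomp h) = 1 ↔ _
    rw [← MonoidHom.mem_ker, toAutHom_ker hF hn hs, Subgroup.mem_subgroupOf, Subgroup.mem_subgroupOf,
      Cfsg.Geo.mem_scalars_iff, Cfsg.Geo.mem_scalars_iff, coe_mapU]
    set X : Matrix (Fin n) (Fin n) F₀ := Units.val h.1 with hX
    constructor
    · rintro ⟨z, hz⟩
      let a : Fin n := ⟨0, by omega⟩
      have hE : ∀ k l, i (X k l) = if k = l then (z : F) else 0 := fun k l => by
        have := congrFun (congrFun hz k) l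
        simpa [Matrix.one_apply] using this
      have h0 : X a a ≠ 0 := fun h0 => z.ne_zero (by
        have := hE a a; rw [h0, map_zero, if_pos rfl] at this; exact this.symm)
      refine ⟨Units.mk0 _ h0, Matrix.ext fun k l => i.injective ?_⟩
      rw [hE, Units.val_mk0, Matrix.smul_apply, smul_eq_mul, map_mul, hE, if_pos rfl, Matrix.one_apply]
      split <;> simp
    · rintro ⟨z, hz⟩
      refine ⟨Units.map (i : F₀ →* F) z, Matrix.ext fun k l => ?_⟩
      rw [Matrix.map_apply, hz]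
      by_cases hkl : k = l <;> simp [hkl]
  have hr : Φ.range = Cfsg.inndiagPSU n F q ⊓ Subgroup.centralizer {semiAut (1 : ↥GUn) σ} := by
    rw [inndiag_inf_centralizer_field hF hn hs c σ i hi hi' c₀ hcomp, ← MonoidHom.range_comp]
  exact ⟨((MulEquiv.subgroupCongr hr).symm.trans (QuotientGroup.quotientKerEquivRange Φ).symm).trans
    (QuotientGroup.quotientMulEquivOfEq hker)⟩

/-! ### Splitting -/

theorem split_field (hF : Fintype.card F = q ^ 2) (hn : 3 ≤ n) (hs : ¬ (n = 3 ∧ q = 2))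
    (σ : F ≃+* F) {F₀ : Type v} [Field F₀] [Finite F₀] (i : F₀ →+* F) (hi : ∀ x, σ (i x) = i x)
    (hi' : ∀ y, σ y = y → ∃ x, i x = y) {q₀ r : ℕ} (hF₀ : Nat.card F₀ = q₀ ^ 2) (hq : q = q₀ ^ r)
    (hodd : Odd r) :
    Cfsg.splitClassCount (Cfsg.inndiagPSU n F q) (Cfsg.Inn PU) (semiAut (1 : ↥GUn) σ) =
      Nat.gcd n ((q + 1) / (q₀ + 1)) := by
  classical
  have hF' : Nat.card F = q ^ 2 := by rw [Nat.card_eq_fintype_card, hF]
  obtain ⟨c⟩ := exists_conj hF'
  obtain ⟨c₀, hcomp⟩ := exists_conj_compat c i hF₀ hq hodd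
  rw [splitClassCount_eq_relIndex inn_le_inndiag (fun h _ k hk => inn_conj hk) _,
    inndiag_inf_centralizer_field hF hn hs c σ i hi hi' c₀ hcomp, inndiag_eq_range, ← Subgroup.index_comap]
  set U := (powMonoidHom (q + 1) : Fˣ →* Fˣ).ker
  have hU : ∀ x : Fˣ, x ∈ U ↔ (x : F) * c.σ x = 1 := fun x => by
    rw [MonoidHom.mem_ker, powMonoidHom_apply, Units.ext_iff, Units.val_pow_eq_pow_val, Units.val_one, c.mul_conj]
  let D : ↥GUn →* ↥U := (guDet n F q).codRestrict U fun g => (hU _).2 (det_gu_norm c g)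
  let i₀ : Fin n := ⟨0, by omega⟩
  have hdiag : ∀ x : ↥U, ∃ g : ↥GUn, D g = x ∧
      (Units.val g.1 : M) = Matrix.diagonal (fun k => if k = i₀ then (x.1 : F) else 1) := by
    intro x
    obtain ⟨g, hg⟩ := exists_diag_gu c (d := fun k => if k = i₀ then (x.1 : F) else 1) fun k => by
      split
      · exact (hU _).1 x.2
      · rw [map_one, mul_one]
    refine ⟨g, Subtype.ext (Units.ext ?_), hg⟩
    show (Units.val g.1 : M).det = _
    rw [hg, Matrix.det_diagonal]
    simp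
  have hU₀ : ∀ y : Fˣ, ∀ z : F₀ˣ, (i (z : F₀) = (y : F)) → (z ^ (q₀ + 1) = 1 ↔ y ∈ U) := by
    intro y z hyz
    rw [hU, ← hyz, hcomp, ← map_mul, map_eq_one_iff i i.injective, c₀.mul_conj, Units.ext_iff,
      Units.val_pow_eq_pow_val, Units.val_one]
  let U₀ := (powMonoidHom (q₀ + 1) : F₀ˣ →* F₀ˣ).ker
  let j : ↥U₀ →* ↥U := ((Units.map (i : F₀ →* F)).comp U₀.subtype).codRestrict U fun z =>
    (hU₀ _ z.1 rfl).1 z.2
  have hdetmap : ∀ A : ↥(Cfsg.GU n F₀ q₀), (Units.map (i : F₀ →* F) (guDet n F₀ q₀ A)) =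
      guDet n F q (mapU c i c₀ hcomp A) := fun A => Units.ext (RingHom.map_det i _)
  have hinn : Cfsg.Inn PU = ((suToGU (n := n) (F := F) (q := q)).range).map toAutHom := by
    ext β
    constructor
    · rintro ⟨k, rfl⟩
      obtain ⟨s, rfl⟩ := cl_surjective k
      exact ⟨_, ⟨s, rfl⟩, (inner_eq_semiAut s).symm⟩
    · rintro ⟨_, ⟨s, rfl⟩, rfl⟩
      exact ⟨cl s, inner_eq_semiAut s⟩
  have hsc : ∀ x : ↥U, ∃ g : ↥GUn, g.1 = Units.map (Matrix.scalar (Fin n)).toMonoidHom x.1 ∧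
      D g = powMonoidHom n x := fun x => by
    refine ⟨⟨_, (scalar_mem_GU_iff c (by omega) x.1).2 ((hU _).1 x.2)⟩, rfl, Subtype.ext (Units.ext ?_)⟩
    show Matrix.det (Matrix.scalar (Fin n) (x.1 : F)) = _
    simp [Matrix.scalar_apply, Matrix.det_diagonal]
  have hcomap : (Cfsg.Inn PU ⊔ ((mapU (n := n) c i c₀ hcomp).range).map toAutHom).comap
        (toAutHom (n := n) (F := F) (q := q)) =
      (j.range ⊔ (powMonoidHom n : ↥U →* ↥U).range).comap D := by
    rw [hinn, ← Subgroup.map_sup, Subgroup.comap_map_eq, toAutHom_ker hF hn hs]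
    apply le_antisymm
    · refine sup_le (sup_le ?_ ?_) ?_
      · rintro _ ⟨s, rfl⟩
        rw [Subgroup.mem_comap, show D (suToGU s) = 1 from Subtype.ext (guDet_suToGU s)]
        exact Subgroup.one_mem _
      · rintro _ ⟨A, rfl⟩
        refine Subgroup.mem_sup_left ⟨⟨guDet n F₀ q₀ A, ?_⟩, Subtype.ext (hdetmap A)⟩
        rw [MonoidHom.mem_ker, powMonoidHom_apply, Units.ext_iff, Units.val_pow_eq_pow_val, Units.val_one,
          ← c₀.mul_conj]
        exact det_gu_norm c₀ A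
      · intro z hz
        obtain ⟨a, ha⟩ := (Subgroup.mem_subgroupOf.1 hz)
        have haU : a ∈ U := by
          refine (hU _).2 ((scalar_mem_GU_iff (n := n) c (by omega) a).1 ?_)
          rw [show Units.map (Matrix.scalar (Fin n)).toMonoidHom a = z.1 from ha]
          exact z.2
        obtain ⟨g, hg1, hg2⟩ := hsc ⟨a, haU⟩
        have : z = g := Subtype.ext (ha.symm.trans hg1.symm)
        rw [this, Subgroup.mem_comap, hg2]
        exact Subgroup.mem_sup_right ⟨_, rfl⟩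
    · intro g hg
      obtain ⟨d, ⟨z, hz⟩, _, ⟨a, rfl⟩, he⟩ := Subgroup.mem_sup.1 (Subgroup.mem_comap.1 hg)
      obtain ⟨h, hh, hh'⟩ := hdiag d
      obtain ⟨sa, hsa1, hsa2⟩ := hsc a
      obtain ⟨A, hA⟩ := exists_diag_gu c₀ (d := fun k : Fin n => if k = i₀ then (z.1 : F₀) else 1) fun k => by
        split
        · rw [c₀.mul_conj, ← Units.val_pow_eq_pow_val, MonoidHom.mem_ker.1 z.2 |> fun e => (show z.1 ^ (q₀ + 1) = 1 from e),
            Units.val_one]
        · rw [map_one, mul_one]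
      have hhA : h = mapU c i c₀ hcomp A := by
        refine Subtype.ext (Units.ext ?_)
        rw [hh', coe_mapU, hA, Matrix.diagonal_map (map_zero i)]
        congr 1
        funext k
        rw [apply_ite i, map_one, ← hz]
        rfl
      have hs' : D ((h * sa)⁻¹ * g) = 1 := by
        rw [map_mul, map_inv, map_mul, hsa2, hh, ← he]; exact inv_mul_cancel _
      have hg' : g = h * sa * ((h * sa)⁻¹ * g) := (mul_inv_cancel_left _ _).symm
      rw [hg']
      refine mul_mem (mul_mem (Subgroup.mem_sup_left (Subgroup.mem_sup_right ⟨A, hhA.symm⟩))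
        (Subgroup.mem_sup_right (Subgroup.mem_subgroupOf.2 (hsa1 ▸ ⟨a.1, rfl⟩))))
        (Subgroup.mem_sup_left (Subgroup.mem_sup_left ?_))
      rw [range_suToGU, MonoidHom.mem_ker]
      exact congrArg Subtype.val hs'
  rw [hcomap, Subgroup.index_comap_of_surjective _ (fun x => ⟨_, (hdiag x).choose_spec.1⟩), index_sup_powRange]
  congr 1
  have hjinj : Function.Injective j := fun x y hxy =>
    Subtype.ext (Units.map_injective (f := (i : F₀ →* F)) i.injective (congrArg Subtype.val hxy))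
  have hcard : Nat.card j.range = q₀ + 1 := by
    rw [← Nat.card_congr (MonoidHom.ofInjective hjinj).toEquiv, ← card_norm_one hF₀]
    exact Nat.card_congr (Equiv.subtypeEquivRight fun z => by
      rw [MonoidHom.mem_ker, powMonoidHom_apply])
  have hUcard : Nat.card ↥U = q + 1 := by
    rw [← card_norm_one hF']
    exact Nat.card_congr (Equiv.subtypeEquivRight fun z => by rw [MonoidHom.mem_ker, powMonoidHom_apply])
  have h := Subgroup.index_mul_card j.range
  rw [hcard, hUcard] at h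
  rw [← h, Nat.mul_div_cancel _ (Nat.succ_pos _)]

/-! ### Field automorphisms up to conjugacy in the automorphism group -/

theorem splitClassCount_transport (hΓ : Cfsg.gammaPSU n F q = ⊤) (α x : MulAut PU) :
    Cfsg.splitClassCount (Cfsg.inndiagPSU n F q) (Cfsg.Inn PU) (α * x * α⁻¹) =
      Cfsg.splitClassCount (Cfsg.inndiagPSU n F q) (Cfsg.Inn PU) x :=
  splitClassCount_conj (fun _ h => conj_mem_inndiag hΓ α h) (fun _ h => inndiag_conj' hΓ α h)
    (fun _ h => inn_conj h) (fun _ h => by simpa using inn_conj (α := α⁻¹) h) x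

/-- An odd prime dividing `2 f` divides `f`. -/
theorem dvd_of_odd_prime {r f : ℕ} (hr : r.Prime) (hodd : Odd r) (h : r ∣ 2 * f) : r ∣ f :=
  (hr.dvd_mul.1 h).resolve_left fun h2 => by
    rw [(Nat.prime_dvd_prime_iff_eq hr Nat.prime_two).1 h2] at hodd
    exact absurd hodd (by decide)

theorem exists_field_std {p f : ℕ} [Fact p.Prime] (hq : q = p ^ f) (hF : Fintype.card F = q ^ 2)
    (hn : 3 ≤ n) (hs : ¬ (n = 3 ∧ q = 2)) {x : MulAut PU} (hx : Cfsg.IsFieldAutClassPSU x) {r : ℕ}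
    (hr : r.Prime) (hxr : orderOf x = r) :
    ∃ (α : MulAut PU) (σ : F ≃+* F), α * x * α⁻¹ = semiAut 1 σ ∧ orderOf σ = r ∧ Odd r ∧ r ∣ f ∧
      q = (p ^ (f / r)) ^ r ∧ Nat.card (fixedField σ) = p ^ (2 * (f / r)) := by
  obtain ⟨α, φ, σ, hσ, hodd, hφ, he⟩ := hx
  rw [isFieldAutOf_iff.1 hφ] at he
  have hord : orderOf σ = r := by
    rw [← orderOf_semiAut_one (n := n) hF hn hs σ, ← he, ← hxr]
    exact (MulAut.conj α).orderOf_eq x
  rw [hord] at hodd
  have hF2 : Fintype.card F = p ^ (2 * f) := by rw [hF, hq, ← pow_mul, mul_comm]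
  obtain ⟨hrf, hcard⟩ := fixedField_card hF2 σ hord
  have hrf' : r ∣ f := dvd_of_odd_prime hr hodd hrf
  refine ⟨α, σ, he, hord, hodd, hrf', by rw [← pow_mul, Nat.div_mul_cancel hrf', hq], ?_⟩
  rw [hcard, Nat.mul_div_assoc 2 hrf']

theorem field_class_facts {p f : ℕ} [Fact p.Prime] (hΓ : Cfsg.gammaPSU n F q = ⊤) (hq : q = p ^ f)
    (hF : Fintype.card F = q ^ 2) (hn : 3 ≤ n) (hs : ¬ (n = 3 ∧ q = 2)) {x : MulAut PU}
    (hx : Cfsg.IsFieldAutClassPSU x) {r : ℕ} (hr : r.Prime) (hxr : orderOf x = r) (F₀ : Type v) [Field F₀]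
    [Fintype F₀] (hF₀ : Fintype.card F₀ = p ^ (2 * (f / r))) :
    r ∣ f ∧ Nonempty (↥(Cfsg.inndiagPSU n F q ⊓ Subgroup.centralizer {x}) ≃* Cfsg.PGU n F₀ (p ^ (f / r))) ∧
      Cfsg.splitClassCount (Cfsg.inndiagPSU n F q) (Cfsg.Inn PU) x =
        Nat.gcd n ((q + 1) / (p ^ (f / r) + 1)) := by
  obtain ⟨α, σ, he, hord, hodd, hrf, hq₀, hcard⟩ := exists_field_std hq hF hn hs hx hr hxr
  obtain ⟨i, hi, hi'⟩ := exists_hom_onto_fixedField σ F₀ (by rw [hcard, hF₀])
  have hF₀' : Nat.card F₀ = (p ^ (f / r)) ^ 2 := by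
    rw [Nat.card_eq_fintype_card, hF₀, ← pow_mul, mul_comm]
  refine ⟨hrf, ?_, ?_⟩
  · obtain ⟨e⟩ := nonempty_centralizer_field_equiv hF hn hs σ i hi hi' hF₀' hq₀ hodd
    have e1 := centralizerConjEquiv (H := Cfsg.inndiagPSU n F q) (a := α)
      (fun _ h => conj_mem_inndiag hΓ α h) (fun _ h => inndiag_conj' hΓ α h) x
    rw [he] at e1
    exact ⟨e1.trans e⟩
  · rw [← splitClassCount_transport hΓ α x, he, split_field hF hn hs σ i hi hi' hF₀' hq₀ hodd]

theorem field_coset_conjugacy {p f : ℕ} [Fact p.Prime] (hΓ : Cfsg.gammaPSU n F q = ⊤) (hq : q = p ^ f)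
    (hF : Fintype.card F = q ^ 2) (hn : 3 ≤ n) (hs : ¬ (n = 3 ∧ q = 2)) {x δ : MulAut PU}
    (hx : Cfsg.IsFieldAutClassPSU x) {r : ℕ} (hr : r.Prime) (hxr : orderOf x = r)
    (hδ : δ ∈ Cfsg.inndiagPSU n F q) :
    orderOf (δ * x) = r ↔ Cfsg.IsConjUnder (Cfsg.inndiagPSU n F q) x (δ * x) := by
  obtain ⟨α, σ, he, hord, hodd, -, hq₀, -⟩ := exists_field_std hq hF hn hs hx hr hxr
  have hd' : α * δ * α⁻¹ ∈ Cfsg.inndiagPSU n F q := conj_mem_inndiag hΓ α hδ
  have hmul : α * (δ * x) * α⁻¹ = (α * δ * α⁻¹) * (α * x * α⁻¹) := by group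
  rw [← isConjUnder_conj_iff (a := α) (fun _ h => conj_mem_inndiag hΓ α h) (fun _ h => inndiag_conj' hΓ α h),
    show orderOf (δ * x) = orderOf (α * (δ * x) * α⁻¹) from ((MulAut.conj α).orderOf_eq _).symm, hmul, he]
  exact orderOf_eq_iff_isConjUnder_field hF hn hs (by rw [orderOf_semiAut_one hF hn hs, hord]) hodd hq₀ hd'

/-! ### Counting the elements fixed up to scalars -/

/-- The elements of `GU` fixed by `σ` up to scalars. -/
theorem card_fixed_up_to_scalar (hF : Fintype.card F = q ^ 2) (hn : 1 ≤ n) (σ : F ≃+* F) {r q₀ : ℕ}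
    (hr : orderOf σ = r) (hodd : Odd r) (hq : q = q₀ ^ r) :
    Nat.card {g : ↥GUn // ∃ z : F, z ≠ 0 ∧ (Units.val g.1 : M).map σ = z • (Units.val g.1 : M)} * (q₀ + 1) =
      (q + 1) * Nat.card ↥(Cfsg.GU n (fixedField σ) q₀) := by
  classical
  have hF' : Nat.card F = q ^ 2 := by rw [Nat.card_eq_fintype_card, hF]
  obtain ⟨c⟩ := exists_conj hF'
  have hK : Nat.card (fixedField σ) = q₀ ^ 2 := by
    have h1 := card_eq_fixedField_pow σ hr
    rw [hF', hq, ← pow_mul, mul_comm r 2, pow_mul] at h1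
    exact Nat.pow_left_injective (hr ▸ (Descent.orderOf_ringEquiv_pos σ).ne') h1.symm
  set i : fixedField σ →+* F := (fixedField σ).subtype
  obtain ⟨c₀, hcomp⟩ := exists_conj_compat c i hK hq hodd
  set U := (powMonoidHom (q + 1) : Fˣ →* Fˣ).ker
  have hU : ∀ x : Fˣ, x ∈ U ↔ (x : F) * c.σ x = 1 := fun x => by
    rw [MonoidHom.mem_ker, powMonoidHom_apply, Units.ext_iff, Units.val_pow_eq_pow_val, Units.val_one, c.mul_conj]
  let S : ↥U →* ↥GUn := ((Units.map (Matrix.scalar (Fin n)).toMonoidHom).comp U.subtype).codRestrict _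
    fun x => (scalar_mem_GU_iff c hn x.1).2 ((hU _).1 x.2)
  have hS : ∀ (x : ↥U) (g : ↥GUn), (Units.val (S x * g).1 : M) = (x.1 : F) • (Units.val g.1 : M) := fun x g => by
    rw [Subgroup.coe_mul, Units.val_mul]
    show Matrix.scalar (Fin n) (x.1 : F) * _ = _
    rw [Matrix.scalar_apply, ← Matrix.smul_one_eq_diagonal, Matrix.smul_mul, Matrix.one_mul]
  let Φ : ↥U × ↥(Cfsg.GU n (fixedField σ) q₀) →* ↥GUn :=
    MonoidHom.mk' (fun p => S p.1 * mapU c i c₀ hcomp p.2) fun p p' => by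
      have hcm : S p'.1 * mapU c i c₀ hcomp p.2 = mapU c i c₀ hcomp p.2 * S p'.1 := by
        refine Subtype.ext (Units.ext ?_)
        rw [hS, Subgroup.coe_mul, Units.val_mul]
        show _ = _ * Matrix.scalar (Fin n) (p'.1.1 : F)
        rw [Matrix.scalar_apply, ← Matrix.smul_one_eq_diagonal, Matrix.mul_smul, Matrix.mul_one]
      simp only [Prod.fst_mul, Prod.snd_mul, map_mul, mul_assoc]
      rw [← mul_assoc (mapU c i c₀ hcomp p.2), ← hcm, mul_assoc]
  have hrange : ∀ g : ↥GUn, g ∈ Φ.range ↔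
      ∃ z : F, z ≠ 0 ∧ (Units.val g.1 : M).map σ = z • (Units.val g.1 : M) := by
    intro g
    constructor
    · rintro ⟨⟨x, A⟩, rfl⟩
      refine ⟨σ (x.1 : F) / x.1, div_ne_zero (by simp) x.1.ne_zero, ?_⟩
      rw [show Φ (x, A) = S x * mapU c i c₀ hcomp A from rfl, hS, coe_mapU, smul_smul,
        div_mul_cancel₀ _ x.1.ne_zero]
      ext a b
      simp only [Matrix.map_apply, Matrix.smul_apply, smul_eq_mul, map_mul]
      rw [show σ (i ((Units.val A.1 : Matrix (Fin n) (Fin n) (fixedField σ)) a b)) = _ from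
        ((Units.val A.1 : Matrix (Fin n) (Fin n) (fixedField σ)) a b).2]
      rfl
    · rintro ⟨z, -, hz⟩
      obtain ⟨ν, A, hν, hA⟩ := exists_decomp c σ i (fun y hy => ⟨⟨y, hy⟩, rfl⟩) c₀ hcomp hn g z hz
      refine ⟨(⟨ν, (hU _).2 hν⟩, A), Subtype.ext (Units.ext ?_)⟩
      rw [show Φ _ = S _ * mapU c i c₀ hcomp A from rfl, hS, hA, coe_mapU]
  have hker : Nat.card Φ.ker = q₀ + 1 := by
    rw [← card_norm_one hK]
    have hscK : ∀ x : (fixedField σ)ˣ, x ^ (q₀ + 1) = 1 → (x : fixedField σ) * c₀.σ x = 1 := fun x hx => by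
      rw [c₀.mul_conj, ← Units.val_pow_eq_pow_val, hx, Units.val_one]
    let e : {x : (fixedField σ)ˣ // x ^ (q₀ + 1) = 1} → Φ.ker := fun x =>
      ⟨(⟨(Units.map (i : fixedField σ →* F) x.1)⁻¹, (hU _).2 (by
          rw [Units.val_inv_eq_inv_val, map_inv₀, ← mul_inv, inv_eq_one]
          show i (x.1 : fixedField σ) * c.σ (i (x.1 : fixedField σ)) = 1
          rw [hcomp, ← map_mul, hscK x.1 x.2, map_one])⟩,
        ⟨_, (scalar_mem_GU_iff (n := n) c₀ hn x.1).2 (hscK x.1 x.2)⟩), by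
        refine MonoidHom.mem_ker.2 (Subtype.ext (Units.ext ?_))
        show (Units.val (S _ * mapU c i c₀ hcomp _).1 : M) = 1
        rw [hS, coe_mapU]
        show ((Units.map (i : fixedField σ →* F) x.1)⁻¹ : Fˣ).val •
          (Matrix.scalar (Fin n) (x.1 : fixedField σ)).map i = 1
        rw [Matrix.scalar_apply, Matrix.diagonal_map (map_zero i), ← Matrix.smul_one_eq_diagonal, smul_smul]
        rw [show ((Units.map (i : fixedField σ →* F) x.1)⁻¹ : Fˣ).val * i (x.1 : fixedField σ) = 1 from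
          Units.inv_mul (Units.map (i : fixedField σ →* F) x.1), one_smul]⟩
    refine (Nat.card_congr (Equiv.ofBijective e ⟨fun x y hxy => ?_, fun k => ?_⟩)).symm
    · have h1 := congrArg (fun k : Φ.ker => k.1.1.1) hxy
      exact Subtype.ext (Units.map_injective (f := (i : fixedField σ →* F)) i.injective (inv_injective h1))
    · obtain ⟨⟨x, A⟩, hk⟩ := k
      have hk' : (x.1 : F) • (Units.val A.1 : Matrix (Fin n) (Fin n) (fixedField σ)).map i = 1 := by
        rw [← coe_mapU c i c₀ hcomp A, ← hS]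
        exact congrArg (fun g : ↥GUn => (Units.val g.1 : M)) (MonoidHom.mem_ker.1 hk)
      set y : fixedField σ := (Units.val A.1 : Matrix (Fin n) (Fin n) (fixedField σ)) ⟨0, hn⟩ ⟨0, hn⟩
      have hy : (x.1 : F) * i y = 1 := by
        have := congrFun (congrFun hk' ⟨0, hn⟩) ⟨0, hn⟩
        simpa using this
      have hy0 : y ≠ 0 := by
        intro h0
        rw [h0, map_zero, mul_zero] at hy
        exact zero_ne_one hy
      have hx1 : x.1 = (Units.map (i : fixedField σ →* F) (Units.mk0 y hy0))⁻¹ :=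
        eq_inv_of_mul_eq_one_left (Units.ext hy)
      have hy1 : Units.mk0 y hy0 ^ (q₀ + 1) = 1 := by
        refine Units.map_injective (f := (i : fixedField σ →* F)) i.injective (Units.ext ?_)
        have h2 := (hU _).1 x.2
        rw [hx1, Units.val_inv_eq_inv_val, map_inv₀, ← mul_inv, inv_eq_one] at h2
        rw [map_pow, map_one, Units.val_one, Units.val_pow_eq_pow_val]
        show i y ^ (q₀ + 1) = 1
        rw [← map_pow, ← c₀.mul_conj, map_mul, ← hcomp]
        exact h2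
      refine ⟨⟨Units.mk0 y hy0, hy1⟩, Subtype.ext (Prod.ext (Subtype.ext hx1.symm) (Subtype.ext (Units.ext ?_)))⟩
      refine Matrix.map_injective i.injective ?_
      show (Matrix.scalar (Fin n) y).map i = (Units.val A.1 : Matrix (Fin n) (Fin n) (fixedField σ)).map i
      have h3 : (Units.val A.1 : Matrix (Fin n) (Fin n) (fixedField σ)).map i = i y • (1 : M) := by
        rw [← hk', smul_smul, mul_comm, hy, one_smul]
      rw [h3, Matrix.scalar_apply, Matrix.diagonal_map (map_zero i), Matrix.smul_one_eq_diagonal]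
  have h := Φ.ker.card_eq_card_quotient_mul_card_subgroup
  rw [Nat.card_congr (QuotientGroup.quotientKerEquivRange Φ).toEquiv, Nat.card_prod, hker,
    Nat.card_congr (Equiv.subtypeEquivRight hrange)] at h
  have hUcard : Nat.card ↥U = q + 1 := by
    rw [← card_norm_one hF']
    exact Nat.card_congr (Equiv.subtypeEquivRight fun z => by rw [MonoidHom.mem_ker, powMonoidHom_apply])
  rw [← h, hUcard]

end CfsgLib.ReflectionsSpinor.PSUAut
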