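import Cfsg.Agent.Lib.ReflectionsSpinor.GraphSymp
import Cfsg.Agent.Lib.Forms.SymmOrtho
import Cfsg.Agent.Lib.Classes.QuadDisc

/-!
# Symmetric matrices up to congruence over a finite field of odd characteristic
-/

set_option autoImplicit false
set_option linter.unusedSectionVars false

open Matrix QuadraticMap

namespace CfsgLib.ReflectionsSpinor

universe u

variable {F : Type u} [Field F]

section Finite

variable [Finite F] {ι : Type} [Fintype ι] [DecidableEq ι]

theorem exists_nonsquare (h2 : (2 : F) ≠ 0) : ∃ α : F, ¬IsSquare α := by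
  haveI : Fintype F := Fintype.ofFinite F
  refine FiniteField.exists_nonsquare fun h => h2 ?_
  haveI : CharP F 2 := ringChar.of_eq h
  exact CharTwo.two_eq_zero

theorem isSquare_inv_iff' {d : F} : IsSquare d⁻¹ ↔ IsSquare d :=
  ⟨fun ⟨r, hr⟩ => ⟨r⁻¹, by rw [← _root_.mul_inv, ← hr, inv_inv]⟩,
    fun ⟨r, hr⟩ => ⟨r⁻¹, by rw [hr, _root_.mul_inv]⟩⟩

/-- Diagonal normal form of a symmetric matrix. -/
theorem exists_congr_diagonal (h2 : (2 : F) ≠ 0) {n : ℕ} (α : F) (hα : ¬IsSquare α)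
    (A : GL (Fin (n + 1)) F)
    (hA : (A : Matrix (Fin (n + 1)) (Fin (n + 1)) F)ᵀ = (A : Matrix (Fin (n + 1)) (Fin (n + 1)) F)) :
    ∃ (P : GL (Fin (n + 1)) F) (d : F), (d = 1 ∨ d = α) ∧
      (P : Matrix (Fin (n + 1)) (Fin (n + 1)) F)ᵀ * (A : Matrix (Fin (n + 1)) (Fin (n + 1)) F) *
        (P : Matrix (Fin (n + 1)) (Fin (n + 1)) F) = Matrix.diagonal (fun i => if i = Fin.last n then d else 1) := by
  let B : LinearMap.BilinForm F (Fin (n + 1) → F) := Matrix.toBilin' (A : Matrix (Fin (n + 1)) (Fin (n + 1)) F)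
  have hB : B.Nondegenerate := LinearMap.BilinForm.nondegenerate_toBilin'_of_det_ne_zero' _
    ((Matrix.isUnit_iff_isUnit_det _).1 A.isUnit).ne_zero
  have hS : B.IsSymm := ⟨fun x y => by
    rw [show B x y = _ from Matrix.toBilin'_apply' _ _ _, show B y x = _ from Matrix.toBilin'_apply' _ _ _]
    conv_rhs => rw [Matrix.dotProduct_mulVec, ← Matrix.mulVec_transpose, hA, dotProduct_comm]⟩
  obtain ⟨b, hb1, hb2, hb3⟩ := CfsgLib.Forms.exists_orthogonal_basis_one h2 B hS hB
    (Module.finrank_fin_fun F) α hα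
  let P0 := (Pi.basisFun F (Fin (n + 1))).toMatrix b
  let P : GL (Fin (n + 1)) F := ⟨P0, b.toMatrix (Pi.basisFun F (Fin (n + 1))),
    (Pi.basisFun F (Fin (n + 1))).toMatrix_mul_toMatrix_flip b, b.toMatrix_mul_toMatrix_flip _⟩
  refine ⟨P, B (b (Fin.last n)) (b (Fin.last n)), hb3, ?_⟩
  refine matrix_ext_bilin fun u v => ?_
  rw [← dot_congr_mulVec, ← Matrix.toBilin'_apply']
  have hP : ∀ w, (P : Matrix (Fin (n + 1)) (Fin (n + 1)) F) *ᵥ w = ∑ i, w i • b i := fun w => by
    funext j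
    show (P0 *ᵥ w) j = _
    simp [P0, Matrix.mulVec, dotProduct, Module.Basis.toMatrix_apply, Finset.sum_apply, mul_comm]
  show B _ _ = _
  rw [hP, hP]
  simp only [map_smul, LinearMap.smul_apply, map_sum, LinearMap.sum_apply, smul_eq_mul]
  simp only [dotProduct, Matrix.mulVec_diagonal]
  refine Finset.sum_congr rfl fun i _ => ?_
  rw [Finset.sum_eq_single i]
  · by_cases hi : i = Fin.last n
    · subst hi; rw [if_pos rfl]; ring
    · rw [if_neg hi, hb2 i hi]; ring
  · intro j _ hj; rw [hb1 j i hj, mul_zero]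
  · intro h; exact absurd (Finset.mem_univ _) h

theorem det_diag_last {n : ℕ} (d : F) :
    (Matrix.diagonal (fun i : Fin (n + 1) => if i = Fin.last n then d else 1)).det = d := by
  rw [Matrix.det_diagonal, Finset.prod_ite_eq', if_pos (Finset.mem_univ _)]

/-- Symmetric matrices with determinants in the same square class are congruent. -/
theorem exists_congr_of_isSquare (h2 : (2 : F) ≠ 0) {k : ℕ} (hk : 1 ≤ k) (A B : GL (Fin k) F)
    (hA : (A : Matrix (Fin k) (Fin k) F)ᵀ = (A : Matrix (Fin k) (Fin k) F))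
    (hB : (B : Matrix (Fin k) (Fin k) F)ᵀ = (B : Matrix (Fin k) (Fin k) F))
    (hsq : IsSquare ((A : Matrix (Fin k) (Fin k) F).det * (B : Matrix (Fin k) (Fin k) F).det)) :
    ∃ P : GL (Fin k) F, (P : Matrix (Fin k) (Fin k) F)ᵀ * (B : Matrix (Fin k) (Fin k) F) *
      (P : Matrix (Fin k) (Fin k) F) = (A : Matrix (Fin k) (Fin k) F) := by
  haveI : Fintype F := Fintype.ofFinite F
  obtain ⟨n, rfl⟩ : ∃ n, k = n + 1 := ⟨k - 1, by omega⟩
  obtain ⟨α, hα⟩ := exists_nonsquare h2
  have hα0 : α ≠ 0 := fun h => hα (h ▸ IsSquare.zero)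
  obtain ⟨P, d, hd, hP⟩ := exists_congr_diagonal h2 α hα A hA
  obtain ⟨Q, d', hd', hQ⟩ := exists_congr_diagonal h2 α hα B hB
  have e1 := congrArg Matrix.det hP
  have e2 := congrArg Matrix.det hQ
  rw [det_diag_last, Matrix.det_mul, Matrix.det_mul, Matrix.det_transpose] at e1 e2
  have hdd : d = d' := by
    have h1 : IsSquare (d * d') := by
      obtain ⟨r, hr⟩ := hsq
      refine ⟨r * (P : Matrix (Fin (n + 1)) (Fin (n + 1)) F).det * (Q : Matrix (Fin (n + 1)) (Fin (n + 1)) F).det, ?_⟩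
      rw [← e1, ← e2]
      linear_combination ((P : Matrix (Fin (n + 1)) (Fin (n + 1)) F).det ^ 2 *
        (Q : Matrix (Fin (n + 1)) (Fin (n + 1)) F).det ^ 2) * hr
    rcases hd with rfl | rfl <;> rcases hd' with rfl | rfl
    · rfl
    · exact absurd (one_mul d' ▸ h1) hα
    · exact absurd (mul_one d ▸ h1) hα
    · rfl
  subst hdd
  refine ⟨Q * P⁻¹, ?_⟩
  rw [Units.val_mul, Matrix.transpose_mul]
  calc _ = ((P⁻¹ : GL (Fin (n + 1)) F) : Matrix (Fin (n + 1)) (Fin (n + 1)) F)ᵀ *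
      ((Q : Matrix (Fin (n + 1)) (Fin (n + 1)) F)ᵀ * (B : Matrix (Fin (n + 1)) (Fin (n + 1)) F) *
        (Q : Matrix (Fin (n + 1)) (Fin (n + 1)) F)) *
      ((P⁻¹ : GL (Fin (n + 1)) F) : Matrix (Fin (n + 1)) (Fin (n + 1)) F) := by simp only [Matrix.mul_assoc]
    _ = _ := by
      rw [hQ, ← hP, ← Matrix.mul_assoc, ← Matrix.mul_assoc, ← Matrix.transpose_mul, Units.mul_inv,
        Matrix.transpose_one, Matrix.one_mul, Matrix.mul_assoc, Units.mul_inv, Matrix.mul_one]

/-- In odd dimension all invertible symmetric matrices are congruent up to scalars. -/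
theorem scalCong_symm_odd (h2 : (2 : F) ≠ 0) {k : ℕ} (hk : Odd k) (A B : GL (Fin k) F)
    (hA : (A : Matrix (Fin k) (Fin k) F)ᵀ = (A : Matrix (Fin k) (Fin k) F))
    (hB : (B : Matrix (Fin k) (Fin k) F)ᵀ = (B : Matrix (Fin k) (Fin k) F)) :
    ScalCong (A : Matrix (Fin k) (Fin k) F) (B : Matrix (Fin k) (Fin k) F) := by
  haveI : Fintype F := Fintype.ofFinite F
  have hk1 : 1 ≤ k := by obtain ⟨j, rfl⟩ := hk; omega
  set a := (A : Matrix (Fin k) (Fin k) F).det
  set b := (B : Matrix (Fin k) (Fin k) F).det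
  have ha : a ≠ 0 := ((Matrix.isUnit_iff_isUnit_det _).1 A.isUnit).ne_zero
  have hb : b ≠ 0 := ((Matrix.isUnit_iff_isUnit_det _).1 B.isUnit).ne_zero
  have hab : a * b ≠ 0 := mul_ne_zero ha hb
  -- scaling by `a * b` changes the determinant class as needed
  let A' : GL (Fin k) F := Units.map (Matrix.scalar (Fin k)).toMonoidHom (Units.mk0 _ hab) * A
  have hA' : (A' : Matrix (Fin k) (Fin k) F) = (a * b) • (A : Matrix (Fin k) (Fin k) F) := by
    rw [Units.val_mul]
    show Matrix.scalar (Fin k) (a * b) * _ = _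
    rw [Matrix.scalar_apply, ← Matrix.smul_one_eq_diagonal, Matrix.smul_mul, Matrix.one_mul]
  obtain ⟨P, hP⟩ := exists_congr_of_isSquare h2 hk1 A' B (by rw [hA', Matrix.transpose_smul, hA]) hB (by
    obtain ⟨j, rfl⟩ := hk
    rw [hA', Matrix.det_smul, Fintype.card_fin]
    exact ⟨(a * b) ^ (j + 1), by ring⟩)
  exact ⟨P, Units.mk0 _ hab, hP.trans hA'⟩

end Finite

/-! ### Quadratic forms -/

theorem quadSimilarityGroup_eq_simA (h2 : (2 : F) ≠ 0) {ι : Type} [Fintype ι] [DecidableEq ι]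
    (Q : (ι → F) → F) (A : Matrix ι ι F) (hA : Aᵀ = A) (hQ : ∀ v, 2 * Q v = v ⬝ᵥ A *ᵥ v) :
    Cfsg.Geo.quadSimilarityGroup (F := F) Q = simA A := by
  ext g
  constructor
  · rintro ⟨c, hc⟩
    refine ⟨c, ?_⟩
    set X := (g : Matrix ι ι F)ᵀ * A * (g : Matrix ι ι F) - (c : F) • A with hX
    have hsym : Xᵀ = X := by
      rw [hX, Matrix.transpose_sub, Matrix.transpose_smul, Matrix.transpose_mul, Matrix.transpose_mul,
        Matrix.transpose_transpose, hA, Matrix.mul_assoc]
    have hdiag : ∀ v, v ⬝ᵥ X *ᵥ v = 0 := fun v => by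
      rw [hX, Matrix.sub_mulVec, dotProduct_sub, ← dot_congr_mulVec, Matrix.smul_mulVec, dotProduct_smul,
        smul_eq_mul, ← hQ, ← hQ, hc]
      ring
    suffices X = 0 from sub_eq_zero.1 this
    refine matrix_ext_bilin fun u v => ?_
    have h := hdiag (u + v)
    rw [Matrix.mulVec_add, add_dotProduct, dotProduct_add, dotProduct_add, hdiag, hdiag] at h
    have hs : v ⬝ᵥ X *ᵥ u = u ⬝ᵥ X *ᵥ v := by
      rw [Matrix.dotProduct_mulVec, ← Matrix.mulVec_transpose, hsym, dotProduct_comm]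
    rw [hs, zero_add, add_zero, ← two_mul] at h
    rw [Matrix.zero_mulVec, dotProduct_zero]
    exact (mul_eq_zero.1 h).resolve_left h2
  · rintro ⟨c, hc⟩
    refine ⟨c, fun v => mul_left_cancel₀ h2 ?_⟩
    rw [hQ, dot_congr_mulVec, hc, Matrix.smul_mulVec, dotProduct_smul, smul_eq_mul, ← hQ]
    ring

theorem transpose_hypMatrix (m : ℕ) : (CfsgLib.Classes.hypMatrix m F)ᵀ = CfsgLib.Classes.hypMatrix m F := by
  simp [CfsgLib.Classes.hypMatrix, Matrix.fromBlocks_transpose]

theorem transpose_minusMatrix (m : ℕ) (a b : F) :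
    (CfsgLib.Classes.minusMatrix m a b)ᵀ = CfsgLib.Classes.minusMatrix m a b := by
  rw [CfsgLib.Classes.minusMatrix, Matrix.fromBlocks_transpose, transpose_hypMatrix, Matrix.transpose_zero,
    Matrix.transpose_zero]
  congr 1
  ext i j; fin_cases i <;> fin_cases j <;> rfl

theorem transpose_oddMatrix (m : ℕ) (c : F) :
    (CfsgLib.Classes.oddMatrix m c)ᵀ = CfsgLib.Classes.oddMatrix m c := by
  rw [CfsgLib.Classes.oddMatrix, Matrix.fromBlocks_transpose, transpose_hypMatrix, Matrix.transpose_zero,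
    Matrix.transpose_zero, Matrix.diagonal_transpose]

theorem quadSim_plus (h2 : (2 : F) ≠ 0) (m : ℕ) :
    Cfsg.Geo.quadSimilarityGroup (F := F) (Cfsg.quadFormPlus m F) = simA (CfsgLib.Classes.hypMatrix m F) :=
  quadSimilarityGroup_eq_simA h2 _ _ (transpose_hypMatrix m) fun v => by
    rw [← CfsgLib.Classes.polar_quadFormPlus]
    simp only [polar, Cfsg.quadFormPlus, Pi.add_apply, Finset.mul_sum, ← Finset.sum_sub_distrib]
    exact Finset.sum_congr rfl fun i _ => by ring

theorem quadSim_minus (h2 : (2 : F) ≠ 0) (m : ℕ) (a b : F) :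
    Cfsg.Geo.quadSimilarityGroup (F := F) (Cfsg.quadFormMinus m F a b) =
      simA (CfsgLib.Classes.minusMatrix m a b) :=
  quadSimilarityGroup_eq_simA h2 _ _ (transpose_minusMatrix m a b) fun v => by
    rw [← CfsgLib.Classes.polar_quadFormMinus]
    simp only [polar, Cfsg.quadFormMinus, Pi.add_apply, mul_add, Finset.mul_sum, add_mul, Finset.sum_add_distrib]
    simp only [← Finset.mul_sum]
    ring

theorem quadSim_odd (h2 : (2 : F) ≠ 0) (m : ℕ) :
    Cfsg.Geo.quadSimilarityGroup (F := F) (Cfsg.quadFormOdd m F) = simA (CfsgLib.Classes.oddMatrix m (1 : F)) :=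
  quadSimilarityGroup_eq_simA h2 _ _ (transpose_oddMatrix m 1) fun v => by
    rw [← CfsgLib.Classes.polar_oddForm]
    simp only [polar, Cfsg.quadFormOdd, Pi.add_apply, mul_add, Finset.mul_sum, add_mul, Finset.sum_add_distrib,
      one_mul]
    simp only [← Finset.mul_sum]
    ring

/-- Determinants of similarities of a symmetric matrix in even dimension. -/
theorem map_det_simA_symm [Finite F] (h2 : (2 : F) ≠ 0) {k m : ℕ} (hk : 1 ≤ k) (hkm : k = 2 * m)
    (A : GL (Fin k) F) (hA : (A : Matrix (Fin k) (Fin k) F)ᵀ = (A : Matrix (Fin k) (Fin k) F)) :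
    (simA (A : Matrix (Fin k) (Fin k) F)).map Matrix.GeneralLinearGroup.det =
      ((powMonoidHom k : Fˣ →* Fˣ).range).comap (powMonoidHom 2) := by
  have hdet : (A : Matrix (Fin k) (Fin k) F).det ≠ 0 := ((Matrix.isUnit_iff_isUnit_det _).1 A.isUnit).ne_zero
  apply le_antisymm
  · rintro _ ⟨h, ⟨c, hc⟩, rfl⟩
    refine ⟨c, ?_⟩
    have := det_sq_of_mem_simA hdet hc
    rw [Fintype.card_fin] at this
    exact this.symm
  · rintro d ⟨t, ht⟩
    change t ^ k = d ^ 2 at ht
    -- a reflection gives determinant `-1`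
    have hrefl : ∃ r : GL (Fin k) F, r ∈ simA (A : Matrix (Fin k) (Fin k) F) ∧
        Matrix.GeneralLinearGroup.det r = -1 := by
      obtain ⟨j, rfl⟩ : ∃ j, k = j + 1 := ⟨k - 1, by omega⟩
      obtain ⟨α, hα⟩ := exists_nonsquare h2
      obtain ⟨P, e, -, hP⟩ := exists_congr_diagonal h2 α hα A hA
      let r0 : GL (Fin (j + 1)) F := PSL.dg (fun i => if i = Fin.last j then -1 else 1) (fun i => by split <;> simp)
      have hr0 : r0 ∈ simA ((P : Matrix (Fin (j + 1)) (Fin (j + 1)) F)ᵀ * (A : Matrix _ _ F) *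
          (P : Matrix (Fin (j + 1)) (Fin (j + 1)) F)) := by
        refine ⟨1, ?_⟩
        rw [hP, Units.val_one, one_smul]
        show (Matrix.diagonal _)ᵀ * Matrix.diagonal _ * Matrix.diagonal _ = _
        rw [Matrix.diagonal_transpose, Matrix.diagonal_mul_diagonal, Matrix.diagonal_mul_diagonal]
        congr 1
        funext i
        by_cases hi : i = Fin.last j <;> simp [hi]
      refine ⟨P * r0 * P⁻¹, (mem_simA_congr P _ r0).1 hr0, ?_⟩
      rw [map_mul, map_mul, map_inv, mul_right_comm, mul_inv_cancel, one_mul]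
      refine Units.ext ?_
      show (Matrix.diagonal _).det = -1
      rw [Matrix.det_diagonal, Finset.prod_ite_eq', if_pos (Finset.mem_univ _)]
    -- a similarity with multiplier `t`
    let A' : GL (Fin k) F := Units.map (Matrix.scalar (Fin k)).toMonoidHom t * A
    have hA' : (A' : Matrix (Fin k) (Fin k) F) = (t : F) • (A : Matrix (Fin k) (Fin k) F) := by
      rw [Units.val_mul]
      show Matrix.scalar (Fin k) (t : F) * _ = _
      rw [Matrix.scalar_apply, ← Matrix.smul_one_eq_diagonal, Matrix.smul_mul, Matrix.one_mul]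
    obtain ⟨P, hP⟩ := exists_congr_of_isSquare h2 hk A' A (by rw [hA', Matrix.transpose_smul, hA]) hA (by
      rw [hA', Matrix.det_smul, Fintype.card_fin, show (t : F) ^ k = (t : F) ^ (2 * m) by rw [← hkm]]
      exact ⟨(t : F) ^ m * (A : Matrix (Fin k) (Fin k) F).det, by ring⟩)
    have hPmem : P ∈ simA (A : Matrix (Fin k) (Fin k) F) := ⟨t, hP.trans hA'⟩
    have hsq := det_sq_of_mem_simA hdet (c := t) (hP.trans hA')
    rw [Fintype.card_fin, ht] at hsq
    have h3 : ((Matrix.GeneralLinearGroup.det P : Fˣ) : F) ^ 2 = (d : F) ^ 2 := congrArg Units.val hsq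
    rcases eq_or_eq_neg_of_sq_eq_sq _ _ h3 with h4 | h4
    · exact ⟨P, hPmem, Units.ext h4⟩
    · obtain ⟨r, hr, hrd⟩ := hrefl
      refine ⟨P * r, Subgroup.mul_mem _ hPmem hr, Units.ext ?_⟩
      rw [map_mul, hrd, Units.val_mul, h4, Units.val_neg, Units.val_one]
      ring

namespace PSL

variable {n m : ℕ} [Finite F]

local notation "M" => Matrix (Fin n) (Fin n) F

/-- Matrices of orthogonal type in even dimension. -/
theorem split_gr_symm (h2 : (2 : F) ≠ 0) (hn : 2 ≤ n) (hnm : n = 2 * m) (A : GL (Fin n) F)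
    (hA : (A : M)ᵀ = (A : M)) :
    Cfsg.splitClassCount (Cfsg.inndiagPSL n F) (Cfsg.Inn (Matrix.ProjectiveSpecialLinearGroup (Fin n) F)) (gr A) =
      Nat.gcd n (Nat.card F - 1) / 2 := by
  haveI : Fintype F := Fintype.ofFinite F
  rw [split_gr hn, map_det_simA_symm h2 (by omega) hnm A hA]
  set R2 := (powMonoidHom 2 : Fˣ →* Fˣ).range with hR2
  set Pn := (powMonoidHom n : Fˣ →* Fˣ).range with hPn
  have hle : Pn ≤ Pn.comap (powMonoidHom 2) := fun x hx => Subgroup.pow_mem _ hx 2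
  rw [sup_eq_left.2 hle, Subgroup.index_comap]
  have hP2 : Pn ≤ R2 := by
    rw [hPn, hR2, hnm]; exact range_pow_mul_le 2 m
  have h := Subgroup.relIndex_mul_index hP2
  rw [IsCyclic.index_powMonoidHom_range, IsCyclic.index_powMonoidHom_range, Nat.card_units] at h
  have hodd : Nat.gcd (Nat.card F - 1) 2 = 2 := by
    refine Nat.gcd_eq_right ?_
    have : Fintype.card F % 2 = 1 := FiniteField.odd_card_of_char_ne_two (fun h => h2 (by
      haveI : CharP F 2 := ringChar.of_eq h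
      exact CharTwo.two_eq_zero))
    rw [Nat.card_eq_fintype_card]
    omega
  rw [hodd, Nat.gcd_comm] at h
  rw [← h, Nat.mul_div_cancel _ two_pos]

end PSL

end CfsgLib.ReflectionsSpinor
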