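import Cfsg.Agent.Lib.ReflectionsSpinor.PSUAutBasic
import Cfsg.Agent.Lib.ReflectionsSpinor.PSUFieldAut
import Cfsg.Agent.Lib.ReflectionsSpinor.GraphBasic

/-!
# Involutory graph automorphisms of `PSU_n(q)`

They are the `semiAut g τ`, `τ` the conjugation, with `g τ(g)` scalar; they correspond to the
invertible symmetric or skew matrices `B` over the field `F₀` of order `q`, up to scalar congruence.
-/

set_option autoImplicit false
set_option linter.unusedSectionVars false

open Matrix
open CfsgLib.ClassicalForms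

namespace CfsgLib.ReflectionsSpinor.PSUAut

universe u v

variable {n q : ℕ} {F : Type u} [Field F] [Fintype F] {F₀ : Type v} [Field F₀]

local notation "M" => Matrix (Fin n) (Fin n) F
local notation "M₀" => Matrix (Fin n) (Fin n) F₀
local notation "GUn" => Cfsg.GU n F q
local notation "PU" => Cfsg.PSU n F q

/-- A trivial semilinear automorphism comes from a scalar and the trivial field automorphism. -/
theorem semiAut_eq_one_iff (hF : Fintype.card F = q ^ 2) (hn : 3 ≤ n) (hs : ¬ (n = 3 ∧ q = 2))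
    {g : ↥GUn} {σ : F ≃+* F} : semiAut g σ = 1 ↔ σ = 1 ∧ g.1 ∈ Cfsg.Geo.scalars (Fin n) F := by
  classical
  refine ⟨fun h => ?_, fun ⟨h1, h2⟩ => h1 ▸ semiAut_scalar h2⟩
  suffices hσ : σ = 1 by subst hσ; exact ⟨rfl, (semiAut_one_right_eq_one_iff hF hn hs).1 h⟩
  have hF' : Nat.card F = q ^ 2 := by rw [Nat.card_eq_fintype_card, hF]
  obtain ⟨c⟩ := exists_conj hF'
  -- traces of diagonal special unitary matrices are fixed by `σ`
  set U := (powMonoidHom (q + 1) : Fˣ →* Fˣ).ker
  have hU : ∀ x : ↥U, (x.1 : F) * c.σ x.1 = 1 := fun x => by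
    rw [c.mul_conj, ← Units.val_pow_eq_pow_val, show x.1 ^ (q + 1) = 1 from MonoidHom.mem_ker.1 x.2,
      Units.val_one]
  let a : Fin n := ⟨0, by omega⟩
  let b : Fin n := ⟨1, by omega⟩
  let e : Fin n := ⟨2, by omega⟩
  have htr : ∀ x y : ↥U, σ (x.1 : F) + σ (y.1 : F) + σ ((x * y)⁻¹ : ↥U).1 =
      (x.1 : F) + (y.1 : F) + (((x * y)⁻¹ : ↥U).1 : F) := by
    intro x y
    let d : Fin n → F := fun k =>
      if k = a then (x.1 : F) else if k = b then (y.1 : F) else if k = e then (((x * y)⁻¹ : ↥U).1 : F) else 1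
    obtain ⟨g', hg'⟩ := exists_diag_gu c (d := d) fun k => by
      simp only [d]
      split_ifs <;> first | exact hU _ | rw [map_one, mul_one]
    have hsplit : ∀ f : Fin n → F, (∀ k, k ≠ a → k ≠ b → k ≠ e → f k = 1) →
        ∏ k, f k = f a * f b * f e := by
      intro f hf
      rw [← Finset.prod_subset (Finset.subset_univ {a, b, e}) (fun k _ hk => by
        simp only [Finset.mem_insert, Finset.mem_singleton, not_or] at hk
        exact hf k hk.1 hk.2.1 hk.2.2)]
      rw [Finset.prod_insert (by simp [a, b, e]), Finset.prod_insert (by simp [b, e]), Finset.prod_singleton,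
        mul_assoc]
    have hdet : guDet n F q g' = 1 := by
      refine Units.ext ?_
      show (Units.val g'.1 : M).det = 1
      rw [hg', Matrix.det_diagonal, hsplit d fun k h1 h2 h3 => by simp [d, h1, h2, h3]]
      simp only [d, a, b, e, Fin.mk.injEq, if_true, zero_ne_one, if_false, show (1 : ℕ) ≠ 0 by omega,
        show (2 : ℕ) ≠ 0 by omega, show (2 : ℕ) ≠ 1 by omega]
      rw [← Units.val_mul, ← Units.val_mul, ← Subgroup.coe_mul, ← Subgroup.coe_mul, mul_inv_cancel,
        OneMemClass.coe_one, Units.val_one]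
    have h1 := congrArg (fun s => (mat s).trace) (semiHom_eq_self hF hn hs h (suOfGU g' hdet))
    rw [show mat (suOfGU g' hdet) = (Units.val g'.1 : M) from rfl, hg'] at h1
    change (mat (semiHom g σ (suOfGU g' hdet))).trace = (Matrix.diagonal d).trace at h1
    rw [coe_semiHom, Matrix.trace_mul_cycle, Units.inv_mul, Matrix.one_mul,
      show mat (suOfGU g' hdet) = (Units.val g'.1 : M) from rfl, hg', Matrix.diagonal_map (map_zero σ),
      Matrix.trace_diagonal, Matrix.trace_diagonal, ← sub_eq_zero, ← Finset.sum_sub_distrib] at h1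
    rw [← Finset.sum_subset (Finset.subset_univ {a, b, e}) (fun k _ hk => by
      simp only [Finset.mem_insert, Finset.mem_singleton, not_or] at hk
      simp [d, hk.1, hk.2.1, hk.2.2])] at h1
    rw [Finset.sum_insert (by simp [a, b, e]), Finset.sum_insert (by simp [b, e]), Finset.sum_singleton] at h1
    simp only [d, a, b, e, Function.comp_apply, Fin.mk.injEq, if_true, if_false,
      show (1 : ℕ) ≠ 0 by omega, show (2 : ℕ) ≠ 0 by omega, show (2 : ℕ) ≠ 1 by omega] at h1
    linear_combination h1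
  -- linear independence of characters
  let χ₁ : ↥U →* F := (σ.toRingHom : F →* F).comp ((Units.coeHom F).comp U.subtype)
  let χ₂ : ↥U →* F := χ₁.comp (invMonoidHom : ↥U →* ↥U)
  let χ₃ : ↥U →* F := (Units.coeHom F).comp U.subtype
  let χ₄ : ↥U →* F := χ₃.comp (invMonoidHom : ↥U →* ↥U)
  have hli := linearIndependent_monoidHom ↥U F
  have hrel : ∀ x y : ↥U, (σ (x.1 : F) - x.1) + χ₁ y + σ ((x⁻¹ : ↥U).1 : F) * χ₂ y - χ₃ y -
      ((x⁻¹ : ↥U).1 : F) * χ₄ y = 0 := fun x y => by
    have := htr x y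
    rw [show (((x * y)⁻¹ : ↥U).1 : F) = ((x⁻¹ : ↥U).1 : F) * ((y⁻¹ : ↥U).1 : F) by
      rw [mul_inv, Subgroup.coe_mul, Units.val_mul], map_mul] at this
    show (σ (x.1 : F) - x.1) + σ (y.1 : F) + σ ((x⁻¹ : ↥U).1 : F) * σ ((y⁻¹ : ↥U).1 : F) - (y.1 : F) -
      ((x⁻¹ : ↥U).1 : F) * ((y⁻¹ : ↥U).1 : F) = 0
    linear_combination this
  obtain ⟨l, hl1, hl2, hl3⟩ := exists_norm_one_ne hF' c
  have hl0 : l ≠ 0 := fun h0 => by rw [h0, zero_mul] at hl1; exact zero_ne_one hl1
  let x₀ : ↥U := ⟨Units.mk0 l hl0, by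
    rw [MonoidHom.mem_ker, powMonoidHom_apply, Units.ext_iff, Units.val_pow_eq_pow_val, Units.val_mk0,
      ← c.mul_conj, hl1, Units.val_one]⟩
  have h34 : χ₃ ≠ χ₄ := fun h => hl3 (by
    have h1 : l = l⁻¹ := (DFunLike.congr_fun h x₀).trans (Units.val_inv_eq_inv_val _)
    nth_rw 2 [h1]; exact mul_inv_cancel₀ hl0)
  have h30 : χ₃ ≠ 1 := fun h => hl2 (DFunLike.congr_fun h x₀)
  refine eq_one_of_fix_norm_one hF c fun z hz => ?_
  have hz0 : z ≠ 0 := fun h0 => by rw [h0, zero_mul] at hz; exact zero_ne_one hz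
  let xz : ↥U := ⟨Units.mk0 z hz0, by
    rw [MonoidHom.mem_ker, powMonoidHom_apply, Units.ext_iff, Units.val_pow_eq_pow_val, Units.val_mk0,
      ← c.mul_conj, hz, Units.val_one]⟩
  suffices h13 : χ₁ = χ₃ from DFunLike.congr_fun h13 xz
  by_contra h13
  by_cases h14 : χ₁ = χ₄
  · -- `σ` inverts the norm-one group
    have h23 : χ₂ = χ₃ := by
      rw [show χ₂ = χ₁.comp (invMonoidHom : ↥U →* ↥U) from rfl, h14]
      exact MonoidHom.ext fun y => by show χ₃ y⁻¹⁻¹ = _; rw [inv_inv]
    have h10 : (1 : ↥U →* F) ≠ χ₄ := fun h => h30 (MonoidHom.ext fun y => by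
      have := (DFunLike.congr_fun h y⁻¹).symm
      simpa [χ₄] using this)
    have := Fintype.linearIndependent_iff.1
      (hli.comp ![(1 : ↥U →* F), χ₃, χ₄] (by
        intro p p' hp
        fin_cases p <;> fin_cases p' <;> simp_all [Matrix.cons_val_zero, Matrix.cons_val_one, eq_comm]))
      ![σ (x₀.1 : F) - x₀.1, σ ((x₀⁻¹ : ↥U).1 : F) - 1, 1 - ((x₀⁻¹ : ↥U).1 : F)] (funext fun y => by
        have := hrel x₀ y
        rw [h14, h23] at this
        simp only [Finset.sum_apply, Fin.sum_univ_three, Function.comp_apply, Pi.smul_apply, smul_eq_mul,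
          Matrix.cons_val_zero, Matrix.cons_val_one, Matrix.cons_val, MonoidHom.one_apply, Pi.zero_apply]
        linear_combination this) 2
    simp only [Matrix.cons_val, x₀, Subgroup.coe_inv, Units.val_inv_eq_inv_val, Units.val_mk0, sub_eq_zero] at this
    exact hl2 (inv_eq_one.1 this.symm)
  · -- otherwise the character `χ₃` has coefficient `-1`
    let others : Finset (↥U →* F) := {1, χ₁, χ₂, χ₄}
    have h32 : χ₂ ≠ χ₃ := fun h => h14 (MonoidHom.ext fun y => by
      have := DFunLike.congr_fun h y⁻¹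
      simpa [χ₂, χ₄] using this)
    have hnot : χ₃ ∉ others := by simp [others, h30, Ne.symm h13, Ne.symm h32, h34]
    have hmem : (fun y => χ₃ y) ∈ Submodule.span F ((fun f : ↥U →* F => (f : ↥U → F)) '' (others : Set (↥U →* F))) := by
      have hexp : (fun y => χ₃ y) = (σ (x₀.1 : F) - x₀.1) • ((1 : ↥U →* F) : ↥U → F) + (χ₁ : ↥U → F) +
          σ ((x₀⁻¹ : ↥U).1 : F) • (χ₂ : ↥U → F) + (-((x₀⁻¹ : ↥U).1 : F)) • (χ₄ : ↥U → F) := funext fun y => by
        simp only [Pi.add_apply, Pi.smul_apply, smul_eq_mul, MonoidHom.one_apply, mul_one]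
        linear_combination -(hrel x₀ y)
      rw [hexp]
      refine add_mem (add_mem (add_mem ?_ ?_) ?_) ?_
      · exact Submodule.smul_mem _ _ (Submodule.subset_span ⟨1, by simp [others], rfl⟩)
      · exact Submodule.subset_span ⟨χ₁, by simp [others], rfl⟩
      · exact Submodule.smul_mem _ _ (Submodule.subset_span ⟨χ₂, by simp [others], rfl⟩)
      · exact Submodule.smul_mem _ _ (Submodule.subset_span ⟨χ₄, by simp [others], rfl⟩)
    exact (hli.notMem_span_image (s := (others : Set (↥U →* F))) (x := χ₃) (by exact_mod_cast hnot)) hmem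

/-- A matrix that the conjugation fixes up to a scalar is a multiple of one over `F₀`. -/
theorem exists_descent (σ : F ≃+* F) (i : F₀ →+* F) (hi' : ∀ y, σ y = y → ∃ x, i x = y) (K : GL (Fin n) F)
    (hn : 1 ≤ n) (l : F) (hl : (Units.val K : M).map σ = l • (Units.val K : M)) :
    ∃ (a : Fˣ) (P : GL (Fin n) F₀), (Units.val K : M) = (a : F) • (Units.val P : M₀).map i := by
  set G : M := Units.val K with hG
  haveI : Nonempty (Fin n) := ⟨⟨0, hn⟩⟩
  obtain ⟨i₁, j₁, hab⟩ : ∃ a b, G a b ≠ 0 := by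
    by_contra hno
    push Not at hno
    exact K.ne_zero (Matrix.ext hno)
  have hl0 : l ≠ 0 := by
    rintro rfl
    have := congrFun (congrFun hl i₁) j₁
    rw [zero_smul] at this
    exact hab ((map_eq_zero σ).1 this)
  have hfix : ∀ u w, σ (G u w / G i₁ j₁) = G u w / G i₁ j₁ := fun u w => by
    have h1 := congrFun (congrFun hl u) w
    have h2 := congrFun (congrFun hl i₁) j₁
    simp only [Matrix.map_apply, Matrix.smul_apply, smul_eq_mul] at h1 h2
    rw [map_div₀, h1, h2, mul_div_mul_left _ _ hl0]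
  choose x hx using fun u w => hi' _ (hfix u w)
  have hX : (Matrix.of x : M₀).map i = (G i₁ j₁)⁻¹ • G := by
    ext u w
    rw [Matrix.map_apply, Matrix.smul_apply, smul_eq_mul, mul_comm, ← div_eq_mul_inv]
    exact hx u w
  have hdet : IsUnit (Matrix.of x : M₀).det := by
    refine isUnit_iff_ne_zero.2 fun h0 => ?_
    have h1 : ((Matrix.of x : M₀).map i).det = 0 := by
      rw [← RingHom.mapMatrix_apply, ← RingHom.map_det, h0, map_zero]
    rw [hX, Matrix.det_smul] at h1
    exact mul_ne_zero (pow_ne_zero _ (inv_ne_zero hab)) ((Matrix.isUnit_iff_isUnit_det _).1 K.isUnit).ne_zero h1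
  refine ⟨Units.mk0 _ hab, Matrix.GeneralLinearGroup.mk'' _ hdet, ?_⟩
  show G = G i₁ j₁ • (Matrix.of x : M₀).map i
  rw [hX, smul_inv_smul₀ hab]

/-- A scalar relating two non-zero matrices over `F₀` lies in `F₀`. -/
theorem exists_scalar_preimage (i : F₀ →+* F) {X Y : M₀} (hX : X ≠ 0) {r : F} (h : Y.map i = r • X.map i) :
    ∃ x : F₀, i x = r ∧ Y = x • X := by
  obtain ⟨u, w, huw⟩ : ∃ u w, X u w ≠ 0 := by
    by_contra hno
    push Not at hno
    exact hX (Matrix.ext hno)
  have he : ∀ u w, i (Y u w) = r * i (X u w) := fun u w => congrFun (congrFun h u) w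
  have hr : i (Y u w / X u w) = r := by
    rw [map_div₀, he, mul_div_cancel_right₀ _ ((map_ne_zero i).2 huw)]
  refine ⟨_, hr, Matrix.ext fun a b => i.injective ?_⟩
  rw [Matrix.smul_apply, smul_eq_mul, map_mul, hr, he]

theorem map_smul_matrix (σ : F ≃+* F) (a : F) (X : M) : (a • X).map σ = σ a • X.map σ := by
  ext u w; simp

theorem map_smul_matrix₀ (i : F₀ →+* F) (a : F₀) (X : M₀) : (a • X).map i = i a • X.map i := by
  ext u w; simp

variable (c : Conj F q)

/-- `g` is attached to the form with matrix `B` over `F₀`. -/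
def IsModel (i : F₀ →+* F) (g : Cfsg.GU n F q) (B : Matrix (Fin n) (Fin n) F₀) : Prop :=
  ∃ (H : GL (Fin n) F) (a μ : Fˣ),
    (Units.val H : M)ᵀ * (Units.val H : M).map (conjE c) = (a : F) • B.map i ∧
      (Units.val g.1 : M) * (Units.val H : M).map (conjE c) = (μ : F) • (Units.val H : M)

theorem gu_iff (g : GL (Fin n) F) : g ∈ GUn ↔ (Units.val g : M)ᵀ * (Units.val g : M).map (conjE c) = 1 :=
  mem_GU_conj_iff c g

theorem conjE_map_map (X : M) : (X.map (conjE c)).map (conjE c) = X := by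
  ext u w; exact c.invol _

theorem orderOf_conjE : orderOf (conjE c) = 2 :=
  orderOf_eq_prime (by rw [sq]; exact conjE_mul_self c) (conjE_ne_one c)

variable (hF : Fintype.card F = q ^ 2) (hn : 3 ≤ n) (hs : ¬ (n = 3 ∧ q = 2))
include hF hn hs

/-- Conjugating one graph automorphism into another. -/
theorem conj_graph_iff (h g g' : ↥GUn) :
    semiAut g' (conjE c) = semiAut h 1 * semiAut g (conjE c) * (semiAut h 1)⁻¹ ↔
      ∃ l : F, (Units.val g'.1 : M) * (Units.val h.1 : M).map (conjE c) =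
        l • ((Units.val h.1 : M) * (Units.val g.1 : M)) := by
  rw [eq_mul_inv_iff_mul_eq, semiAut_mul, semiAut_mul, gmapU_one, mul_one, one_mul,
    show semiAut (g' * gmapU (conjE c) h) (conjE c) =
      semiAut (g' * gmapU (conjE c) h) 1 * semiAut 1 (conjE c) by
        rw [semiAut_mul, gmapU_one, mul_one, one_mul],
    show semiAut (h * g) (conjE c) = semiAut (h * g) 1 * semiAut 1 (conjE c) by
        rw [semiAut_mul, gmapU_one, mul_one, one_mul],
    mul_left_inj, ← toAutHom_apply, ← toAutHom_apply, eq_comm, ← inv_mul_eq_one, ← map_inv, ← map_mul,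
    toAutHom_apply, semiAut_one_right_eq_one_iff hF hn hs, Cfsg.Geo.mem_scalars_iff]
  have e : ∀ l : F, (Units.val ((h * g)⁻¹ * (g' * gmapU (conjE c) h)).1 : M) = l • (1 : M) ↔
      (Units.val g'.1 : M) * (Units.val h.1 : M).map (conjE c) =
        l • ((Units.val h.1 : M) * (Units.val g.1 : M)) := by
    intro l
    have e1 : (Units.val ((h * g)⁻¹ * (g' * gmapU (conjE c) h)).1 : M) =
        (Units.val (h * g).1⁻¹ : M) * ((Units.val g'.1 : M) * (Units.val h.1 : M).map (conjE c)) := by
      simp only [Subgroup.coe_mul, Subgroup.coe_inv, Units.val_mul, coe_gmapU]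
    have e2 : (Units.val h.1 : M) * (Units.val g.1 : M) = (Units.val (h * g).1 : M) := by
      rw [Subgroup.coe_mul, Units.val_mul]
    rw [e1, e2]
    constructor
    · intro h1
      have := congrArg ((Units.val (h * g).1 : M) * ·) h1
      simpa [← Matrix.mul_assoc, Matrix.mul_smul] using this
    · intro h1
      rw [h1, Matrix.mul_smul, Units.inv_mul]
  constructor
  · rintro ⟨l, hl⟩; exact ⟨l, (e _).1 hl⟩
  · rintro ⟨l, hl⟩
    have hl0 : l ≠ 0 := by
      rintro rfl
      haveI : Nonempty (Fin n) := ⟨⟨0, by omega⟩⟩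
      rw [zero_smul] at hl
      have := ((g'.1 * gmap (conjE c) h.1).isUnit).ne_zero
      exact this hl
    exact ⟨Units.mk0 l hl0, (e _).2 hl⟩

/-- An involutory graph automorphism is `semiAut g τ` with `g τ(g)` scalar, and comes from a form. -/
theorem exists_model (i : F₀ →+* F) (hi' : ∀ y, conjE c y = y → ∃ x, i x = y)
    {γ : MulAut PU} (hγ : Cfsg.IsGraphAutClassPSU γ) (hγ2 : orderOf γ = 2) :
    ∃ (g : ↥GUn) (B : GL (Fin n) F₀), γ = semiAut g (conjE c) ∧
      ((Units.val B : M₀)ᵀ = Units.val B ∨ (Units.val B : M₀)ᵀ = -Units.val B) ∧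
      IsModel c i g (Units.val B) := by
  haveI : Nonempty (Fin n) := ⟨⟨0, by omega⟩⟩
  obtain ⟨-, δ, φ, σ, hev, hδ, hφ, rfl⟩ := hγ
  obtain ⟨g, rfl⟩ := isInnerDiagonal_iff.1 hδ
  rw [isFieldAutOf_iff.1 hφ, semiAut_mul, map_one, mul_one, one_mul] at hγ2 ⊢
  have hsq : semiAut g σ ^ 2 = 1 := hγ2 ▸ pow_orderOf_eq_one _
  rw [sq, semiAut_mul, semiAut_eq_one_iff hF hn hs] at hsq
  obtain ⟨hσσ, hsc⟩ := hsq
  have hσ1 : σ ≠ 1 := fun h => by rw [h, orderOf_one] at hev; exact absurd hev (by decide)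
  have hσ : σ = conjE c :=
    PSL.involution_unique (orderOf_conjE c) (orderOf_eq_prime (by rw [sq]; exact hσσ) hσ1)
  subst hσ
  obtain ⟨z, hz⟩ := (Cfsg.Geo.mem_scalars_iff _).1 hsc
  set τ := conjE c with hτ
  set G : M := Units.val g.1 with hG
  have hz' : G * G.map τ = (z : F) • 1 := by
    rw [← hz, Subgroup.coe_mul, Units.val_mul, coe_gmapU]
  have hgu : Gᵀ * G.map τ = 1 := (gu_iff c g.1).1 g.2
  have hsym : Gᵀ = (z⁻¹ : Fˣ).val • G := by
    have h1 : G.map τ * Gᵀ = 1 := mul_eq_one_comm.1 hgu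
    have h2 := congrArg (· * Gᵀ) hz'
    simp only [Matrix.mul_assoc, h1, Matrix.mul_one, Matrix.smul_mul, Matrix.one_mul] at h2
    conv_rhs => rw [h2]
    rw [smul_smul, Units.inv_mul, one_smul]
  have hz2 : (z : F) * z = 1 := by
    obtain ⟨u, w, huw⟩ : ∃ u w, G u w ≠ 0 := by
      by_contra hno
      push Not at hno
      exact g.1.ne_zero (Matrix.ext hno)
    have h1 := congrFun (congrFun hsym w) u
    have h2 := congrFun (congrFun hsym u) w
    simp only [Matrix.transpose_apply, Matrix.smul_apply, smul_eq_mul, Units.val_inv_eq_inv_val] at h1 h2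
    rw [h2] at h1
    rw [← mul_assoc, ← mul_inv] at h1
    exact inv_eq_one.1 (mul_right_cancel₀ huw (h1.symm.trans (one_mul _).symm))
  have hzfix : τ (z : F) = z := by
    rcases mul_self_eq_one_iff.1 hz2 with h | h <;> simp [h]
  obtain ⟨μ, H, hH⟩ := Descent.exists_scalar_mul_eq τ g.1 (orderOf_conjE c) (z : F) (by
    show ((g.1 * Matrix.GeneralLinearGroup.map τ.toRingHom (g.1 * Matrix.GeneralLinearGroup.map τ.toRingHom 1) :
      GL (Fin n) F) : M) = _
    rw [map_one, mul_one, Units.val_mul]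
    exact hz') hzfix
  set HM : M := Units.val H with hHM
  have hHτ : (μ : F) • (G * HM.map τ) = HM := by
    have h1 := congrArg Units.val (eq_mul_inv_iff_mul_eq.1 hH)
    rw [Units.val_mul, Units.val_mul] at h1
    change (Matrix.scalar (Fin n) (μ : F) * G) * HM.map τ = HM at h1
    rwa [Matrix.scalar_apply, ← Matrix.smul_one_eq_diagonal, Matrix.smul_mul, Matrix.one_mul, Matrix.smul_mul] at h1
  set A : M := HMᵀ * HM.map τ with hA
  have hzinv : ((z⁻¹ : Fˣ) : F) = (z : F) := by
    rw [Units.val_inv_eq_inv_val]; exact inv_eq_of_mul_eq_one_right hz2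
  have hAτ : A.map τ = (z : F) • A := by
    have h1 : A = (z : F) • A.map τ := by
      rw [hA]
      nth_rw 1 [← hHτ]
      rw [Matrix.transpose_smul, Matrix.transpose_mul, hsym, hzinv, Matrix.mul_smul, Matrix.smul_mul,
        Matrix.smul_mul, smul_comm, Matrix.mul_assoc, ← Matrix.mul_smul, hHτ, Matrix.map_mul, conjE_map_map,
        Matrix.transpose_map]
    have h2 := congrArg (fun X : M => (z : F) • X) h1
    simp only [smul_smul, hz2, one_smul] at h2
    exact h2.symm
  have hAdet : IsUnit A.det := by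
    rw [hA, Matrix.det_mul, Matrix.det_transpose]
    refine ((Matrix.isUnit_iff_isUnit_det _).1 H.isUnit).mul ?_
    exact (Matrix.isUnit_iff_isUnit_det _).1 (gmap τ H).isUnit
  obtain ⟨a, B, hB⟩ := exists_descent τ i hi' (Matrix.GeneralLinearGroup.mk'' A hAdet) (by omega) (z : F) hAτ
  change A = (a : F) • (Units.val B : M₀).map i at hB
  refine ⟨g, B, rfl, ?_, H, a, μ⁻¹, hB, ?_⟩
  · have hherm : (A.map τ)ᵀ = A := by
      rw [hA, Matrix.map_mul, conjE_map_map, Matrix.transpose_mul, Matrix.transpose_map,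
        Matrix.transpose_transpose]
    rw [hAτ, Matrix.transpose_smul, hB, Matrix.transpose_smul, smul_comm, ← Matrix.transpose_map] at hherm
    have h3 := smul_right_injective M a.ne_zero hherm
    rcases mul_self_eq_one_iff.1 hz2 with h | h
    · left
      rw [h, one_smul] at h3
      exact Matrix.map_injective i.injective h3
    · right
      rw [h, neg_one_smul] at h3
      refine Matrix.map_injective i.injective ?_
      show (Units.val B : M₀)ᵀ.map i = (-(Units.val B : M₀)).map i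
      rw [Matrix.map_neg _ (map_neg i), ← h3, neg_neg]
  · show G * HM.map τ = ((μ⁻¹ : Fˣ) : F) • HM
    conv_rhs => rw [← hHτ]
    rw [smul_smul, Units.inv_mul, one_smul]

/-- Every symmetric or skew form over `F₀` gives an involutory graph automorphism. -/
theorem exists_graph_of_form (i : F₀ →+* F) (hi : ∀ x, conjE c (i x) = i x) (B : GL (Fin n) F₀)
    (hB : (Units.val B : M₀)ᵀ = Units.val B ∨ (Units.val B : M₀)ᵀ = -Units.val B) :
    ∃ g : ↥GUn, IsModel c i g (Units.val B) ∧ Cfsg.IsGraphAutClassPSU (semiAut g (conjE c)) ∧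
      orderOf (semiAut g (conjE c)) = 2 := by
  haveI : Nonempty (Fin n) := ⟨⟨0, by omega⟩⟩
  set τ := conjE c with hτ
  obtain ⟨z, hz2, hBz⟩ : ∃ z : F, z * z = 1 ∧ ((Units.val B : M₀)ᵀ).map i = z • (Units.val B : M₀).map i := by
    rcases hB with h | h
    · exact ⟨1, one_mul _, by rw [h, one_smul]⟩
    · exact ⟨-1, by simp, by rw [h, Matrix.map_neg _ (map_neg i), neg_one_smul]⟩
  have hzfix : τ z = z := by rcases mul_self_eq_one_iff.1 hz2 with h | h <;> simp [h]
  obtain ⟨a, ha0, haz⟩ : ∃ a : F, a ≠ 0 ∧ τ a = z * a := by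
    rcases mul_self_eq_one_iff.1 hz2 with h | h
    · exact ⟨1, one_ne_zero, by rw [map_one, h, one_mul]⟩
    · obtain ⟨x, hx⟩ : ∃ x, c.σ x ≠ x := by
        by_contra hno
        push Not at hno
        exact c.ne (RingHom.ext hno)
      refine ⟨x - c.σ x, sub_ne_zero.2 (Ne.symm hx), ?_⟩
      show c.σ (x - c.σ x) = z * (x - c.σ x)
      rw [map_sub, c.invol, h]; ring
  set A : M := a • (Units.val B : M₀).map i with hA
  have hBτ : ((Units.val B : M₀).map i).map τ = (Units.val B : M₀).map i := by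
    ext u w; exact hi _
  have hAdet : IsUnit A.det := by
    rw [hA, Matrix.det_smul, ← RingHom.mapMatrix_apply, ← RingHom.map_det]
    exact (isUnit_iff_ne_zero.2 (pow_ne_zero _ ha0)).mul (((Matrix.isUnit_iff_isUnit_det _).1 B.isUnit).map i)
  have hAτ : A.map τ = z • A := by rw [hA, map_smul_matrix, hBτ, haz, smul_smul]
  have hherm : (A.map τ)ᵀ = A := by
    rw [hAτ, Matrix.transpose_smul, hA, Matrix.transpose_smul, ← Matrix.transpose_map, hBz, smul_smul, smul_smul,
      mul_comm z a, mul_assoc, hz2, mul_one]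
  obtain ⟨hh, hhA⟩ := PSL.exists_hermitian_congr τ (conjE_ne_one c) (conjE_mul_self c)
    (Matrix.GeneralLinearGroup.mk'' A hAdet) hherm
  change A = _ at hhA
  have hHu : IsUnit ((Units.val hh : M)ᵀ) := by
    rw [Matrix.isUnit_iff_isUnit_det, Matrix.det_transpose]
    exact (Matrix.isUnit_iff_isUnit_det _).1 hh.isUnit
  set H : GL (Fin n) F := hHu.unit with hH
  set HM : M := Units.val H with hHM
  have hHA : HMᵀ * HM.map τ = A := by
    rw [hHM, hH, IsUnit.unit_spec, Matrix.transpose_transpose, Matrix.transpose_map, ← hhA]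
  obtain ⟨ν, hν⟩ := c.exists_norm (d := z) hzfix
  have hν0 : ν ≠ 0 := fun h0 => by
    rw [h0, zero_mul] at hν
    rw [← hν, mul_zero] at hz2
    exact zero_ne_one hz2
  set τH : GL (Fin n) F := gmap τ H with hτH
  set g₀ : GL (Fin n) F := Units.map (Matrix.scalar (Fin n)).toMonoidHom (Units.mk0 ν hν0) * (H * τH⁻¹)
  have hg₀ : (Units.val g₀ : M) = ν • (HM * (Units.val τH⁻¹ : M)) := by
    rw [Units.val_mul, Units.val_mul]
    show Matrix.scalar (Fin n) ν * _ = _
    rw [Matrix.scalar_apply, ← Matrix.smul_one_eq_diagonal, Matrix.smul_mul, Matrix.one_mul]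
  have hτHi : (Units.val τH⁻¹ : M).map τ = (Units.val H⁻¹ : M) := by
    have : gmap τ τH⁻¹ = H⁻¹ := by
      rw [hτH, map_inv]
      exact congrArg _ (Units.ext (conjE_map_map c _))
    exact congrArg Units.val this
  have hg₀mem : g₀ ∈ GUn := by
    rw [gu_iff c, hg₀, Matrix.transpose_smul, map_smul_matrix, Matrix.map_mul, hτHi, Matrix.transpose_mul,
      Matrix.smul_mul, Matrix.mul_smul, smul_smul, show ν * τ ν = z from hν,
      show (Units.val τH⁻¹ : M)ᵀ * HMᵀ * (HM.map τ * (Units.val H⁻¹ : M)) =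
        (Units.val τH⁻¹ : M)ᵀ * (HMᵀ * HM.map τ) * (Units.val H⁻¹ : M) by simp only [Matrix.mul_assoc], hHA]
    have h1 : A = z • ((HM.map τ)ᵀ * HM) := by
      have := congrArg (fun X : M => X.map τ) hHA
      rw [Matrix.map_mul, Matrix.transpose_map, conjE_map_map, hAτ] at this
      rw [this, smul_smul, hz2, one_smul]
    rw [h1, Matrix.mul_smul, Matrix.smul_mul, smul_smul, hz2, one_smul, ← Matrix.mul_assoc,
      show HM.map τ = (Units.val τH : M) from rfl, ← Matrix.transpose_mul, Units.mul_inv, Matrix.transpose_one,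
      Matrix.one_mul, hHM, Units.mul_inv]
  have hgH : (Units.val g₀ : M) * HM.map τ = ν • HM := by
    rw [hg₀, Matrix.smul_mul, Matrix.mul_assoc, show HM.map τ = (Units.val τH : M) from rfl, Units.inv_mul,
      Matrix.mul_one]
  refine ⟨⟨g₀, hg₀mem⟩, ⟨H, Units.mk0 a ha0, Units.mk0 ν hν0, hHA, hgH⟩,
    ⟨hn, semiAut ⟨g₀, hg₀mem⟩ 1, semiAut 1 τ, τ, by rw [hτ, orderOf_conjE]; decide,
      isInnerDiagonal_iff.2 ⟨_, rfl⟩, isFieldAutOf_iff.2 rfl,
      by rw [semiAut_mul, gmapU_one, mul_one, one_mul]⟩, ?_⟩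
  refine orderOf_eq_prime ?_ fun h1 => conjE_ne_one c ((semiAut_eq_one_iff hF hn hs).1 h1).1
  rw [sq, semiAut_mul, semiAut_eq_one_iff hF hn hs]
  refine ⟨conjE_mul_self c, (Cfsg.Geo.mem_scalars_iff _).2 ⟨Units.mk0 z (fun h0 => by simp [h0] at hz2), ?_⟩⟩
  rw [Subgroup.coe_mul, Units.val_mul, coe_gmapU, Units.val_mk0]
  show (Units.val g₀ : M) * (Units.val g₀ : M).map τ = _
  rw [hg₀, map_smul_matrix, Matrix.map_mul, hτHi, Matrix.smul_mul, Matrix.mul_smul, smul_smul,
    show ν * τ ν = z from hν]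
  congr 1
  rw [show HM.map τ = (Units.val τH : M) from rfl,
    show HM * (Units.val τH⁻¹ : M) * ((Units.val τH : M) * (Units.val H⁻¹ : M)) =
      HM * ((Units.val τH⁻¹ : M) * (Units.val τH : M)) * (Units.val H⁻¹ : M) by simp only [Matrix.mul_assoc],
    Units.inv_mul, Matrix.mul_one, hHM, Units.mul_inv]

theorem model_skew {i : F₀ →+* F} (hi : ∀ x, conjE c (i x) = i x) {H : GL (Fin n) F} {a : F} {B : M₀}
    (hA : (Units.val H : M)ᵀ * (Units.val H : M).map (conjE c) = a • B.map i) :
    conjE c a • (Bᵀ).map i = a • B.map i := by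
  have h1 : (((Units.val H : M)ᵀ * (Units.val H : M).map (conjE c)).map (conjE c))ᵀ =
      (Units.val H : M)ᵀ * (Units.val H : M).map (conjE c) := by
    rw [Matrix.map_mul, conjE_map_map, Matrix.transpose_mul, Matrix.transpose_map, Matrix.transpose_transpose]
  rw [hA, map_smul_matrix, Matrix.transpose_smul, show (B.map i).map (conjE c) = B.map i by ext u w; exact hi _]
    at h1
  rw [Matrix.transpose_map]
  exact h1

/-- Conjugacy of graph automorphisms is scalar congruence of the forms. -/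
theorem isConjUnder_iff_scalCong (i : F₀ →+* F) (hi : ∀ x, conjE c (i x) = i x)
    (hi' : ∀ y, conjE c y = y → ∃ x, i x = y) {g g' : ↥GUn} {B B' : GL (Fin n) F₀}
    (hg : IsModel c i g (Units.val B)) (hg' : IsModel c i g' (Units.val B')) :
    Cfsg.IsConjUnder (Cfsg.inndiagPSU n F q) (semiAut g (conjE c)) (semiAut g' (conjE c)) ↔
      ScalCong (Units.val B : M₀) (Units.val B' : M₀) := by
  haveI : Nonempty (Fin n) := ⟨⟨0, by omega⟩⟩
  obtain ⟨H, a, μ, hA, hgH⟩ := hg
  obtain ⟨H', a', μ', hA', hgH'⟩ := hg'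
  set τ := conjE c with hτ
  set HM : M := Units.val H with hHM
  set HM' : M := Units.val H' with hHM'
  set BM : M₀ := Units.val B
  set BM' : M₀ := Units.val B'
  have hB0 : BM ≠ 0 := B.ne_zero
  constructor
  · rintro ⟨d, hd, he⟩
    obtain ⟨h, rfl⟩ := mem_inndiag_iff.1 hd
    obtain ⟨l, hl⟩ := (conj_graph_iff c hF hn hs h g g').1 he
    set hM : M := Units.val h.1 with hhM
    set K : GL (Fin n) F := H'⁻¹ * h.1 * H with hK
    have hK' : HM' * (Units.val K : M) = hM * HM := by
      rw [hK, Units.val_mul, Units.val_mul, ← Matrix.mul_assoc, ← Matrix.mul_assoc, hHM', Units.mul_inv,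
        Matrix.one_mul]
    have hKτ : (Units.val K : M).map τ = ((μ'⁻¹ : Fˣ).val * l * μ) • (Units.val K : M) := by
      have h1 : (Units.val g'.1 : M) * (HM' * (Units.val K : M)).map τ = (l * μ) • (hM * HM) := by
        rw [hK', Matrix.map_mul, ← Matrix.mul_assoc, hl, Matrix.smul_mul, Matrix.mul_assoc, hgH, Matrix.mul_smul,
          smul_smul]
      rw [Matrix.map_mul, ← Matrix.mul_assoc, hgH', Matrix.smul_mul, ← hK', ← Matrix.mul_smul,
        ← Matrix.mul_smul] at h1
      have h2 := congrArg ((Units.val H'⁻¹ : M) * ·) h1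
      simp only [← Matrix.mul_assoc, hHM', Units.inv_mul, Matrix.one_mul] at h2
      rw [mul_assoc, mul_smul, ← h2, smul_smul, Units.inv_mul, one_smul]
    obtain ⟨b, P, hP⟩ := exists_descent τ i hi' K (by omega) _ hKτ
    have hhH : hM * HM = (b : F) • (HM' * (Units.val P : M₀).map i) := by
      rw [← hK', hP, Matrix.mul_smul]
    have h3 : (a : F) • BM.map i =
        ((b : F) * τ b * a') • ((Units.val P : M₀)ᵀ * BM' * (Units.val P : M₀)).map i := by
      rw [← hA]
      calc HMᵀ * HM.map τ = (hM * HM)ᵀ * (hM * HM).map τ := by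
            rw [Matrix.transpose_mul, Matrix.map_mul, show HMᵀ * hMᵀ * (hM.map τ * HM.map τ) =
              HMᵀ * (hMᵀ * hM.map τ) * HM.map τ by simp only [Matrix.mul_assoc], (gu_iff c h.1).1 h.2,
              Matrix.mul_one]
        _ = _ := by
            rw [hhH, map_smul_matrix, Matrix.map_mul, Matrix.transpose_smul, Matrix.transpose_mul,
              show ((Units.val P : M₀).map i).map τ = (Units.val P : M₀).map i by ext u w; exact hi _,
              Matrix.smul_mul, Matrix.mul_smul, smul_smul,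
              show ((Units.val P : M₀).map i)ᵀ * HM'ᵀ * (HM'.map τ * (Units.val P : M₀).map i) =
                ((Units.val P : M₀).map i)ᵀ * (HM'ᵀ * HM'.map τ) * (Units.val P : M₀).map i by
                simp only [Matrix.mul_assoc], hA', Matrix.mul_smul, Matrix.smul_mul, smul_smul, Matrix.map_mul,
              Matrix.map_mul, Matrix.transpose_map]
    obtain ⟨x, hx, hxB⟩ := exists_scalar_preimage i hB0 (r := (a : F) / ((b : F) * τ b * a'))
      (Y := (Units.val P : M₀)ᵀ * BM' * (Units.val P : M₀)) (by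
        have hne : (b : F) * τ b * a' ≠ 0 := mul_ne_zero (mul_ne_zero b.ne_zero ((map_ne_zero τ).2 b.ne_zero)) a'.ne_zero
        rw [div_eq_mul_inv, mul_comm, ← smul_smul, h3, inv_smul_smul₀ hne])
    have hx0 : x ≠ 0 := by
      rintro rfl
      rw [map_zero] at hx
      exact div_ne_zero a.ne_zero (mul_ne_zero (mul_ne_zero b.ne_zero ((map_ne_zero τ).2 b.ne_zero)) a'.ne_zero)
        hx.symm
    exact ⟨P, Units.mk0 x hx0, hxB⟩
  · rintro ⟨P, d, hPd⟩
    change (Units.val P : M₀)ᵀ * BM' * (Units.val P : M₀) = (d : F₀) • BM at hPd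
    set PM : M := (Units.val P : M₀).map i with hPM
    have hPτ : PM.map τ = PM := by ext u w; exact hi _
    set H1 : M := HM' * PM with hH1
    have hA1 : H1ᵀ * H1.map τ = ((a' : F) * i (d : F₀)) • BM.map i := by
      rw [hH1, Matrix.transpose_mul, Matrix.map_mul, hPτ,
        show PMᵀ * HM'ᵀ * (HM'.map τ * PM) = PMᵀ * (HM'ᵀ * HM'.map τ) * PM by simp only [Matrix.mul_assoc], hA',
        Matrix.mul_smul, Matrix.smul_mul, hPM, ← Matrix.transpose_map, ← Matrix.map_mul, ← Matrix.map_mul, hPd,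
        map_smul_matrix₀, smul_smul]
    set a1 : F := (a' : F) * i (d : F₀) with ha1
    have ha10 : a1 ≠ 0 := mul_ne_zero a'.ne_zero ((map_ne_zero i).2 d.ne_zero)
    have hskew := model_skew c hF hn hs hi hA
    have hskew1 : τ a1 • (BMᵀ).map i = a1 • BM.map i := by
      have h1 := model_skew c hF hn hs hi hA'
      have h2 : (BMᵀ).map i = i (d : F₀)⁻¹ • (PMᵀ * (BM'ᵀ).map i * PM) := by
        have h4 : (Units.val P : M₀)ᵀ * BM'ᵀ * (Units.val P : M₀) = (d : F₀) • BMᵀ := by
          have := congrArg Matrix.transpose hPd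
          rwa [Matrix.transpose_mul, Matrix.transpose_mul, Matrix.transpose_transpose, Matrix.transpose_smul,
            ← Matrix.mul_assoc] at this
        rw [hPM, ← Matrix.transpose_map, ← Matrix.map_mul, ← Matrix.map_mul, h4, map_smul_matrix₀, smul_smul,
          ← map_mul, inv_mul_cancel₀ d.ne_zero, map_one, one_smul]
      have h5 : BM.map i = i (d : F₀)⁻¹ • (PMᵀ * BM'.map i * PM) := by
        rw [hPM, ← Matrix.transpose_map, ← Matrix.map_mul, ← Matrix.map_mul, hPd, map_smul_matrix₀, smul_smul,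
          ← map_mul, inv_mul_cancel₀ d.ne_zero, map_one, one_smul]
      rw [h2, h5, smul_smul, smul_smul, ha1, map_mul, hi]
      rw [show τ (a' : F) * i (d : F₀) * i (d : F₀)⁻¹ = τ (a' : F) by
            rw [mul_assoc, ← map_mul, mul_inv_cancel₀ d.ne_zero, map_one, mul_one],
          show (a' : F) * i (d : F₀) * i (d : F₀)⁻¹ = (a' : F) by
            rw [mul_assoc, ← map_mul, mul_inv_cancel₀ d.ne_zero, map_one, mul_one],
          ← Matrix.smul_mul, ← Matrix.mul_smul, h1, Matrix.mul_smul, Matrix.smul_mul]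
    have hρ : τ ((a : F) / a1) = (a : F) / a1 := by
      have hBt : (BMᵀ).map i ≠ 0 := by
        intro h0
        refine hB0 (Matrix.ext fun u w => i.injective ?_)
        have := congrFun (congrFun h0 w) u
        simpa using this
      have h1 : (τ (a : F) * a1) • (BMᵀ).map i = (τ a1 * (a : F)) • (BMᵀ).map i := by
        rw [mul_comm (τ (a : F)), ← smul_smul, hskew, smul_comm, ← hskew1, smul_smul, mul_comm]
      rw [map_div₀, div_eq_div_iff ((map_ne_zero τ).2 ha10) ha10]
      refine (smul_left_injective F hBt h1).trans (mul_comm _ _)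
    obtain ⟨w, hw⟩ := c.exists_norm (d := (a : F) / a1) hρ
    have hw0 : w ≠ 0 := fun h0 => by
      rw [h0, zero_mul] at hw
      exact div_ne_zero a.ne_zero ha10 hw.symm
    set h0 : GL (Fin n) F := Units.map (Matrix.scalar (Fin n)).toMonoidHom (Units.mk0 w hw0) *
      (H' * Matrix.GeneralLinearGroup.map i P * H⁻¹) with hh0
    have hhH : (Units.val h0 : M) * HM = w • H1 := by
      rw [hh0, Units.val_mul, Units.val_mul, Units.val_mul]
      show Matrix.scalar (Fin n) w * (HM' * PM * (Units.val H⁻¹ : M)) * HM = _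
      rw [Matrix.scalar_apply, ← Matrix.smul_one_eq_diagonal, Matrix.smul_mul, Matrix.one_mul, Matrix.smul_mul,
        Matrix.mul_assoc _ _ HM, hHM, Units.inv_mul, Matrix.mul_one]
    have hmem : h0 ∈ GUn := by
      rw [gu_iff c]
      have h1 : HMᵀ * ((Units.val h0 : M)ᵀ * (Units.val h0 : M).map τ) * HM.map τ = HMᵀ * 1 * HM.map τ := by
        rw [Matrix.mul_one, show HMᵀ * ((Units.val h0 : M)ᵀ * (Units.val h0 : M).map τ) * HM.map τ =
          ((Units.val h0 : M) * HM)ᵀ * ((Units.val h0 : M) * HM).map τ by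
            rw [Matrix.transpose_mul, Matrix.map_mul]; simp only [Matrix.mul_assoc], hhH, map_smul_matrix,
          Matrix.transpose_smul, Matrix.smul_mul, Matrix.mul_smul, hA1, hA, smul_smul, smul_smul,
          show w * τ w = (a : F) / a1 from hw, div_mul_cancel₀ _ ha10]
      have h2 : IsUnit HMᵀ := by
        rw [Matrix.isUnit_iff_isUnit_det, Matrix.det_transpose]
        exact (Matrix.isUnit_iff_isUnit_det _).1 H.isUnit
      exact h2.mul_left_cancel ((gmap τ H).isUnit.mul_right_cancel h1)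
    refine ⟨semiAut ⟨h0, hmem⟩ 1, semiAut_mem_inndiag _, (conj_graph_iff c hF hn hs _ g g').2 ⟨τ w * μ' / (w * μ), ?_⟩⟩
    refine (gmap τ H).isUnit.mul_right_cancel ?_
    show (Units.val g'.1 : M) * (Units.val h0 : M).map τ * HM.map τ = _ * HM.map τ
    rw [Matrix.mul_assoc, ← Matrix.map_mul, hhH, map_smul_matrix, hH1, Matrix.map_mul, hPτ, Matrix.mul_smul,
      ← Matrix.mul_assoc, hgH', Matrix.smul_mul, smul_smul, Matrix.smul_mul, Matrix.mul_assoc, hgH,
      Matrix.mul_smul, hhH, smul_smul, smul_smul, hH1]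
    congr 1
    field_simp [hw0, μ.ne_zero]

end CfsgLib.ReflectionsSpinor.PSUAut
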