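import Cfsg.Agent.Lib.ReflectionsSpinor.GraphBasic
import Cfsg.Agent.Lib.Forms.Symplectic
import Cfsg.Agent.Lib.Forms.SympMatrix

/-!
# Alternating matrices up to congruence, and determinants of similarities
-/

set_option autoImplicit false
set_option linter.unusedSectionVars false

open Matrix

namespace CfsgLib.ReflectionsSpinor

universe u

variable {F : Type u} [Field F] {ι κ : Type} [Fintype ι] [DecidableEq ι] [Fintype κ] [DecidableEq κ]

/-- A linear equivalence carrying one bilinear form to a multiple of another gives congruence. -/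
theorem scalCong_of_linearEquiv (A : Matrix κ κ F) (B : Matrix ι ι F) (e : ι ≃ κ)
    (E : (κ → F) ≃ₗ[F] (ι → F)) (c : Fˣ)
    (h : ∀ u v, (E u) ⬝ᵥ B *ᵥ (E v) = (c : F) * (u ⬝ᵥ A *ᵥ v)) :
    ScalCong A (Matrix.reindex e e B) := by
  let T : (κ → F) ≃ₗ[F] (κ → F) := E.trans (LinearEquiv.funCongrLeft F F e.symm)
  let P : GL κ F := ⟨LinearMap.toMatrix' T.toLinearMap, LinearMap.toMatrix' T.symm.toLinearMap,
    by rw [← LinearMap.toMatrix'_comp]; simp, by rw [← LinearMap.toMatrix'_comp]; simp⟩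
  have hP : ∀ u, (P : Matrix κ κ F) *ᵥ u = E u ∘ e.symm := fun u => LinearMap.toMatrix'_mulVec _ u
  refine ⟨P, c, matrix_ext_bilin fun u v => ?_⟩
  rw [← dot_congr_mulVec, hP, hP, Matrix.smul_mulVec, dotProduct_smul, smul_eq_mul, ← h,
    Matrix.reindex_apply, Matrix.submatrix_mulVec_equiv]
  rw [Equiv.symm_symm, Function.comp_assoc, Equiv.symm_comp_self, Function.comp_id]
  exact comp_equiv_dotProduct_comp_equiv _ _ _

/-- An invertible alternating matrix is congruent to the standard one. -/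
theorem scalCong_J {m : ℕ} (e : Fin m ⊕ Fin m ≃ κ) (A : GL κ F)
    (hA : (A : Matrix κ κ F)ᵀ = -(A : Matrix κ κ F)) (hd : ∀ i, (A : Matrix κ κ F) i i = 0) :
    ScalCong (A : Matrix κ κ F) (Matrix.reindex e e (Matrix.J (Fin m) F)) := by
  let B : LinearMap.BilinForm F (κ → F) := Matrix.toBilin' (A : Matrix κ κ F)
  have hB : B.Nondegenerate := LinearMap.BilinForm.nondegenerate_toBilin'_of_det_ne_zero' _
    ((Matrix.isUnit_iff_isUnit_det _).1 A.isUnit).ne_zero
  have hskew : ∀ a b, (A : Matrix κ κ F) b a = -(A : Matrix κ κ F) a b := fun a b =>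
    congrFun (congrFun hA a) b
  have hadd : ∀ x y, B x y + B y x = 0 := by
    intro x y
    have h1 : B y x = x ⬝ᵥ (A : Matrix κ κ F)ᵀ *ᵥ y := by
      rw [show B y x = y ⬝ᵥ (A : Matrix κ κ F) *ᵥ x from Matrix.toBilin'_apply' _ _ _,
        Matrix.dotProduct_mulVec, Matrix.mulVec_transpose, dotProduct_comm]
    rw [h1, hA, show B x y = x ⬝ᵥ (A : Matrix κ κ F) *ᵥ y from Matrix.toBilin'_apply' _ _ _,
      Matrix.neg_mulVec, dotProduct_neg, add_neg_cancel]
  have hsingle : ∀ (i : κ) (c : F), B (Pi.single i c) (Pi.single i c) = 0 := fun i c => by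
    rw [show B (Pi.single i c) (Pi.single i c) = _ from Matrix.toBilin'_apply' _ _ _]
    simp [hd]
  have halt : B.IsAlt := by
    intro v
    have hv : v = ∑ i, Pi.single i (v i) := (Finset.univ_sum_single v).symm
    rw [hv]
    induction (Finset.univ : Finset κ) using Finset.induction_on with
    | empty => simp
    | insert i s hi ih =>
      rw [Finset.sum_insert hi, map_add, map_add, LinearMap.add_apply, LinearMap.add_apply, hsingle, ih]
      linear_combination hadd (Pi.single i (v i)) (∑ j ∈ s, Pi.single j (v j))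
  obtain ⟨E, hE⟩ := CfsgLib.Forms.alt_isometric B hB halt (CfsgLib.Omega.sympBilin m F)
    (CfsgLib.Forms.sympBilin_nondeg m F) (CfsgLib.Forms.sympBilin_isAlt m F)
    (by rw [Module.finrank_fintype_fun_eq_card, Module.finrank_fintype_fun_eq_card, Fintype.card_congr e])
  refine scalCong_of_linearEquiv _ _ e E 1 fun u v => ?_
  rw [Units.val_one, one_mul, ← Matrix.toBilin'_apply', ← Matrix.toBilin'_apply']
  exact hE u v

theorem not_scalCong_symm_alt (h2 : (2 : F) ≠ 0) [Nonempty ι] {A B : Matrix ι ι F} (hA : A.det ≠ 0)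
    (hAt : Aᵀ = -A) (hBt : Bᵀ = B) : ¬ ScalCong A B := by
  rintro ⟨P, c, h⟩
  have h1 := congrArg Matrix.transpose h
  rw [Matrix.transpose_smul, Matrix.transpose_mul, Matrix.transpose_mul, Matrix.transpose_transpose, hBt,
    ← Matrix.mul_assoc, h, hAt, smul_neg] at h1
  have h3 : ((2 : F) * (c : F)) • A = 0 := by
    rw [mul_smul, two_smul]
    nth_rw 1 [h1]
    exact neg_add_cancel _
  refine hA ?_
  rw [(smul_eq_zero.1 h3).resolve_left (mul_ne_zero h2 c.ne_zero), Matrix.det_zero]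

theorem isSquare_det_of_scalCong (hι : Even (Fintype.card ι)) {A B : Matrix ι ι F} (h : ScalCong A B) :
    IsSquare (A.det * B.det) := by
  obtain ⟨P, c, h⟩ := h
  obtain ⟨m, hm⟩ := hι
  have h1 := congrArg Matrix.det h
  rw [Matrix.det_mul, Matrix.det_mul, Matrix.det_transpose, Matrix.det_smul, hm] at h1
  refine ⟨(P : Matrix ι ι F).det * B.det * ((c : F) ^ m)⁻¹, ?_⟩
  have hc : (c : F) ^ m ≠ 0 := pow_ne_zero _ c.ne_zero
  rw [pow_add] at h1
  field_simp
  linear_combination -(B.det) * h1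

/-! ### Determinants of similarities -/

theorem det_sq_of_mem_simA {A : Matrix ι ι F} (hA : A.det ≠ 0) {h : GL ι F} {c : Fˣ}
    (hc : (h : Matrix ι ι F)ᵀ * A * (h : Matrix ι ι F) = (c : F) • A) :
    Matrix.GeneralLinearGroup.det h ^ 2 = c ^ Fintype.card ι := by
  refine Units.ext ?_
  have h1 := congrArg Matrix.det hc
  rw [Matrix.det_mul, Matrix.det_mul, Matrix.det_transpose, Matrix.det_smul] at h1
  rw [Units.val_pow_eq_pow_val, Units.val_pow_eq_pow_val, Matrix.GeneralLinearGroup.val_det_apply]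
  exact mul_right_cancel₀ hA (by linear_combination h1)

theorem det_reindexGL (e : ι ≃ κ) (g : GL ι F) :
    Matrix.GeneralLinearGroup.det (reindexGL e g) = Matrix.GeneralLinearGroup.det g :=
  Units.ext (Matrix.det_reindex_self e _)

theorem map_det_simA_reindex (e : ι ≃ κ) (A : Matrix ι ι F) :
    (simA (Matrix.reindex e e A)).map Matrix.GeneralLinearGroup.det =
      (simA A).map Matrix.GeneralLinearGroup.det := by
  rw [← simA_reindex, Subgroup.map_map]
  congr 1
  exact MonoidHom.ext (det_reindexGL e)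

theorem map_det_simA_of_scalCong {A B : Matrix ι ι F} (h : ScalCong A B) :
    (simA A).map Matrix.GeneralLinearGroup.det = (simA B).map Matrix.GeneralLinearGroup.det := by
  obtain ⟨P, c, h⟩ := h
  rw [← simA_smul c A, ← h, ← simA_congr P B, Subgroup.map_map]
  congr 1
  refine MonoidHom.ext fun g => ?_
  show _ = Matrix.GeneralLinearGroup.det (P * g * P⁻¹)
  rw [map_mul, map_mul, map_inv, mul_right_comm, mul_inv_cancel, one_mul]

theorem map_det_simA_J (m : ℕ) :
    (simA (Matrix.J (Fin m) F)).map Matrix.GeneralLinearGroup.det =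
      (powMonoidHom m : Fˣ →* Fˣ).range := by
  have hD : ∀ c : Fˣ, ∃ D : GL (Fin m ⊕ Fin m) F, Matrix.GeneralLinearGroup.det D = c ^ m ∧
      (D : Matrix (Fin m ⊕ Fin m) (Fin m ⊕ Fin m) F)ᵀ * Matrix.J (Fin m) F *
        (D : Matrix (Fin m ⊕ Fin m) (Fin m ⊕ Fin m) F) = (c : F) • Matrix.J (Fin m) F := by
    intro c
    let D0 : Matrix (Fin m ⊕ Fin m) (Fin m ⊕ Fin m) F := Matrix.fromBlocks ((c : F) • 1) 0 0 1
    have hdet : D0.det = (c : F) ^ m := by
      rw [Matrix.det_fromBlocks_zero₂₁, Matrix.det_one, mul_one, Matrix.det_smul, Matrix.det_one, mul_one,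
        Fintype.card_fin]
    refine ⟨Matrix.GeneralLinearGroup.mk'' D0 (isUnit_iff_ne_zero.2 (hdet ▸ pow_ne_zero _ c.ne_zero)),
      Units.ext hdet, ?_⟩
    show D0ᵀ * Matrix.J (Fin m) F * D0 = _
    simp [D0, Matrix.J, Matrix.fromBlocks_transpose, Matrix.fromBlocks_multiply, Matrix.fromBlocks_smul]
  apply le_antisymm
  · rintro _ ⟨h, ⟨c, hc⟩, rfl⟩
    refine ⟨c, ?_⟩
    obtain ⟨D, hDd, hDJ⟩ := hD c
    have hg : ((h * D⁻¹ : GL (Fin m ⊕ Fin m) F) : Matrix (Fin m ⊕ Fin m) (Fin m ⊕ Fin m) F) ∈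
        Matrix.symplecticGroup (Fin m) F := by
      refine SymplecticGroup.mem_iff'.2 ?_
      rw [Units.val_mul, Matrix.transpose_mul]
      set H := (h : Matrix (Fin m ⊕ Fin m) (Fin m ⊕ Fin m) F)
      set Di := ((D⁻¹ : GL (Fin m ⊕ Fin m) F) : Matrix (Fin m ⊕ Fin m) (Fin m ⊕ Fin m) F) with hDi
      calc Diᵀ * Hᵀ * Matrix.J (Fin m) F * (H * Di) = Diᵀ * (Hᵀ * Matrix.J (Fin m) F * H) * Di := by
            simp only [Matrix.mul_assoc]
        _ = Diᵀ * ((D : Matrix (Fin m ⊕ Fin m) (Fin m ⊕ Fin m) F)ᵀ * Matrix.J (Fin m) F *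
            (D : Matrix (Fin m ⊕ Fin m) (Fin m ⊕ Fin m) F)) * Di := by rw [hc, hDJ]
        _ = Matrix.J (Fin m) F := by
            rw [← Matrix.mul_assoc, ← Matrix.mul_assoc, ← Matrix.transpose_mul, hDi, Units.mul_inv,
              Matrix.transpose_one, Matrix.one_mul, Matrix.mul_assoc, Units.mul_inv, Matrix.mul_one]
    have h1 : Matrix.GeneralLinearGroup.det (h * D⁻¹) = 1 := Units.ext (SymplecticGroup.det_eq_one hg)
    rw [map_mul, map_inv, mul_inv_eq_one] at h1
    rw [h1, hDd]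
    rfl
  · rintro _ ⟨c, rfl⟩
    obtain ⟨D, hDd, hDJ⟩ := hD c
    exact ⟨D, ⟨c, hDJ⟩, hDd⟩

theorem range_pow_mul_le (m k : ℕ) :
    (powMonoidHom (m * k) : Fˣ →* Fˣ).range ≤ (powMonoidHom m : Fˣ →* Fˣ).range := by
  rintro _ ⟨x, rfl⟩
  exact ⟨x ^ k, by simp [← pow_mul, mul_comm]⟩

namespace PSL

variable {n m : ℕ} [Finite F]

local notation "M" => Matrix (Fin n) (Fin n) F

/-- Matrices of symplectic type. -/
theorem split_gr_symp (hn : 2 ≤ n) (hnm : n = 2 * m) (A : GL (Fin n) F) (e : Fin m ⊕ Fin m ≃ Fin n)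
    (h : ScalCong (A : M) (Matrix.reindex e e (Matrix.J (Fin m) F))) :
    Cfsg.splitClassCount (Cfsg.inndiagPSL n F) (Cfsg.Inn (Matrix.ProjectiveSpecialLinearGroup (Fin n) F)) (gr A) =
      Nat.gcd m (Nat.card F - 1) := by
  rw [split_gr hn, map_det_simA_of_scalCong h, map_det_simA_reindex, map_det_simA_J,
    sup_eq_left.2 (by rw [hnm, mul_comm 2 m]; exact range_pow_mul_le m 2), IsCyclic.index_powMonoidHom_range,
    Nat.card_units, Nat.gcd_comm]

/-- In characteristic two, and for odd `n`, determinants of similarities are `n`-th powers. -/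
theorem split_gr_of_pow (hn : 2 ≤ n) (A : GL (Fin n) F)
    (hpow : ∀ d c : Fˣ, d ^ 2 = c ^ n → d ∈ (powMonoidHom n : Fˣ →* Fˣ).range) :
    Cfsg.splitClassCount (Cfsg.inndiagPSL n F) (Cfsg.Inn (Matrix.ProjectiveSpecialLinearGroup (Fin n) F)) (gr A) =
      Nat.gcd n (Nat.card F - 1) := by
  rw [split_gr hn, sup_eq_right.2, IsCyclic.index_powMonoidHom_range, Nat.card_units, Nat.gcd_comm]
  rintro _ ⟨h, ⟨c, hc⟩, rfl⟩
  refine hpow _ c ?_
  have := det_sq_of_mem_simA ((Matrix.isUnit_iff_isUnit_det _).1 A.isUnit).ne_zero hc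
  rwa [Fintype.card_fin] at this

theorem pow_of_odd (hn : Odd n) (d c : Fˣ) (h : d ^ 2 = c ^ n) : d ∈ (powMonoidHom n : Fˣ →* Fˣ).range := by
  obtain ⟨k, rfl⟩ := hn
  refine ⟨d / c ^ k, ?_⟩
  show (d / c ^ k) ^ (2 * k + 1) = d
  rw [pow_succ, pow_mul, div_pow, h, ← pow_mul, show k * 2 = 2 * k by ring, pow_succ c, mul_div_cancel_left,
    ← mul_div_assoc, mul_div_cancel_left]

theorem pow_of_charTwo [CharP F 2] (d c : Fˣ) (h : d ^ 2 = c ^ n) :
    d ∈ (powMonoidHom n : Fˣ →* Fˣ).range := by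
  obtain ⟨s, hs⟩ := FiniteField.isSquare_of_char_two (F := F) (ringChar.eq F 2) (c : F)
  have hs0 : s ≠ 0 := fun h0 => c.ne_zero (by rw [hs, h0, zero_mul])
  refine ⟨Units.mk0 s hs0, Units.ext ?_⟩
  show s ^ n = (d : F)
  refine frobenius_inj F 2 ?_
  show (s ^ n) ^ 2 = (d : F) ^ 2
  rw [← pow_mul, mul_comm, pow_mul, sq, ← hs, ← Units.val_pow_eq_pow_val, ← h, Units.val_pow_eq_pow_val]

end PSL

end CfsgLib.ReflectionsSpinor
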