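import Cfsg.Agent.Lib.ReflectionsSpinor.PSpAutMain
import Cfsg.Agent.Lib.ReflectionsSpinor.GraphSymp

/-!
# Field automorphisms of `PSp_{2m}(F)`: conjugacy, centralisers and splitting of classes
-/

set_option autoImplicit false
set_option linter.unusedSectionVars false

open Matrix
open CfsgLib.ClassicalLinear

namespace CfsgLib.ReflectionsSpinor.PSpAut

universe u v

variable {m : ℕ} {F : Type u} [Field F]

local notation "V" => (Fin m ⊕ Fin m → F)
local notation "M2" => Matrix (Fin m ⊕ Fin m) (Fin m ⊕ Fin m) F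
local notation "Sp" => Matrix.symplecticGroup (Fin m) F
local notation "GS" => Cfsg.GSp m F
local notation "PS" => Cfsg.PSp m F

theorem gsp_eq_simA : Cfsg.GSp m F = simA (Matrix.J (Fin m) F) :=
  similarityGroup_eq_simA _ _ fun _ _ => rfl

theorem mem_gsp_iff {g : GL (Fin m ⊕ Fin m) F} :
    g ∈ GS ↔ ∃ c : Fˣ, (Units.val g : M2)ᵀ * Matrix.J (Fin m) F * (Units.val g : M2) =
      (c : F) • Matrix.J (Fin m) F := by
  rw [gsp_eq_simA]; exact mem_simA

theorem J_map {K : Type v} [Field K] (i : F →+* K) :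
    (Matrix.J (Fin m) F).map i = Matrix.J (Fin m) K := by
  simp [Matrix.J, Matrix.fromBlocks_map, Matrix.map_neg]

theorem J_apply_entry (hm : 1 ≤ m) :
    Matrix.J (Fin m) F (Sum.inr ⟨0, hm⟩) (Sum.inl ⟨0, hm⟩) = 1 := by
  simp [Matrix.J]

theorem smul_J_injective (hm : 1 ≤ m) {a b : F}
    (h : a • Matrix.J (Fin m) F = b • Matrix.J (Fin m) F) : a = b := by
  have := congrFun (congrFun h (Sum.inr ⟨0, hm⟩)) (Sum.inl ⟨0, hm⟩)
  simpa [J_apply_entry hm] using this

/-- Scalar matrices are similarities. -/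
theorem scalars_le_gsp : Cfsg.Geo.scalars (Fin m ⊕ Fin m) F ≤ GS := by
  rw [gsp_eq_simA]; exact scalars_le_simA _

/-- Scalar similarities. -/
noncomputable def scS (μ : Fˣ) : ↥GS :=
  ⟨Units.map (Matrix.scalar (Fin m ⊕ Fin m)).toMonoidHom μ, scalars_le_gsp ⟨μ, rfl⟩⟩

theorem coe_scS (μ : Fˣ) : (Units.val (scS (m := m) μ).1 : M2) = (μ : F) • (1 : M2) :=
  (Matrix.smul_one_eq_diagonal _).symm

theorem semiAut_scalar {g : ↥GS} (hg : g.1 ∈ Cfsg.Geo.scalars (Fin m ⊕ Fin m) F) : semiAut g 1 = 1 := by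
  obtain ⟨c, hc⟩ := (Cfsg.Geo.mem_scalars_iff _).1 hg
  refine aut_ext fun s => ?_
  rw [semiAut_cl, MulAut.one_apply]
  refine congrArg cl (Subtype.ext ?_)
  have h1 : (s : M2).map (⇑(1 : F ≃+* F)) = (s : M2) := by ext i j; rfl
  rw [coe_semiHom, h1, hc, Matrix.smul_mul, Matrix.one_mul]
  calc (c : F) • (s : M2) * (Units.val g.1⁻¹ : M2)
      = (s : M2) * (((c : F) • (1 : M2)) * (Units.val g.1⁻¹ : M2)) := by
        rw [← Matrix.mul_assoc, Matrix.mul_smul, Matrix.mul_one]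
    _ = _ := by rw [← hc, Units.mul_inv, Matrix.mul_one]

theorem semiAut_eq_one_iff (hm : 2 ≤ m) {g : ↥GS} {σ : F ≃+* F} :
    semiAut g σ = 1 ↔ σ = 1 ∧ g.1 ∈ Cfsg.Geo.scalars (Fin m ⊕ Fin m) F := by
  refine ⟨fun h => ?_, fun ⟨h1, h2⟩ => h1 ▸ semiAut_scalar h2⟩
  have key : ∀ w : V, w ≠ 0 → ∃ r : F, (Units.val g.1 : M2) *ᵥ (σ ∘ w) = r • w := by
    intro w hw
    obtain ⟨b, hb, hT⟩ := semiHom_spT g σ w 1
    have h1 : T w (1 : F) = T ((Units.val g.1 : M2) *ᵥ (σ ∘ w)) (σ 1 * b) := by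
      rw [T, T, ← hT, ← semiAut_cl, h]; rfl
    obtain ⟨t, ht⟩ := Submodule.mem_span_singleton.1 (T_line hm hw one_ne_zero h1)
    have ht0 : t ≠ 0 := by
      rintro rfl
      rw [zero_smul] at ht
      exact hw ht.symm
    refine ⟨t⁻¹, ?_⟩
    rw [← ht, inv_smul_smul₀ ht0]
    rw [ht]
  have hone : ∀ i, (σ ∘ (Pi.single i 1 : V)) = Pi.single i 1 := fun i => by
    funext j; by_cases hj : j = i <;> simp [hj, Pi.single_apply]
  choose r hr using fun i => key (Pi.single i 1) (Pi.single_ne_zero_iff.2 one_ne_zero)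
  have hpair : ∀ i j : Fin m ⊕ Fin m, i ≠ j → ∀ c : F, σ c * r j = r i * c := by
    intro i j hij c
    obtain ⟨t, ht⟩ := key (Pi.single i 1 + c • Pi.single j 1) (fun h0 => by
      have := congrFun h0 i
      simp [Pi.single_apply, hij] at this)
    rw [show σ ∘ (Pi.single i 1 + c • Pi.single j 1 : V) = σ ∘ Pi.single i 1 + σ c • (σ ∘ Pi.single j 1) from
      funext fun k => by simp, Matrix.mulVec_add, Matrix.mulVec_smul, hr, hr] at ht
    have hi := congrFun ht i
    have hj := congrFun ht j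
    simp [Pi.single_apply, hij, Ne.symm hij] at hi hj
    rw [hi]; exact hj
  have heq : ∀ i j, r j = r i := fun i j => by
    by_cases hij : i = j
    · rw [hij]
    · simpa using hpair i j hij 1
  let i0 : Fin m ⊕ Fin m := Sum.inl ⟨0, by omega⟩
  have hr0 : r i0 ≠ 0 := by
    intro h0
    have h1 := congrArg ((Units.val g.1⁻¹ : M2) *ᵥ ·) (hr i0)
    simp only [h0, zero_smul, Matrix.mulVec_zero, Matrix.mulVec_mulVec, Units.inv_mul, Matrix.one_mulVec,
      hone] at h1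
    exact Pi.single_ne_zero_iff.2 one_ne_zero h1
  refine ⟨RingEquiv.ext fun c => ?_, (Cfsg.Geo.mem_scalars_iff _).2 ⟨Units.mk0 _ hr0, ?_⟩⟩
  · have h1 := hpair i0 (Sum.inr ⟨0, by omega⟩) (by simp [i0]) c
    rw [heq i0, mul_comm (r i0)] at h1
    exact mul_right_cancel₀ hr0 h1
  · refine Matrix.ext_of_mulVec_single fun i => ?_
    rw [Units.val_mk0, Matrix.smul_mulVec, Matrix.one_mulVec, ← heq i0 i, ← hr i, hone]

theorem toAutHom_ker (hm : 2 ≤ m) :
    (toAutHom (m := m) (F := F)).ker = (Cfsg.Geo.scalars (Fin m ⊕ Fin m) F).subgroupOf GS := by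
  ext g
  rw [MonoidHom.mem_ker, toAutHom_apply, semiAut_eq_one_iff hm, Subgroup.mem_subgroupOf]
  exact and_iff_right rfl

/-- The twisted norm inside the similarities. -/
theorem twNorm_mem (g : ↥GS) (σ : F ≃+* F) : ∀ k, Descent.twNorm σ g.1 k ∈ GS
  | 0 => one_mem _
  | k + 1 => mul_mem g.2 (gmap_mem σ (twNorm_mem g σ k))

theorem semiAut_pow (g : ↥GS) (σ : F ≃+* F) : ∀ k : ℕ,
    semiAut g σ ^ k = semiAut ⟨Descent.twNorm σ g.1 k, twNorm_mem g σ k⟩ (σ ^ k)
  | 0 => by rw [pow_zero, pow_zero]; exact semiAut_one.symm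
  | k + 1 => by
    rw [pow_succ', semiAut_pow g σ k, semiAut_mul, pow_succ']
    rfl

theorem twNorm_one (σ : F ≃+* F) : ∀ k, Descent.twNorm σ (1 : GL (Fin m ⊕ Fin m) F) k = 1
  | 0 => rfl
  | k + 1 => by
    show (1 : GL (Fin m ⊕ Fin m) F) * _ = 1
    rw [twNorm_one σ k, map_one, one_mul]

theorem orderOf_semiAut_one (hm : 2 ≤ m) (σ : F ≃+* F) :
    orderOf (semiAut (1 : ↥GS) σ) = orderOf σ := by
  refine orderOf_eq_orderOf_iff.2 fun k => ?_
  rw [semiAut_pow, semiAut_eq_one_iff hm]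
  refine and_iff_left ?_
  show Descent.twNorm σ (1 : GL (Fin m ⊕ Fin m) F) k ∈ _
  rw [twNorm_one]
  exact one_mem _

variable [Finite F]

theorem inn_conj {α δ : MulAut PS} (h : δ ∈ Cfsg.Inn PS) : α * δ * α⁻¹ ∈ Cfsg.Inn PS := by
  obtain ⟨k, rfl⟩ := h
  exact ⟨α k, MulEquiv.ext fun x => by simp [MulAut.conj_apply]⟩

theorem inn_le_inndiag : Cfsg.Inn PS ≤ Cfsg.inndiagPSp m F := by
  rintro _ ⟨k, rfl⟩
  obtain ⟨s, rfl⟩ := cl_surjective k
  rw [inner_eq_semiAut]
  exact semiAut_mem_inndiag _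

/-- In characteristic two every inner-diagonal automorphism is inner. -/
theorem inndiag_le_inn (h2 : (2 : F) = 0) : Cfsg.inndiagPSp m F ≤ Cfsg.Inn PS := by
  intro β hβ
  obtain ⟨g, rfl⟩ := mem_inndiag_iff.1 hβ
  obtain ⟨c, hc⟩ := mem_gsp_iff.1 g.2
  haveI : CharP F 2 := CharTwo.of_one_ne_zero_of_two_eq_zero one_ne_zero h2
  obtain ⟨d, hd⟩ := FiniteField.isSquare_of_char_two (ringChar.eq F 2) (c : F)
  have hd0 : d ≠ 0 := by
    rintro rfl
    exact c.ne_zero (by rw [hd, mul_zero])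
  set g' : ↥GS := scS (Units.mk0 d hd0)⁻¹ * g with hg'
  have hmem : (Units.val g'.1 : M2) ∈ Sp := by
    refine SymplecticGroup.mem_iff'.2 ?_
    rw [hg', Subgroup.coe_mul, Units.val_mul, coe_scS, Matrix.smul_mul, Matrix.one_mul, Matrix.transpose_smul,
      Matrix.smul_mul, Matrix.smul_mul, Matrix.mul_smul, smul_smul, hc, smul_smul, Units.val_inv_eq_inv_val,
      Units.val_mk0, hd]
    rw [show d⁻¹ * d⁻¹ * (d * d) = 1 by field_simp, one_smul]
  have e : g' = spS ⟨_, hmem⟩ := Subtype.ext (Units.ext rfl)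
  have e2 : semiAut g 1 = semiAut g' 1 := by
    rw [hg', ← toAutHom_apply, ← toAutHom_apply, map_mul, toAutHom_apply (scS _),
      semiAut_scalar ⟨_, rfl⟩, one_mul]
  rw [e2, e, ← inner_eq_semiAut]
  exact ⟨_, rfl⟩

theorem conj_mem_inndiag (hm : 2 ≤ m) (α : MulAut PS) {δ : MulAut PS} (h : δ ∈ Cfsg.inndiagPSp m F) :
    α * δ * α⁻¹ ∈ Cfsg.inndiagPSp m F := by
  by_cases h2 : (2 : F) = 0
  · exact inn_le_inndiag (inn_conj (inndiag_le_inn h2 h))
  · haveI : Fintype F := Fintype.ofFinite F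
    obtain ⟨g, σ, rfl⟩ := exists_semiAut hm (fun _ => h2) α
    obtain ⟨k, rfl⟩ := mem_inndiag_iff.1 h
    rw [semiAut_inv, semiAut_mul, semiAut_mul, mul_one, mul_inv_cancel]
    exact semiAut_mem_inndiag _

theorem inndiag_conj' (hm : 2 ≤ m) (α : MulAut PS) {δ : MulAut PS} (h : δ ∈ Cfsg.inndiagPSp m F) :
    α⁻¹ * δ * α ∈ Cfsg.inndiagPSp m F := by
  have := conj_mem_inndiag hm α⁻¹ h
  rwa [inv_inv] at this

theorem splitClassCount_transport (hm : 2 ≤ m) (α x : MulAut PS) :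
    Cfsg.splitClassCount (Cfsg.inndiagPSp m F) (Cfsg.Inn PS) (α * x * α⁻¹) =
      Cfsg.splitClassCount (Cfsg.inndiagPSp m F) (Cfsg.Inn PS) x :=
  splitClassCount_conj (fun _ h => conj_mem_inndiag hm α h) (fun _ h => inndiag_conj' hm α h)
    (fun _ h => inn_conj h) (fun _ h => by simpa using inn_conj (α := α⁻¹) h) x

/-- An element of the coset of order `r` is conjugate to the standard field automorphism. -/
theorem isConjUnder_of_pow_eq_one (hm : 2 ≤ m) (g : ↥GS) {σ : F ≃+* F} {r : ℕ}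
    (hr : orderOf σ = r) (h : semiAut g σ ^ r = 1) :
    Cfsg.IsConjUnder (Cfsg.inndiagPSp m F) (semiAut 1 σ) (semiAut g σ) := by
  haveI : Nonempty (Fin m ⊕ Fin m) := ⟨Sum.inl ⟨0, by omega⟩⟩
  rw [semiAut_pow, semiAut_eq_one_iff hm] at h
  obtain ⟨hσ, hsc⟩ := h
  obtain ⟨c, hc⟩ := (Cfsg.Geo.mem_scalars_iff _).1 hsc
  have hfix : σ (c : F) = c := by
    have h1 : ∀ k, g.1 * gmap σ (Descent.twNorm σ g.1 k) = Descent.twNorm σ g.1 k * gmap (σ ^ k) g.1 := by
      intro k
      induction k with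
      | zero =>
        show g.1 * gmap σ 1 = 1 * gmap (σ ^ 0) g.1
        rw [map_one, mul_one, one_mul, pow_zero]
        exact Units.ext (by ext i j; rfl)
      | succ k ih =>
        show g.1 * gmap σ (g.1 * gmap σ (Descent.twNorm σ g.1 k)) =
          g.1 * gmap σ (Descent.twNorm σ g.1 k) * _
        have hpow : gmap (σ ^ (k + 1)) g.1 = gmap σ (gmap (σ ^ k) g.1) := by
          refine Units.ext ?_
          show (Units.val g.1 : M2).map (⇑(σ ^ (k + 1))) = ((Units.val g.1 : M2).map (⇑(σ ^ k))).map σ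
          rw [Matrix.map_map, pow_succ']
          rfl
        rw [mul_assoc, hpow, ← map_mul, ← ih]
    have h2 : (Units.val g.1 : M2) * ((c : F) • (1 : M2)).map σ =
        ((c : F) • (1 : M2)) * (Units.val g.1 : M2).map (⇑(σ ^ r)) := by
      rw [← hc]
      exact congrArg Units.val (h1 r)
    have h3 : ((c : F) • (1 : M2)).map σ = σ (c : F) • (1 : M2) := by
      ext i j; by_cases hij : i = j <;> simp [hij]
    have h4 : (Units.val g.1 : M2).map (⇑(σ ^ r)) = (Units.val g.1 : M2) := by rw [hσ]; ext i j; rfl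
    rw [h3, h4, Matrix.mul_smul, Matrix.mul_one, Matrix.smul_mul, Matrix.one_mul] at h2
    obtain ⟨i, j, hij⟩ : ∃ i j, (Units.val g.1 : M2) i j ≠ 0 := by
      by_contra hno
      push Not at hno
      exact g.1.ne_zero (Matrix.ext hno)
    have h5 := congrFun (congrFun h2 i) j
    simp only [Matrix.smul_apply, smul_eq_mul] at h5
    exact mul_right_cancel₀ hij h5
  obtain ⟨μ, H, hH⟩ := Descent.exists_scalar_mul_eq σ g.1 hr (c : F) hc hfix
  set g' : ↥GS := scS μ * g with hg'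
  have hHσ : Units.val g'.1 * (Units.val H : M2).map σ = (Units.val H : M2) :=
    congrArg Units.val (eq_mul_inv_iff_mul_eq.1 hH)
  obtain ⟨c', hc'⟩ := mem_gsp_iff.1 g'.2
  -- the form seen through `H` is, up to a scalar, defined over the fixed field
  set A : M2 := (Units.val H : M2)ᵀ * Matrix.J (Fin m) F * (Units.val H : M2) with hA
  have hAσ : (c' : F) • A.map σ = A := by
    rw [hA]
    conv_rhs => rw [← hHσ]
    rw [Matrix.map_mul, Matrix.map_mul, Matrix.transpose_map,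
      show (Matrix.J (Fin m) F).map σ = Matrix.J (Fin m) F from J_map σ.toRingHom, Matrix.transpose_mul]
    calc (c' : F) • (((Units.val H : M2).map σ)ᵀ * Matrix.J (Fin m) F * (Units.val H : M2).map σ)
        = ((Units.val H : M2).map σ)ᵀ * ((c' : F) • Matrix.J (Fin m) F) * (Units.val H : M2).map σ := by
          simp only [Matrix.smul_mul, Matrix.mul_smul]
      _ = _ := by rw [← hc']; simp only [Matrix.mul_assoc]
  have hAdet : A.det ≠ 0 := by
    rw [hA, Matrix.det_mul, Matrix.det_mul, Matrix.det_transpose]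
    have hH' := ((Matrix.isUnit_iff_isUnit_det _).1 H.isUnit).ne_zero
    exact mul_ne_zero (mul_ne_zero hH' (Matrix.isUnit_det_J (Fin m) F).ne_zero) hH'
  obtain ⟨i₀, j₀, ha⟩ : ∃ i j, A i j ≠ 0 := by
    by_contra hno
    push Not at hno
    haveI := ‹Nonempty (Fin m ⊕ Fin m)›
    exact hAdet (by rw [show A = 0 from Matrix.ext hno, Matrix.det_zero])
  set a := A i₀ j₀
  have hent : ∀ i j, A i j / a ∈ fixedField σ := fun i j => by
    rw [mem_fixedField, map_div₀]
    have e1 := congrFun (congrFun hAσ i) j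
    have e2 := congrFun (congrFun hAσ i₀) j₀
    simp only [Matrix.smul_apply, Matrix.map_apply, smul_eq_mul] at e1 e2
    rw [div_eq_div_iff ((map_ne_zero σ).2 ha) ha]
    refine mul_left_cancel₀ c'.ne_zero ?_
    rw [← mul_assoc, e1, mul_left_comm, e2]
  let i₁ : fixedField σ →+* F := (fixedField σ).subtype
  let B : Matrix (Fin m ⊕ Fin m) (Fin m ⊕ Fin m) (fixedField σ) := Matrix.of fun i j => ⟨_, hent i j⟩
  have hBA : B.map i₁ = a⁻¹ • A := by
    ext i j
    show A i j / a = a⁻¹ * A i j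
    rw [div_eq_inv_mul]
  have hBdet : IsUnit B.det := by
    refine isUnit_iff_ne_zero.2 fun h0 => ?_
    have h1 : (B.map i₁).det = 0 := by rw [← RingHom.mapMatrix_apply, ← RingHom.map_det, h0, map_zero]
    rw [hBA, Matrix.det_smul] at h1
    exact mul_ne_zero (pow_ne_zero _ (inv_ne_zero ha)) hAdet h1
  have hAskew : ∀ i j, A j i = -A i j := fun i j => by
    have : Aᵀ = -A := by
      rw [hA, Matrix.transpose_mul, Matrix.transpose_mul, Matrix.transpose_transpose, Matrix.J_transpose,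
        Matrix.neg_mul, Matrix.mul_neg, Matrix.mul_assoc]
    exact congrFun (congrFun this i) j
  have hAdiag : ∀ i, A i i = 0 := fun i => by
    have h1 : A i i = ((Units.val H : M2) *ᵥ Pi.single i 1) ⬝ᵥ
        Matrix.J (Fin m) F *ᵥ ((Units.val H : M2) *ᵥ Pi.single i 1) := by
      rw [dot_congr_mulVec, ← hA]; simp
    rw [h1]
    exact (CfsgLib.Omega.sympBilin_apply _ _).symm.trans (CfsgLib.Omega.sympBilin_self _)
  obtain ⟨P, e, hP⟩ := scalCong_J (F := fixedField σ) (Equiv.refl (Fin m ⊕ Fin m))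
    (Matrix.GeneralLinearGroup.mk'' B hBdet)
    (Matrix.ext fun i j => Subtype.ext (show A j i / a = -(A i j / a) by rw [hAskew, neg_div]))
    (fun i => Subtype.ext (show A i i / a = 0 by rw [hAdiag, zero_div]))
  rw [Matrix.reindex_apply, Equiv.refl_symm, Equiv.coe_refl, Matrix.submatrix_id_id] at hP
  set Q : GL (Fin m ⊕ Fin m) F := Matrix.GeneralLinearGroup.map i₁ P with hQ
  have hQJ : (Units.val Q : M2)ᵀ * Matrix.J (Fin m) F * (Units.val Q : M2) = ((e : fixedField σ) : F) • (a⁻¹ • A) := by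
    rw [← hBA]
    have h1 := congrArg (fun X => Matrix.map X i₁) hP
    simp only [Matrix.map_mul, Matrix.transpose_map, J_map] at h1
    refine h1.trans (Matrix.ext fun i j => ?_)
    show i₁ ((e : fixedField σ) * B i j) = _
    rw [map_mul]; rfl
  set H' : GL (Fin m ⊕ Fin m) F := H * Q⁻¹ with hH'
  have hmem : H' ∈ GS := by
    have he0 : ((e : fixedField σ) : F) ≠ 0 := fun h0 => e.ne_zero (Subtype.ext h0)
    refine mem_gsp_iff.2 ⟨Units.mk0 (((e : fixedField σ) : F) * a⁻¹)⁻¹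
      (inv_ne_zero (mul_ne_zero he0 (inv_ne_zero ha))), ?_⟩
    rw [hH', Units.val_mul, Matrix.transpose_mul, Units.val_mk0]
    have hA' : A = (((e : fixedField σ) : F) * a⁻¹)⁻¹ •
        ((Units.val Q : M2)ᵀ * Matrix.J (Fin m) F * (Units.val Q : M2)) := by
      rw [hQJ, smul_smul ((e : fixedField σ) : F), inv_smul_smul₀ (mul_ne_zero he0 (inv_ne_zero ha))]
    calc (Units.val Q⁻¹ : M2)ᵀ * (Units.val H : M2)ᵀ * Matrix.J (Fin m) F * ((Units.val H : M2) * (Units.val Q⁻¹ : M2))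
        = (Units.val Q⁻¹ : M2)ᵀ * A * (Units.val Q⁻¹ : M2) := by rw [hA]; simp only [Matrix.mul_assoc]
      _ = (((e : fixedField σ) : F) * a⁻¹)⁻¹ • (((Units.val Q⁻¹ : M2)ᵀ * (Units.val Q : M2)ᵀ) *
            Matrix.J (Fin m) F * ((Units.val Q : M2) * (Units.val Q⁻¹ : M2))) := by
          rw [hA', Matrix.mul_smul, Matrix.smul_mul]; simp only [Matrix.mul_assoc]
      _ = _ := by rw [← Matrix.transpose_mul, Units.mul_inv, Matrix.transpose_one, Matrix.one_mul, Matrix.mul_one]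
  have hQσ : gmap σ Q = Q := Units.ext (Matrix.ext fun i j =>
    ((Units.val P : Matrix (Fin m ⊕ Fin m) (Fin m ⊕ Fin m) (fixedField σ)) i j).2)
  refine ⟨semiAut ⟨H', hmem⟩ 1, semiAut_mem_inndiag _, ?_⟩
  have e1 : semiAut g σ = semiAut g' σ := by
    rw [hg', show semiAut (scS μ * g) σ = semiAut (scS μ) 1 * semiAut g σ by
      rw [semiAut_mul, gmapS_one, one_mul], semiAut_scalar ⟨μ, rfl⟩, one_mul]
  rw [e1, semiAut_inv, semiAut_mul, semiAut_mul, one_mul, inv_one, mul_one]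
  simp only [gmapS_one, map_one, mul_one]
  refine congrArg (semiAut · σ) (Subtype.ext ?_)
  show g'.1 = H' * gmap σ H'⁻¹
  rw [hH', _root_.mul_inv_rev, inv_inv, map_mul, hQσ, map_inv, ← mul_assoc, inv_mul_cancel_right]
  exact hH

theorem orderOf_eq_iff_isConjUnder_field (hm : 2 ≤ m) {σ : F ≃+* F} {r : ℕ}
    (hr : orderOf (semiAut (1 : ↥GS) σ) = r) {δ : MulAut PS} (hδ : δ ∈ Cfsg.inndiagPSp m F) :
    orderOf (δ * semiAut 1 σ) = r ↔
      Cfsg.IsConjUnder (Cfsg.inndiagPSp m F) (semiAut 1 σ) (δ * semiAut 1 σ) := by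
  constructor
  · intro h
    obtain ⟨g, rfl⟩ := mem_inndiag_iff.1 hδ
    rw [semiAut_mul, map_one, mul_one, one_mul] at h ⊢
    refine isConjUnder_of_pow_eq_one hm g ?_ (orderOf_dvd_iff_pow_eq_one.1 h.dvd)
    rw [← hr, orderOf_semiAut_one hm]
  · rintro ⟨d, -, he⟩
    rw [he, ← hr]
    exact (MulAut.conj d).orderOf_eq _

/-! ### The centraliser -/

/-- The similarities over a subfield. -/
noncomputable def mapS {F₀ : Type v} [Field F₀] (i : F₀ →+* F) : ↥(Cfsg.GSp m F₀) →* ↥GS :=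
  ((Matrix.GeneralLinearGroup.map i).comp (Cfsg.GSp m F₀).subtype).codRestrict _ fun g => by
    obtain ⟨c, hc⟩ := mem_gsp_iff.1 g.2
    refine mem_gsp_iff.2 ⟨Units.map (i : F₀ →* F) c, ?_⟩
    have h1 := congrArg (fun X => Matrix.map X i) hc
    simp only [Matrix.map_mul, Matrix.transpose_map, J_map] at h1
    refine h1.trans (Matrix.ext fun a b => ?_)
    show i ((c : F₀) * Matrix.J (Fin m) F₀ a b) = (i (c : F₀)) * Matrix.J (Fin m) F a b
    rw [map_mul, ← J_map i]; rfl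

theorem coe_mapS {F₀ : Type v} [Field F₀] (i : F₀ →+* F) (g : ↥(Cfsg.GSp m F₀)) :
    (Units.val (mapS i g).1 : M2) =
      (Units.val g.1 : Matrix (Fin m ⊕ Fin m) (Fin m ⊕ Fin m) F₀).map i := rfl

theorem inndiag_inf_centralizer_field (hm : 2 ≤ m) (σ : F ≃+* F) {F₀ : Type v} [Field F₀] (i : F₀ →+* F)
    (hi : ∀ x, σ (i x) = i x) (hi' : ∀ y, σ y = y → ∃ x, i x = y) :
    Cfsg.inndiagPSp m F ⊓ Subgroup.centralizer {semiAut (1 : ↥GS) σ} =
      ((mapS (m := m) i).range).map toAutHom := by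
  haveI : Nonempty (Fin m ⊕ Fin m) := ⟨Sum.inl ⟨0, by omega⟩⟩
  have hcomm : ∀ g : ↥GS, semiAut g 1 ∈ Subgroup.centralizer {semiAut (1 : ↥GS) σ} ↔
      (g⁻¹ * gmapS σ g).1 ∈ Cfsg.Geo.scalars (Fin m ⊕ Fin m) F := by
    intro g
    rw [Subgroup.mem_centralizer_singleton_iff]
    have e1 : semiAut (1 : ↥GS) σ * semiAut g 1 = semiAut (gmapS σ g) 1 * semiAut 1 σ := by
      rw [semiAut_mul, semiAut_mul, map_one, one_mul, mul_one, mul_one, one_mul]
    rw [e1, mul_left_inj, ← toAutHom_apply, ← toAutHom_apply, ← Subgroup.mem_subgroupOf, ← toAutHom_ker hm,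
      MonoidHom.mem_ker, map_mul, map_inv, inv_mul_eq_one]
  apply le_antisymm
  · rintro β ⟨hβ, hc⟩
    obtain ⟨g, rfl⟩ := mem_inndiag_iff.1 hβ
    obtain ⟨l, hl⟩ := (Cfsg.Geo.mem_scalars_iff _).1 ((hcomm g).1 hc)
    set G : M2 := Units.val g.1 with hG
    have hl' : G.map σ = (l : F) • G := by
      have := congrArg (G * ·) hl
      simp only [Subgroup.coe_mul, Subgroup.coe_inv, Units.val_mul, hG] at this
      rw [← Matrix.mul_assoc, Units.mul_inv, Matrix.one_mul, coe_gmapS, Matrix.mul_smul,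
        Matrix.mul_one] at this
      exact this
    obtain ⟨a, b, hab⟩ : ∃ a b, G a b ≠ 0 := by
      by_contra hno
      push Not at hno
      exact g.1.ne_zero (Matrix.ext hno)
    have hfix : ∀ c d, σ (G c d / G a b) = G c d / G a b := fun c d => by
      have h1 := congrFun (congrFun hl' c) d
      have h2 := congrFun (congrFun hl' a) b
      simp only [Matrix.map_apply, Matrix.smul_apply, smul_eq_mul] at h1 h2
      rw [map_div₀, h1, h2, mul_div_mul_left _ _ l.ne_zero]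
    choose x hx using fun c d => hi' _ (hfix c d)
    let A : Matrix (Fin m ⊕ Fin m) (Fin m ⊕ Fin m) F₀ := Matrix.of x
    have hA : A.map i = (G a b)⁻¹ • G := by
      ext c d
      rw [Matrix.map_apply, Matrix.smul_apply, smul_eq_mul, mul_comm, ← div_eq_mul_inv]
      exact hx c d
    have hdet : IsUnit A.det := by
      refine isUnit_iff_ne_zero.2 fun h0 => ?_
      have h1 : (A.map i).det = 0 := by rw [← RingHom.mapMatrix_apply, ← RingHom.map_det, h0, map_zero]
      rw [hA, Matrix.det_smul] at h1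
      exact mul_ne_zero (pow_ne_zero _ (inv_ne_zero hab))
        ((Matrix.isUnit_iff_isUnit_det _).1 g.1.isUnit).ne_zero h1
    have hAmem : Matrix.GeneralLinearGroup.mk'' A hdet ∈ Cfsg.GSp m F₀ := by
      obtain ⟨c, hc⟩ := mem_gsp_iff.1 g.2
      have h1 : (Aᵀ * Matrix.J (Fin m) F₀ * A).map i = ((G a b)⁻¹ * (G a b)⁻¹ * (c : F)) • Matrix.J (Fin m) F := by
        rw [Matrix.map_mul, Matrix.map_mul, Matrix.transpose_map, J_map, hA, Matrix.transpose_smul,
          Matrix.smul_mul, Matrix.smul_mul, Matrix.mul_smul, smul_smul, hc, smul_smul]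
      have h1m : 1 ≤ m := by omega
      have h2 := congrFun (congrFun h1 (Sum.inr ⟨0, h1m⟩)) (Sum.inl ⟨0, h1m⟩)
      rw [Matrix.map_apply, Matrix.smul_apply, J_apply_entry h1m, smul_eq_mul, mul_one] at h2
      set d₀ := (Aᵀ * Matrix.J (Fin m) F₀ * A) (Sum.inr ⟨0, h1m⟩) (Sum.inl ⟨0, h1m⟩) with hd₀
      have hd0 : d₀ ≠ 0 := by
        intro h0
        rw [h0, map_zero] at h2
        exact mul_ne_zero (mul_ne_zero (inv_ne_zero hab) (inv_ne_zero hab)) c.ne_zero h2.symm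
      refine mem_gsp_iff.2 ⟨Units.mk0 d₀ hd0, Matrix.map_injective i.injective ?_⟩
      show (Aᵀ * Matrix.J (Fin m) F₀ * A).map i = (d₀ • Matrix.J (Fin m) F₀).map i
      rw [h1, ← h2]
      ext c d
      show _ = i (d₀ * Matrix.J (Fin m) F₀ c d)
      rw [map_mul, Matrix.smul_apply, smul_eq_mul, ← J_map i]; rfl
    refine ⟨mapS i ⟨_, hAmem⟩, ⟨_, rfl⟩, ?_⟩
    have e : g = scS (Units.mk0 _ hab) * mapS i ⟨_, hAmem⟩ := by
      refine Subtype.ext (Units.ext ?_)
      rw [Subgroup.coe_mul, Units.val_mul, coe_scS, Matrix.smul_mul, Matrix.one_mul, coe_mapS]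
      show G = G a b • A.map i
      rw [hA, smul_inv_smul₀ hab]
    conv_rhs => rw [e]
    rw [← toAutHom_apply, map_mul, toAutHom_apply (scS _), semiAut_scalar ⟨_, rfl⟩, one_mul]
  · rintro _ ⟨_, ⟨h, rfl⟩, rfl⟩
    refine ⟨semiAut_mem_inndiag _, (hcomm _).2 ?_⟩
    have : gmapS σ (mapS i h) = mapS i h := by
      refine Subtype.ext (Units.ext ?_)
      rw [coe_gmapS, coe_mapS]
      ext c d
      exact hi _
    rw [this, inv_mul_cancel]
    exact one_mem _

theorem nonempty_centralizer_field_equiv (hm : 2 ≤ m) (σ : F ≃+* F) {F₀ : Type v} [Field F₀] (i : F₀ →+* F)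
    (hi : ∀ x, σ (i x) = i x) (hi' : ∀ y, σ y = y → ∃ x, i x = y) :
    Nonempty (↥(Cfsg.inndiagPSp m F ⊓ Subgroup.centralizer {semiAut (1 : ↥GS) σ}) ≃* Cfsg.PGSp m F₀) := by
  let Φ : ↥(Cfsg.GSp m F₀) →* MulAut PS := toAutHom.comp (mapS i)
  have hker : Φ.ker = (Cfsg.Geo.scalars (Fin m ⊕ Fin m) F₀).subgroupOf (Cfsg.GSp m F₀) := by
    ext h
    show toAutHom (mapS i h) = 1 ↔ _
    rw [← MonoidHom.mem_ker, toAutHom_ker hm, Subgroup.mem_subgroupOf, Subgroup.mem_subgroupOf,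
      Cfsg.Geo.mem_scalars_iff, Cfsg.Geo.mem_scalars_iff, coe_mapS]
    set X : Matrix (Fin m ⊕ Fin m) (Fin m ⊕ Fin m) F₀ := Units.val h.1 with hX
    constructor
    · rintro ⟨c, hc⟩
      let a : Fin m ⊕ Fin m := Sum.inl ⟨0, by omega⟩
      have hE : ∀ k l, i (X k l) = if k = l then (c : F) else 0 := fun k l => by
        have := congrFun (congrFun hc k) l
        simpa [Matrix.one_apply] using this
      have h0 : X a a ≠ 0 := fun h0 => c.ne_zero (by
        have := hE a a; rw [h0, map_zero, if_pos rfl] at this; exact this.symm)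
      refine ⟨Units.mk0 _ h0, Matrix.ext fun k l => i.injective ?_⟩
      rw [hE, Units.val_mk0, Matrix.smul_apply, smul_eq_mul, map_mul, hE, if_pos rfl, Matrix.one_apply]
      split <;> simp
    · rintro ⟨c, hc⟩
      refine ⟨Units.map (i : F₀ →* F) c, Matrix.ext fun k l => ?_⟩
      rw [Matrix.map_apply, hc]
      by_cases hkl : k = l <;> simp [hkl]
  have hr : Φ.range = Cfsg.inndiagPSp m F ⊓ Subgroup.centralizer {semiAut (1 : ↥GS) σ} := by
    rw [inndiag_inf_centralizer_field hm σ i hi hi', ← MonoidHom.range_comp]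
  exact ⟨((MulEquiv.subgroupCongr hr).symm.trans (QuotientGroup.quotientKerEquivRange Φ).symm).trans
    (QuotientGroup.quotientMulEquivOfEq hker)⟩

/-! ### Splitting -/

theorem split_field (hm : 2 ≤ m) (σ : F ≃+* F) {F₀ : Type v} [Field F₀] (i : F₀ →+* F)
    (hi : ∀ x, σ (i x) = i x) (hi' : ∀ y, σ y = y → ∃ x, i x = y) :
    Cfsg.splitClassCount (Cfsg.inndiagPSp m F) (Cfsg.Inn PS) (semiAut (1 : ↥GS) σ) =
      Nat.gcd 2 ((Nat.card F - 1) / (Nat.card F₀ - 1)) := by
  have h1m : 1 ≤ m := by omega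
  haveI : Finite F₀ := Finite.of_injective _ i.injective
  rw [splitClassCount_eq_relIndex inn_le_inndiag (fun h _ k hk => inn_conj hk) _,
    inndiag_inf_centralizer_field hm σ i hi hi', inndiag_eq_range, ← Subgroup.index_comap]
  choose mu hmu using fun g : ↥GS => mem_gsp_iff.1 g.2
  let mult : ↥GS →* Fˣ := MonoidHom.mk' mu fun g h => by
    refine Units.ext (smul_J_injective h1m ?_)
    rw [← hmu (g * h), Units.val_mul, Subgroup.coe_mul, Units.val_mul, Matrix.transpose_mul]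
    calc (Units.val h.1 : M2)ᵀ * (Units.val g.1 : M2)ᵀ * Matrix.J (Fin m) F *
          ((Units.val g.1 : M2) * (Units.val h.1 : M2))
        = (Units.val h.1 : M2)ᵀ * ((Units.val g.1 : M2)ᵀ * Matrix.J (Fin m) F * (Units.val g.1 : M2)) *
            (Units.val h.1 : M2) := by simp only [Matrix.mul_assoc]
      _ = _ := by rw [hmu g, Matrix.mul_smul, Matrix.smul_mul, hmu h, smul_smul]
  have huniq : ∀ (g : ↥GS) (c : Fˣ), (Units.val g.1 : M2)ᵀ * Matrix.J (Fin m) F * (Units.val g.1 : M2) =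
      (c : F) • Matrix.J (Fin m) F → mult g = c := fun g c h =>
    Units.ext (smul_J_injective h1m ((hmu g).symm.trans h))
  have hsc : ∀ a : Fˣ, mult (scS a) = powMonoidHom 2 a := fun a => by
    refine huniq _ _ ?_
    rw [coe_scS, Matrix.transpose_smul, Matrix.transpose_one, Matrix.smul_mul, Matrix.one_mul, Matrix.mul_smul,
      Matrix.mul_one, smul_smul, powMonoidHom_apply, sq, Units.val_mul]
  have hsurj : ∀ c : Fˣ, ∃ g : ↥GS, mult g = c ∧
      ∀ (c₀ : F₀ˣ), Units.map (i : F₀ →* F) c₀ = c → g ∈ (mapS i).range := by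
    intro c
    let D0 : M2 := Matrix.fromBlocks ((c : F) • 1) 0 0 1
    have hdet : D0.det ≠ 0 := by
      rw [Matrix.det_fromBlocks_zero₂₁, Matrix.det_one, mul_one, Matrix.det_smul, Matrix.det_one, mul_one]
      exact pow_ne_zero _ c.ne_zero
    have hD : D0ᵀ * Matrix.J (Fin m) F * D0 = (c : F) • Matrix.J (Fin m) F := by
      simp [D0, Matrix.J, Matrix.fromBlocks_transpose, Matrix.fromBlocks_multiply, Matrix.fromBlocks_smul]
    refine ⟨⟨Matrix.GeneralLinearGroup.mk'' D0 (isUnit_iff_ne_zero.2 hdet), mem_gsp_iff.2 ⟨c, hD⟩⟩,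
      huniq _ _ hD, fun c₀ hc₀ => ?_⟩
    let E0 : Matrix (Fin m ⊕ Fin m) (Fin m ⊕ Fin m) F₀ := Matrix.fromBlocks ((c₀ : F₀) • 1) 0 0 1
    have hE : E0ᵀ * Matrix.J (Fin m) F₀ * E0 = (c₀ : F₀) • Matrix.J (Fin m) F₀ := by
      simp [E0, Matrix.J, Matrix.fromBlocks_transpose, Matrix.fromBlocks_multiply, Matrix.fromBlocks_smul]
    have hEdet : E0.det ≠ 0 := by
      rw [Matrix.det_fromBlocks_zero₂₁, Matrix.det_one, mul_one, Matrix.det_smul, Matrix.det_one, mul_one]
      exact pow_ne_zero _ c₀.ne_zero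
    refine ⟨⟨Matrix.GeneralLinearGroup.mk'' E0 (isUnit_iff_ne_zero.2 hEdet), mem_gsp_iff.2 ⟨c₀, hE⟩⟩,
      Subtype.ext (Units.ext ?_)⟩
    subst hc₀
    show E0.map i = D0
    ext a b
    rcases a with a | a <;> rcases b with b | b <;> simp [E0, D0, Matrix.one_apply, apply_ite i]
  have hsp : ∀ s : Sp, mult (spS s) = 1 := fun s => huniq _ _ (by
    rw [Units.val_one, one_smul]; exact SymplecticGroup.mem_iff'.1 s.2)
  have hinn : Cfsg.Inn PS = ((spS (m := m) (F := F)).range).map toAutHom := by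
    ext β
    constructor
    · rintro ⟨k, rfl⟩
      obtain ⟨s, rfl⟩ := cl_surjective k
      exact ⟨_, ⟨s, rfl⟩, (inner_eq_semiAut s).symm⟩
    · rintro ⟨_, ⟨s, rfl⟩, rfl⟩
      exact ⟨cl s, inner_eq_semiAut s⟩
  have hcomap : (Cfsg.Inn PS ⊔ ((mapS (m := m) i).range).map toAutHom).comap (toAutHom (m := m) (F := F)) =
      ((Units.map (i : F₀ →* F)).range ⊔ (powMonoidHom 2 : Fˣ →* Fˣ).range).comap mult := by
    rw [hinn, ← Subgroup.map_sup, Subgroup.comap_map_eq, toAutHom_ker hm]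
    apply le_antisymm
    · refine sup_le (sup_le ?_ ?_) ?_
      · rintro _ ⟨s, rfl⟩
        rw [Subgroup.mem_comap, hsp]
        exact Subgroup.one_mem _
      · rintro _ ⟨g, rfl⟩
        obtain ⟨c, hc⟩ := mem_gsp_iff.1 g.2
        refine Subgroup.mem_sup_left ⟨c, (huniq _ _ ?_).symm⟩
        rw [coe_mapS]
        have h1 := congrArg (fun X => Matrix.map X i) hc
        simp only [Matrix.map_mul, Matrix.transpose_map, J_map] at h1
        refine h1.trans (Matrix.ext fun a b => ?_)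
        show i ((c : F₀) * Matrix.J (Fin m) F₀ a b) = (i (c : F₀)) * Matrix.J (Fin m) F a b
        rw [map_mul, ← J_map i]; rfl
      · intro z hz
        obtain ⟨a, ha⟩ := (Subgroup.mem_subgroupOf.1 hz)
        have : z = scS a := Subtype.ext ha.symm
        rw [this, Subgroup.mem_comap, hsc]
        exact Subgroup.mem_sup_right ⟨a, rfl⟩
    · intro g hg
      obtain ⟨d, ⟨c₀, hc₀⟩, _, ⟨a, rfl⟩, he⟩ := Subgroup.mem_sup.1 (Subgroup.mem_comap.1 hg)
      obtain ⟨h, hh, hh'⟩ := hsurj d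
      have hs : mult ((h * scS a)⁻¹ * g) = 1 := by
        rw [map_mul, map_inv, map_mul, hsc, hh, ← he]; exact inv_mul_cancel _
      have hg' : g = h * scS a * ((h * scS a)⁻¹ * g) := (mul_inv_cancel_left _ _).symm
      rw [hg']
      refine mul_mem (mul_mem (Subgroup.mem_sup_left (Subgroup.mem_sup_right (hh' c₀ hc₀)))
        (Subgroup.mem_sup_right ⟨a, rfl⟩)) (Subgroup.mem_sup_left (Subgroup.mem_sup_left ?_))
      set z := (h * scS a)⁻¹ * g
      have hz : (Units.val z.1 : M2)ᵀ * Matrix.J (Fin m) F * (Units.val z.1 : M2) = Matrix.J (Fin m) F := by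
        have h1 : mu z = 1 := hs
        rw [hmu z, h1, Units.val_one, one_smul]
      exact ⟨⟨_, SymplecticGroup.mem_iff'.2 hz⟩, Subtype.ext (Units.ext rfl)⟩
  rw [hcomap, Subgroup.index_comap_of_surjective _ (fun c => ⟨_, (hsurj c).choose_spec.1⟩),
    index_sup_powRange]
  congr 1
  have hcard : Nat.card (Units.map (i : F₀ →* F)).range = Nat.card F₀ - 1 := by
    rw [← Nat.card_congr (MonoidHom.ofInjective (Units.map_injective (f := (i : F₀ →* F)) i.injective)).toEquiv,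
      Nat.card_units]
  have h := Subgroup.index_mul_card (Units.map (i : F₀ →* F)).range
  rw [hcard, Nat.card_units] at h
  rw [← h, Nat.mul_div_cancel]
  have := Finite.one_lt_card (α := F₀)
  omega

/-- The arithmetic of the split count. -/
theorem gcd_two_geom_quotient {q₀ r : ℕ} (hq₀ : 2 ≤ q₀) (hr : 1 ≤ r) :
    Nat.gcd 2 ((q₀ ^ r - 1) / (q₀ - 1)) = Nat.gcd (Nat.gcd 2 (q₀ ^ r - 1)) r := by
  rw [← Nat.geomSum_eq hq₀ r]
  have hsum : ∀ k : ℕ, (∑ j ∈ Finset.range k, q₀ ^ j) % 2 =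
      if Even q₀ then (if k = 0 then 0 else 1) else k % 2 := by
    intro k
    induction k with
    | zero => simp
    | succ k ih =>
      rw [Finset.sum_range_succ, Nat.add_mod, ih, Nat.pow_mod]
      rcases Nat.even_or_odd q₀ with h | h
      · rw [if_pos h, if_pos h, Nat.even_iff.1 h]
        rcases k with _ | k <;> simp
      · rw [if_neg (Nat.not_even_iff_odd.2 h), if_neg (Nat.not_even_iff_odd.2 h), Nat.odd_iff.1 h]
        simp
  rw [Nat.gcd_rec 2 _, hsum]
  have hq : (q₀ ^ r - 1) % 2 = if Even q₀ then 1 else 0 := by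
    have hp : 1 ≤ q₀ ^ r := Nat.one_le_pow _ _ (by omega)
    have := Nat.pow_mod q₀ r 2
    rcases Nat.even_or_odd q₀ with h | h
    · rw [Nat.even_iff.1 h, zero_pow (by omega)] at this
      rw [if_pos h]; omega
    · rw [Nat.odd_iff.1 h, one_pow] at this
      rw [if_neg (Nat.not_even_iff_odd.2 h)]; omega
  rw [Nat.gcd_rec 2 (q₀ ^ r - 1), hq]
  by_cases h : Even q₀
  · rw [if_pos h, if_pos h, if_neg (by omega)]; simp
  · rw [if_neg h, if_neg h, Nat.gcd_zero_left, ← Nat.gcd_rec]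

end CfsgLib.ReflectionsSpinor.PSpAut
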