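import Mathlib.GroupTheory.Perm.Cycle.Type
import Mathlib.RingTheory.IntegralDomain
import Mathlib.FieldTheory.Finite.Basic
import Mathlib.LinearAlgebra.BilinearForm.Properties

/-!
# The algebra of an irreducible endomorphism over a finite field

An irreducible endomorphism generates a finite field acting regularly on the non-zero vectors. If it
preserves a non-degenerate symmetric form and moves every non-zero vector, the elements of norm one
form a cyclic torus of even order, having an odd number of orbits on every sphere of an orthogonal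
sum.
-/

set_option autoImplicit false
set_option linter.unusedSectionVars false

namespace CfsgLib.ReflectionsSpinor.POmegaTorus

open Module

variable {F : Type*} [Field F] [Finite F]

/-! ### Counting -/

theorem odd_card_field (h2 : (2 : F) ≠ 0) : Odd (Nat.card F) := by
  letI := Fintype.ofFinite F
  rw [Nat.card_eq_fintype_card]
  refine Nat.odd_iff.2 (FiniteField.odd_card_of_char_ne_two fun h => h2 ?_)
  exact_mod_cast (ringChar.spec F 2).2 (by rw [h])

theorem odd_card_module (h2 : (2 : F) ≠ 0) (M : Type*) [AddCommGroup M] [Module F M]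
    [Module.Finite F M] : Odd (Nat.card M) := by
  rw [Module.natCard_eq_pow_finrank (K := F)]
  exact (odd_card_field h2).pow

/-- A set with a fixed point free involution has even size. -/
theorem even_card_of_involution {α : Type*} [Finite α] (σ : α → α) (hσ : ∀ x, σ (σ x) = x)
    (hne : ∀ x, σ x ≠ x) : Even (Nat.card α) := by
  classical
  letI := Fintype.ofFinite α
  have : Fact (Nat.Prime 2) := ⟨Nat.prime_two⟩
  have h := Equiv.Perm.card_fixedPoints_modEq (p := 2) (n := 1) (f := σ) (by
    funext x
    exact hσ x)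
  rw [Nat.card_eq_fintype_card, Nat.even_iff]
  haveI : IsEmpty (Function.fixedPoints σ) := ⟨fun x => hne x.1 x.2⟩
  rw [Fintype.card_eq_zero (α := Function.fixedPoints σ)] at h
  exact h

/-- If the value moves with a parameter, each value is taken on a fraction `1/|F|`. -/
theorem card_fibre_mul {α : Type*} [AddCommGroup α] [Module F α] (f : α → F) (b : α)
    (hb : ∀ (x : α) (t : F), f (x + t • b) = f x + t) (c : F) :
    Nat.card {x // f x = c} * Nat.card F = Nat.card α := by
  rw [← Nat.card_prod]
  refine Nat.card_congr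
    { toFun := fun p => p.1.1 + p.2 • b
      invFun := fun x => (⟨x - (f x - c) • b, ?_⟩, f x - c)
      left_inv := ?_
      right_inv := fun x => sub_add_cancel x _ }
  · have h := hb (x - (f x - c) • b) (f x - c)
    rw [sub_add_cancel] at h
    linear_combination -h
  · rintro ⟨⟨x, hx⟩, t⟩
    have e : f (x + t • b) - c = t := by rw [hb, hx, add_sub_cancel_left]
    refine Prod.ext (Subtype.ext ?_) e
    simp only [e, add_sub_cancel_right]

/-! ### The algebra generated by an irreducible endomorphism -/

section Algebra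

variable {M : Type*} [AddCommGroup M] [Module F M] [FiniteDimensional F M] {f : Module.End F M}

/-- `f` is irreducible. -/
structure Simple (f : Module.End F M) : Prop where
  ne : ∃ x : M, x ≠ 0
  min : ∀ W : Submodule F M, (∀ x ∈ W, f x ∈ W) → W = ⊥ ∨ W = ⊤

/-- The algebra generated by `f`. -/
noncomputable def alg (f : Module.End F M) : Subalgebra F (Module.End F M) := Algebra.adjoin F {f}

theorem self_mem (f : Module.End F M) : f ∈ alg f := Algebra.subset_adjoin rfl

theorem alg_mul_comm (a b : alg f) : a * b = b * a := by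
  refine Subtype.ext ?_
  have ha : (a : Module.End F M) ∈ Algebra.adjoin F {f} := a.2
  have hb : (b : Module.End F M) ∈ Algebra.adjoin F {f} := b.2
  exact ((Algebra.commute_of_mem_adjoin_singleton_of_commute ha
    (Algebra.commute_of_mem_adjoin_self hb).symm).symm).eq

noncomputable instance algCommRing (f : Module.End F M) : CommRing (alg f) :=
  { (alg f).toRing with mul_comm := alg_mul_comm }

instance algFinite (f : Module.End F M) : Finite (alg f) := by
  haveI : Finite (Module.End F M) := Module.finite_of_finite F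
  exact Subtype.finite

theorem commute_self (z : alg f) (x : M) :
    f ((z : Module.End F M) x) = (z : Module.End F M) (f x) :=
  LinearMap.congr_fun (congrArg Subtype.val (alg_mul_comm (⟨f, self_mem f⟩ : alg f) z)) x

theorem Simple.injective (I : Simple f) (z : alg f) (hz : z ≠ 0) :
    Function.Injective (z : Module.End F M) := by
  rcases I.min (LinearMap.ker (z : Module.End F M)) (fun x hx => by
    rw [LinearMap.mem_ker] at hx ⊢
    rw [← commute_self, hx, map_zero]) with h | h
  · exact LinearMap.ker_eq_bot.1 h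
  · exact absurd (Subtype.ext (LinearMap.ker_eq_top.1 h)) hz

theorem Simple.nontrivial (I : Simple f) : Nontrivial (alg f) := by
  obtain ⟨x, hx⟩ := I.ne
  exact ⟨1, 0, fun h => hx (LinearMap.congr_fun (congrArg Subtype.val h) x)⟩

theorem Simple.isDomain (I : Simple f) : IsDomain (alg f) := by
  haveI := I.nontrivial
  haveI : NoZeroDivisors (alg f) := ⟨fun {a b} h => by
    refine or_iff_not_imp_left.2 fun ha => Subtype.ext (LinearMap.ext fun x => I.injective a ha ?_)
    rw [ZeroMemClass.coe_zero, LinearMap.zero_apply, map_zero]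
    exact LinearMap.congr_fun (congrArg Subtype.val h) x⟩
  exact NoZeroDivisors.to_isDomain _

theorem Simple.isUnit (I : Simple f) {z : alg f} (hz : z ≠ 0) : IsUnit z := by
  haveI := I.isDomain
  obtain ⟨w, hw⟩ := (Finite.isField_of_domain (alg f)).mul_inv_cancel hz
  exact IsUnit.of_mul_eq_one w hw

/-- Evaluation at a non-zero vector is a bijection. -/
theorem Simple.eval_bijective (I : Simple f) {x : M} (hx : x ≠ 0) :
    Function.Bijective fun z : alg f => (z : Module.End F M) x := by
  let ev : alg f →ₗ[F] M := (LinearMap.applyₗ x).comp (alg f).val.toLinearMap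
  have hinj : Function.Injective ev := (injective_iff_map_eq_zero ev).2 fun z hz =>
    not_not.1 fun h0 => hx (I.injective z h0 (hz.trans (map_zero (z : Module.End F M)).symm))
  refine ⟨hinj, ?_⟩
  rcases I.min (LinearMap.range ev) (by
    rintro _ ⟨z, rfl⟩
    exact ⟨⟨f, self_mem f⟩ * z, rfl⟩) with h | h
  · exact absurd ((Submodule.mem_bot F).1 (h ▸ (⟨1, rfl⟩ : x ∈ LinearMap.range ev))) hx
  · exact LinearMap.range_eq_top.1 h

theorem Simple.card_units (I : Simple f) : Nat.card (alg f)ˣ = Nat.card {x : M // x ≠ 0} := by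
  haveI := I.nontrivial
  obtain ⟨x, hx⟩ := I.ne
  refine Nat.card_eq_of_bijective
    (fun z => ⟨((z : alg f) : Module.End F M) x, fun h => ?_⟩) ⟨fun z w h => ?_, fun y => ?_⟩
  · exact hx (I.injective z z.ne_zero (h.trans (map_zero _).symm))
  · exact Units.ext ((I.eval_bijective hx).1 (congrArg Subtype.val h))
  · obtain ⟨z, hz⟩ := (I.eval_bijective hx).2 y.1
    have hz0 : z ≠ 0 := fun h => y.2 (hz.symm.trans (by rw [h]; rfl))
    exact ⟨(I.isUnit hz0).unit, Subtype.ext hz⟩

theorem Simple.exists_generator (I : Simple f) (S : Subgroup (alg f)ˣ) :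
    ∃ g : (alg f)ˣ, g ∈ S ∧ orderOf g = Nat.card S := by
  haveI := I.isDomain
  obtain ⟨g, hg⟩ := IsCyclic.exists_generator (α := S)
  exact ⟨g.1, g.2, (Subgroup.orderOf_coe g).trans (orderOf_eq_card_of_forall_mem_zpowers hg)⟩

/-- Powers of a unit fix no non-zero vector unless trivial. -/
theorem Simple.dvd_of_fix (I : Simple f) (g : (alg f)ˣ) (j : ℕ) {x : M} (hx : x ≠ 0)
    (h : (((g : alg f) : Module.End F M) ^ j) x = x) : orderOf g ∣ j := by
  refine orderOf_dvd_of_pow_eq_one (Units.ext ((I.eval_bijective hx).1 ?_))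
  show (((g ^ j : (alg f)ˣ) : alg f) : Module.End F M) x = _
  rw [Units.val_pow_eq_pow_val, SubmonoidClass.coe_pow, h]
  rfl

end Algebra

/-! ### The torus of norm one -/

section Norm

variable {M : Type*} [AddCommGroup M] [Module F M] [FiniteDimensional F M] {f : Module.End F M}
  {B : LinearMap.BilinForm F M}

/-- The hypotheses on the form. -/
structure Good (f : Module.End F M) (B : LinearMap.BilinForm F M) (r : ℕ) : Prop where
  simple : Simple f
  sep : ∀ b, (∀ a, B a b = 0) → b = 0
  symm : ∀ a b, B a b = B b a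
  pres : ∀ a b, B (f a) (f b) = B a b
  pow : f ^ r = 1
  odd : Odd r
  free : ∀ a, f a = a → a = 0

variable {r : ℕ}

theorem Good.exists_adjoint (G : Good f B r) (z : alg f) :
    ∃ w : alg f, ∀ a b : M, B ((z : Module.End F M) a) b = B a ((w : Module.End F M) b) := by
  obtain ⟨z, hz⟩ := z
  induction hz using Algebra.adjoin_induction with
  | mem x hx =>
    obtain rfl := Set.mem_singleton_iff.1 hx
    obtain ⟨k, hk⟩ := G.odd
    refine ⟨⟨x, self_mem _⟩ ^ (2 * k), fun a b => ?_⟩
    show B (x a) b = B a ((x ^ (2 * k)) b)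
    rw [← G.pres a ((x ^ (2 * k)) b), ← Module.End.mul_apply (f := x), ← pow_succ', ← hk, G.pow]
    rfl
  | algebraMap c =>
    refine ⟨algebraMap F _ c, fun a b => ?_⟩
    show B (c • a) b = B a (c • b)
    rw [map_smul, map_smul, LinearMap.smul_apply]
  | add x y _ _ ihx ihy =>
    obtain ⟨u, hu⟩ := ihx
    obtain ⟨v, hv⟩ := ihy
    refine ⟨u + v, fun a b => ?_⟩
    show B (x a + y a) b = B a ((u : Module.End F M) b + (v : Module.End F M) b)
    rw [map_add, map_add, LinearMap.add_apply]
    exact congr_arg₂ (· + ·) (hu a b) (hv a b)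
  | mul x y _ _ ihx ihy =>
    obtain ⟨u, hu⟩ := ihx
    obtain ⟨v, hv⟩ := ihy
    exact ⟨v * u, fun a b => (hu (y a) b).trans (hv a _)⟩

/-- The adjoint. -/
noncomputable def Good.adj (G : Good f B r) (z : alg f) : alg f := (G.exists_adjoint z).choose

theorem Good.adj_spec (G : Good f B r) (z : alg f) (a b : M) :
    B ((z : Module.End F M) a) b = B a ((G.adj z : Module.End F M) b) :=
  (G.exists_adjoint z).choose_spec a b

theorem Good.adj_unique (G : Good f B r) {z w : alg f}
    (hzw : ∀ a b : M, B ((z : Module.End F M) a) b = B a ((w : Module.End F M) b)) : G.adj z = w :=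
  Subtype.ext (LinearMap.ext fun b => sub_eq_zero.1 (G.sep _ fun a => by
    rw [map_sub, ← G.adj_spec, ← hzw, sub_self]))

theorem Good.adj_one (G : Good f B r) : G.adj 1 = 1 := G.adj_unique fun _ _ => rfl

theorem Good.adj_mul (G : Good f B r) (z w : alg f) : G.adj (z * w) = G.adj z * G.adj w := by
  rw [mul_comm (G.adj z)]
  exact G.adj_unique fun a b => (G.adj_spec z _ b).trans (G.adj_spec w a _)

theorem Good.adj_adj (G : Good f B r) (z : alg f) : G.adj (G.adj z) = z :=
  G.adj_unique fun a b => by rw [G.symm, ← G.adj_spec, G.symm]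

theorem Good.adj_add (G : Good f B r) (z w : alg f) : G.adj (z + w) = G.adj z + G.adj w :=
  G.adj_unique fun a b => by
    show B ((z : Module.End F M) a + (w : Module.End F M) a) b =
      B a ((G.adj z : Module.End F M) b + (G.adj w : Module.End F M) b)
    rw [map_add, map_add, LinearMap.add_apply, G.adj_spec, G.adj_spec]

theorem Good.adj_smul (G : Good f B r) (c : F) (z : alg f) : G.adj (c • z) = c • G.adj z :=
  G.adj_unique fun a b => by
    show B (c • (z : Module.End F M) a) b = B a (c • (G.adj z : Module.End F M) b)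
    rw [map_smul, map_smul, LinearMap.smul_apply, G.adj_spec]

/-- Self-adjoint elements. -/
noncomputable def Good.fixA (G : Good f B r) : Submodule F (alg f) where
  carrier := {y | G.adj y = y}
  add_mem' {a b} ha hb := by
    show G.adj (a + b) = a + b
    rw [G.adj_add, show G.adj a = a from ha, show G.adj b = b from hb]
  zero_mem' := by
    show G.adj 0 = 0
    have e := G.adj_smul (0 : F) (0 : alg f)
    rwa [zero_smul, zero_smul] at e
  smul_mem' c a ha := by
    show G.adj (c • a) = c • a
    rw [G.adj_smul, show G.adj a = a from ha]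

/-- The adjoint on the units. -/
noncomputable def Good.adjU (G : Good f B r) : (alg f)ˣ →* (alg f)ˣ :=
  Units.map { toFun := G.adj, map_one' := G.adj_one, map_mul' := G.adj_mul }

theorem Good.coe_adjU (G : Good f B r) (z : (alg f)ˣ) :
    ((G.adjU z : (alg f)ˣ) : alg f) = G.adj (z : alg f) := rfl

/-- The norm. -/
noncomputable def Good.normU (G : Good f B r) : (alg f)ˣ →* (alg f)ˣ :=
  MonoidHom.id (alg f)ˣ * G.adjU

theorem Good.coe_normU (G : Good f B r) (z : (alg f)ˣ) :
    ((G.normU z : (alg f)ˣ) : alg f) = (z : alg f) * G.adj z := rfl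

/-- Hilbert 90: every self-adjoint unit is a norm. -/
theorem Good.exists_norm_eq (G : Good f B r) (y : alg f) (hy : G.adj y = y) (hy0 : y ≠ 0) :
    ∃ z, ((G.normU z : (alg f)ˣ) : alg f) = y := by
  haveI := G.simple.isDomain
  set N := G.normU with hN
  set c : (alg f)ˣ →* (alg f)ˣ := G.adjU / MonoidHom.id (alg f)ˣ with hc
  have hcapp : ∀ z, c z = G.adjU z * z⁻¹ := fun z => div_eq_mul_inv _ _
  have hker : c.range = N.ker := by
    apply le_antisymm
    · rintro _ ⟨z, rfl⟩
      refine MonoidHom.mem_ker.2 ?_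
      rw [hN, Good.normU, MonoidHom.mul_apply, MonoidHom.id_apply, hcapp, map_mul, map_inv,
        show G.adjU (G.adjU z) = z from Units.ext (G.adj_adj _)]
      group
    · intro z hz
      have hz' : (z : alg f) * G.adj z = 1 := by
        rw [← G.coe_normU, ← hN, MonoidHom.mem_ker.1 hz, Units.val_one]
      have key : ∀ w : alg f, w ≠ 0 → G.adj w = z * w → z ∈ c.range := by
        intro w hw e
        refine ⟨(G.simple.isUnit hw).unit, ?_⟩
        rw [hcapp, mul_inv_eq_iff_eq_mul]
        exact Units.ext e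
      by_cases h1 : 1 + G.adj z = 0
      · have hzm : (z : alg f) = -1 := by
          linear_combination (z : alg f) * h1 - hz'
        refine key (⟨f, self_mem _⟩ - G.adj ⟨f, self_mem _⟩) (fun h0 => ?_) ?_
        · have hH := sub_eq_zero.1 h0
          obtain ⟨x, hx⟩ := G.simple.ne
          apply hx
          refine G.free x ?_
          have hff : ∀ b, f (f b) = b := fun b => sub_eq_zero.1 (G.sep _ fun a => by
            have e := G.adj_spec ⟨f, self_mem _⟩ a (f b)
            rw [← hH] at e
            change B (f a) (f b) = B a (f (f b)) at e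
            rw [map_sub, ← e, G.pres, sub_self])
          obtain ⟨k, hk⟩ := G.odd
          have hpow : ∀ j : ℕ, (f ^ (2 * j)) x = x := fun j => by
            induction j with
            | zero => rfl
            | succ j ih =>
              rw [mul_add, pow_add, Module.End.mul_apply, mul_one, pow_two, Module.End.mul_apply, hff, ih]
          have := LinearMap.congr_fun G.pow x
          rw [hk, pow_succ', Module.End.mul_apply, hpow] at this
          exact this
        · rw [hzm]
          have h' := G.adj_add (⟨f, self_mem _⟩ - G.adj ⟨f, self_mem _⟩) (G.adj ⟨f, self_mem _⟩)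
          rw [sub_add_cancel, G.adj_adj] at h'
          linear_combination -h'
      · refine key (1 + G.adj z) h1 ?_
        rw [G.adj_add, G.adj_one, G.adj_adj, mul_add, mul_one, hz', add_comm]
  have hle : N.range ≤ c.ker := by
    rintro _ ⟨z, rfl⟩
    rw [MonoidHom.mem_ker, hcapp, mul_inv_eq_one]
    refine Units.ext ?_
    rw [G.coe_adjU, hN, G.coe_normU, G.adj_mul, G.adj_adj, mul_comm]
  have hcard : Nat.card N.range = Nat.card c.ker := by
    have h1 := N.ker.card_mul_index
    have h2 := c.ker.card_mul_index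
    rw [Subgroup.index_ker, ← hker] at h1
    rw [Subgroup.index_ker] at h2
    exact Nat.eq_of_mul_eq_mul_left (Nat.card_pos (α := c.range))
      (h1.trans (h2.symm.trans (mul_comm _ _)))
  have hmem : (G.simple.isUnit hy0).unit ∈ N.range := by
    rw [Subgroup.eq_of_le_of_card_ge hle hcard.ge, MonoidHom.mem_ker, hcapp, mul_inv_eq_one]
    exact Units.ext (by rw [G.coe_adjU, IsUnit.unit_spec]; exact hy)
  obtain ⟨z, hz⟩ := hmem
  exact ⟨z, by rw [hz, IsUnit.unit_spec]⟩

/-- A cyclic torus of even order with an odd number of orbits on each sphere of an orthogonal sum. -/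
theorem Good.exists_torus (G : Good f B r) (h2 : (2 : F) ≠ 0) {K : Type*} [AddCommGroup K]
    [Module F K] [FiniteDimensional F K] (q : K → F) (hq : ∀ u, q (-u) = q u) (hq0 : q 0 = 0) :
    ∃ (T : Module.End F M) (n N : ℕ), Even n ∧ 0 < n ∧ Odd N ∧ T ^ n = 1 ∧
      (∀ (j : ℕ) (x : M), x ≠ 0 → (T ^ j) x = x → n ∣ j) ∧ (∀ a b, B (T a) (T b) = B a b) ∧
      (∀ x, f (T x) = T (f x)) ∧
      Nat.card {p : M × K // (2 : F)⁻¹ * B p.1 p.1 + q p.2 = 1 ∧ p.1 ≠ 0} = n * N := by
  classical
  haveI := G.simple.isDomain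
  haveI : Finite M := Module.finite_of_finite F
  haveI : Finite K := Module.finite_of_finite F
  obtain ⟨g, hgker, hgord⟩ := G.simple.exists_generator G.normU.ker
  set n := Nat.card G.normU.ker with hn
  have hneven : Even n := by
    have hne : (-1 : (alg f)ˣ) ≠ 1 := fun e => by
      obtain ⟨x, hx⟩ := G.simple.ne
      have e' := LinearMap.congr_fun (congrArg Subtype.val (congrArg Units.val e)) x
      have e2 : -x = x := e'
      apply hx
      have : (2 : F) • x = 0 := by rw [two_smul]; nth_rw 1 [← e2]; exact neg_add_cancel _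
      exact (smul_eq_zero.1 this).resolve_left h2
    have hmem : (-1 : (alg f)ˣ) ∈ G.normU.ker := MonoidHom.mem_ker.2 (Units.ext (by
      rw [G.coe_normU]
      have e := G.adj_add (-1) (1 : alg f)
      rw [neg_add_cancel, G.adj_one, show G.adj (0 : alg f) = 0 from G.fixA.zero_mem] at e
      rw [Units.val_neg, Units.val_one]
      linear_combination e))
    refine even_iff_two_dvd.2 ?_
    have := orderOf_dvd_natCard (⟨-1, hmem⟩ : G.normU.ker)
    rwa [← Subgroup.orderOf_coe, orderOf_eq_prime (p := 2) (by rw [neg_one_sq]) hne] at this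
  -- the values on the sum
  obtain ⟨v, hv⟩ : ∃ v : M, B v v ≠ 0 := by
    by_contra! h0
    obtain ⟨x, hx⟩ := G.simple.ne
    refine hx (G.sep _ fun a => ?_)
    have := h0 (a + x)
    rw [map_add, map_add, LinearMap.add_apply, LinearMap.add_apply, h0, h0, G.symm x a,
      zero_add, add_zero, ← two_mul] at this
    exact (mul_eq_zero.1 this).resolve_left h2
  have hv0 : v ≠ 0 := fun e => hv (by rw [e, map_zero])
  set L : alg f →ₗ[F] F := ((2 : F)⁻¹ • B.flip v).comp
    ((LinearMap.applyₗ v).comp (alg f).val.toLinearMap) with hL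
  have hLapp : ∀ y : alg f, L y = (2 : F)⁻¹ * B ((y : Module.End F M) v) v := fun y => rfl
  have hQz : ∀ z : alg f, (2 : F)⁻¹ * B ((z : Module.End F M) v) ((z : Module.End F M) v) =
      L (z * G.adj z) := fun z => by
    rw [hLapp, mul_comm z]
    show _ = 2⁻¹ * B ((G.adj z : Module.End F M) ((z : Module.End F M) v)) v
    rw [G.symm ((G.adj z : Module.End F M) _), ← G.adj_spec]
  set φ : G.fixA × K → F := fun p => L p.1.1 + q p.2 with hφ
  set Y₀ := Nat.card {p : G.fixA × K // φ p = 1}
  set Y₁ := Nat.card {p : G.fixA × K // φ p = 1 ∧ p.1 ≠ 0}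
  have hY₀ : Odd Y₀ := by
    have hodd' := odd_card_module h2 (G.fixA × K)
    rw [← card_fibre_mul φ ((L 1)⁻¹ • (⟨1, G.adj_one⟩ : G.fixA), 0)
      (fun p t => by
        have hL1 : L 1 ≠ 0 := by
          rw [hLapp]
          exact mul_ne_zero (inv_ne_zero h2) hv
        simp only [hφ, Prod.smul_mk, Prod.fst_add, Prod.snd_add, smul_zero, add_zero,
          Submodule.coe_add, Submodule.coe_smul, map_add, map_smul, smul_eq_mul]
        rw [inv_mul_cancel₀ hL1, mul_one]
        ring) 1, Nat.odd_mul] at hodd'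
    exact hodd'.1
  have hY₁ : Odd Y₁ := by
    have hY2 : Even (Nat.card {p : G.fixA × K // φ p = 1 ∧ p.1 = 0}) :=
      even_card_of_involution
        (fun p : {p : G.fixA × K // φ p = 1 ∧ p.1 = 0} =>
          (⟨(p.1.1, -p.1.2), (show L p.1.1.1 + q (-p.1.2) = 1 by rw [hq]; exact p.2.1), p.2.2⟩ :
            {p : G.fixA × K // φ p = 1 ∧ p.1 = 0}))
        (fun p => Subtype.ext (Prod.ext rfl (neg_neg p.1.2))) fun p e => by
          have e1 : -p.1.2 = p.1.2 := congrArg (fun z => z.1.2) e
          have h0 : (2 : F) • p.1.2 = 0 := by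
            rw [two_smul]; nth_rw 1 [← e1]; exact neg_add_cancel _
          have := p.2.1
          rw [show φ p.1 = L p.1.1.1 + q p.1.2 from rfl, p.2.2, (smul_eq_zero.1 h0).resolve_left h2,
            hq0, ZeroMemClass.coe_zero, map_zero, add_zero] at this
          exact zero_ne_one this
    have : Y₁ + Nat.card {p : G.fixA × K // φ p = 1 ∧ p.1 = 0} = Y₀ := by
      rw [← Nat.card_sum]
      exact Nat.card_congr ((Equiv.sumCongr
        (Equiv.subtypeSubtypeEquivSubtypeInter (fun p : G.fixA × K => φ p = 1) (fun p => p.1 ≠ 0)).symm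
        (Equiv.subtypeSubtypeEquivSubtypeInter (fun p : G.fixA × K => φ p = 1) (fun p => p.1 = 0)).symm).trans
        ((Equiv.sumComm _ _).trans (Equiv.sumCompl _)))
    rw [← this, Nat.odd_add] at hY₀
    exact hY₀.2 hY2
  refine ⟨((g : alg f) : Module.End F M), n, Y₁, hneven, Nat.card_pos, hY₁, ?_,
    fun j x hx e => hgord ▸ G.simple.dvd_of_fix g j hx e, fun a b => ?_,
    fun x => commute_self _ x, ?_⟩
  · rw [← SubmonoidClass.coe_pow, ← Units.val_pow_eq_pow_val, ← hgord, pow_orderOf_eq_one]
    rfl
  · rw [G.adj_spec]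
    have e := congrArg (fun z : alg f => (z : Module.End F M) b)
      ((mul_comm (G.adj g) (g : alg f)).trans (congrArg Units.val (MonoidHom.mem_ker.1 hgker)))
    exact congrArg (B a) e
  let T := {p : (alg f)ˣ × K // L ((G.normU p.1 : (alg f)ˣ) : alg f) + q p.2 = 1}
  have e₁ : Nat.card {p : M × K // (2 : F)⁻¹ * B p.1 p.1 + q p.2 = 1 ∧ p.1 ≠ 0} = Nat.card T := by
    refine (Nat.card_eq_of_bijective (fun p : T => (⟨(((p.1.1 : alg f) : Module.End F M) v, p.1.2),
      ?_, fun e => hv0 (G.simple.injective _ p.1.1.ne_zero (e.trans (map_zero _).symm))⟩ :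
      {p : M × K // (2 : F)⁻¹ * B p.1 p.1 + q p.2 = 1 ∧ p.1 ≠ 0})) ⟨?_, ?_⟩).symm
    · rw [hQz]; exact p.2
    · intro p p' e
      have e' := congrArg Subtype.val e
      exact Subtype.ext (Prod.ext (Units.ext ((G.simple.eval_bijective hv0).1 (congrArg Prod.fst e')))
        (congrArg Prod.snd e' :))
    · intro x
      obtain ⟨z, hz⟩ := (G.simple.eval_bijective hv0).2 x.1.1
      change (z : Module.End F M) v = x.1.1 at hz
      have hz0 : z ≠ 0 := fun e => x.2.2 (by rw [← hz, e]; rfl)
      refine ⟨⟨((G.simple.isUnit hz0).unit, x.1.2), ?_⟩, Subtype.ext (Prod.ext hz rfl)⟩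
      rw [G.coe_normU, IsUnit.unit_spec, ← hQz, hz]
      exact x.2.1
  rw [e₁]
  have hfix : ∀ z, G.adj (G.normU z : alg f) = G.normU z := fun z => by
    rw [G.coe_normU, G.adj_mul, G.adj_adj, mul_comm]
  let Φ : T → {p : G.fixA × K // φ p = 1 ∧ p.1 ≠ 0} := fun p =>
    ⟨(⟨G.normU p.1.1, hfix _⟩, p.1.2), p.2, fun e => (G.normU p.1.1).ne_zero (congrArg Subtype.val e)⟩
  choose sec hsec using fun p : {p : G.fixA × K // φ p = 1 ∧ p.1 ≠ 0} =>
    G.exists_norm_eq p.1.1.1 p.1.1.2 fun e => p.2.2 (Subtype.ext e)
  show Nat.card T = Nat.card G.normU.ker * Nat.card {p : G.fixA × K // φ p = 1 ∧ p.1 ≠ 0}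
  rw [← Nat.card_prod]
  have hks : ∀ (k : G.normU.ker) (p : {p : G.fixA × K // φ p = 1 ∧ p.1 ≠ 0}),
      ((G.normU (k.1 * sec p) : (alg f)ˣ) : alg f) = p.1.1.1 := fun k p => by
    rw [map_mul, MonoidHom.mem_ker.1 k.2, one_mul, hsec]
  refine Nat.card_congr
    { toFun := fun p => (⟨p.1.1 * (sec (Φ p))⁻¹, MonoidHom.mem_ker.2 (by
        rw [map_mul, map_inv, mul_inv_eq_one]
        exact Units.ext (hsec (Φ p)).symm)⟩, Φ p)
      invFun := fun s => ⟨(s.1.1 * sec s.2, s.2.1.2), by rw [hks]; exact s.2.2.1⟩
      left_inv := fun p => Subtype.ext (Prod.ext (inv_mul_cancel_right _ _) rfl)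
      right_inv := fun s => ?_ }
  obtain ⟨k, p⟩ := s
  have eΦ : Φ ⟨(k.1 * sec p, p.1.2), by rw [hks]; exact p.2.1⟩ = p :=
    Subtype.ext (Prod.ext (Subtype.ext (hks k p)) rfl)
  refine Prod.ext (Subtype.ext ?_) eΦ
  show k.1 * sec p * (sec (Φ _))⁻¹ = k.1
  rw [eΦ, mul_inv_cancel_right]

end Norm

end CfsgLib.ReflectionsSpinor.POmegaTorus
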