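import Cfsg.Agent.Lib.Parabolic.OrthSpinor
import Cfsg.Agent.Lib.Parabolic.OrthReflections
import Cfsg.Agent.Lib.ReflectionsSpinor.SimpleEndTorus
import Mathlib.LinearAlgebra.Semisimple
import Mathlib.FieldTheory.Separable

/-!
# A centralising isometry of spinor sign `-1`

For an isometry `h` of odd order prime to the characteristic without non-zero fixed vectors, some
isometry commuting with `h` has spinor sign `-1`: a generator of a cyclic torus supported on one
irreducible summand (non-degenerate, or paired with a second one). Its cycles on the sphere are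
regular of even length and odd in number.
-/

set_option autoImplicit false
set_option linter.unusedSectionVars false

namespace CfsgLib.ReflectionsSpinor.POmegaTorus

open Matrix QuadraticMap Module CfsgLib.OrthGen

variable {F : Type*} [Field F] [Finite F] {ι : Type} [Fintype ι] [DecidableEq ι]
  {Q : QuadraticForm F (ι → F)}

/-- The spinor sign of an isometry all of whose moved points on the sphere have period `M`. -/
theorem spinSign_eq_of_regular (g : Cfsg.isometryGroup F (⇑Q)) {M N : ℕ} (hM : Even M) (hM0 : 0 < M)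
    (hpow : ∀ x, act Q (g ^ M) x = x)
    (hfree : ∀ (x : ι → F) (j : ℕ), Q x = 1 → act Q g x ≠ x → act Q (g ^ j) x = x → M ∣ j)
    (hcard : Nat.card {x : ι → F // Q x = 1 ∧ act Q g x ≠ x} = M * N) :
    spinSign Q 1 g = (-1) ^ N := by
  classical
  letI := Fintype.ofFinite {x : ι → F // Q x = 1}
  set σ := sphereHom Q 1 g with hσ
  have happ : ∀ (j : ℕ) x, ((σ ^ j) x).1 = act Q (g ^ j) x.1 := fun j x => by
    rw [hσ, ← map_pow]; rfl
  have happ1 : ∀ x, (σ x).1 = act Q g x.1 := fun x => rfl
  show Equiv.Perm.sign σ = _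
  have hrep : σ.cycleType = Multiset.replicate (Multiset.card σ.cycleType) M := by
    refine Multiset.eq_replicate.2 ⟨rfl, fun n hn => ?_⟩
    rw [Equiv.Perm.cycleType_def, Multiset.mem_map] at hn
    obtain ⟨c, hc, rfl⟩ := hn
    obtain ⟨hcyc, -⟩ := Equiv.Perm.mem_cycleFactorsFinset_iff.1 hc
    obtain ⟨x, hx⟩ := hcyc.nonempty_support
    have hcx := Equiv.Perm.cycle_is_cycleOf hx hc
    have hne : c x ≠ x := Equiv.Perm.mem_support.1 hx
    have hpw : ∀ j : ℕ, c ^ j = 1 ↔ act Q (g ^ j) x.1 = x.1 := fun j => by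
      rw [hcyc.pow_eq_one_iff' hne, hcx, Equiv.Perm.cycleOf_pow_apply_self, Subtype.ext_iff, happ]
    show c.support.card = M
    rw [← hcyc.orderOf]
    refine Nat.dvd_antisymm (orderOf_dvd_of_pow_eq_one ((hpw M).2 (hpow _)))
      (hfree x.1 _ x.2 ?_ ((hpw _).1 (pow_orderOf_eq_one c)))
    rw [← happ1, ne_eq, ← Subtype.ext_iff]
    intro h
    apply hne
    rw [hcx, Equiv.Perm.cycleOf_apply_self, h]
  rw [Equiv.Perm.sign_of_cycleType_eq_replicate hM0 hrep, if_neg (Nat.not_odd_iff_even.2 hM)]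
  congr 1
  have hmoved : Fintype.card {x : ι → F // Q x = 1} - Fintype.card (Function.fixedPoints σ) =
      M * N := by
    rw [← hcard, ← Nat.card_congr (Equiv.subtypeSubtypeEquivSubtypeInter
      (fun x : ι → F => Q x = 1) (fun x => act Q g x ≠ x))]
    have := Nat.card_congr (Equiv.sumCompl fun x : {x : ι → F // Q x = 1} => act Q g x.1 = x.1)
    rw [Nat.card_sum, Nat.card_eq_fintype_card (α := {x : ι → F // Q x = 1})] at this
    rw [← Nat.card_eq_fintype_card (α := Function.fixedPoints σ),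
      show Nat.card (Function.fixedPoints σ) =
        Nat.card {x : {x : ι → F // Q x = 1} // act Q g x.1 = x.1} from
        Nat.card_congr (Equiv.subtypeEquivRight fun x => Subtype.ext_iff)]
    simp only [ne_eq]
    omega
  rw [hmoved, Nat.mul_div_cancel_left _ hM0]

/-! ### Isometries from linear maps -/

theorem injective_of_isometry (hn : (polarBilin Q).Nondegenerate) (T : Module.End F (ι → F))
    (hT : ∀ x, Q (T x) = Q x) : Function.Injective T := by
  refine (injective_iff_map_eq_zero T).2 fun x hx => eq_zero_of_pf_eq_zero hn fun y => ?_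
  have h : pf Q (T x) (T y) = pf Q x y := by simp only [pf, polar, ← map_add, hT]
  rw [← h, hx, pf, polar_zero_left]

/-- A linear isometry as an element of the isometry group. -/
theorem exists_iso (hn : (polarBilin Q).Nondegenerate) (T : Module.End F (ι → F))
    (hT : ∀ x, Q (T x) = Q x) : ∃ g : Cfsg.isometryGroup F (⇑Q), ∀ x, act Q g x = T x := by
  let e := LinearEquiv.ofInjectiveEndo T (injective_of_isometry hn T hT)
  refine ⟨mkIso Q (LinearMap.toMatrix' T) (LinearMap.toMatrix' e.symm.toLinearMap) ?_ ?_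
    (fun x => by rw [LinearMap.toMatrix'_mulVec, hT]), fun x => LinearMap.toMatrix'_mulVec T x⟩
  · rw [← LinearMap.toMatrix'_comp, ← LinearMap.toMatrix'_id]
    exact congrArg _ (LinearMap.ext e.apply_symm_apply)
  · rw [← LinearMap.toMatrix'_comp, ← LinearMap.toMatrix'_id]
    exact congrArg _ (LinearMap.ext e.symm_apply_apply)

theorem act_pow (g : Cfsg.isometryGroup F (⇑Q)) (T : Module.End F (ι → F))
    (hg : ∀ x, act Q g x = T x) (j : ℕ) (x : ι → F) : act Q (g ^ j) x = (T ^ j) x := by
  induction j with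
  | zero => rw [pow_zero, pow_zero, act_one]; rfl
  | succ j ih => rw [pow_succ', pow_succ', act_mul, ih, hg]; rfl

/-! ### Paired invariant subspaces -/

/-- Two subspaces in non-degenerate duality under the polar form. -/
structure Paired (Q : QuadraticForm F (ι → F)) (U X : Submodule F (ι → F)) : Prop where
  left : ∀ a ∈ U, (∀ b ∈ X, pf Q a b = 0) → a = 0
  right : ∀ b ∈ X, (∀ a ∈ U, pf Q a b = 0) → b = 0

variable {U X : Submodule F (ι → F)}

theorem Paired.symm (P : Paired Q U X) : Paired Q X U :=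
  ⟨fun a ha h => P.right a ha fun b hb => (pf_comm Q b a).trans (h b hb),
    fun b hb h => P.left b hb fun a ha => (pf_comm Q b a).trans (h a ha)⟩

/-- The pairing as a map to the dual space. -/
noncomputable def toDual (Q : QuadraticForm F (ι → F)) (U : Submodule F (ι → F)) :
    (ι → F) →ₗ[F] Module.Dual F U :=
  (LinearMap.lcomp F F U.subtype).comp (polarBilin Q)

theorem toDual_apply (x : ι → F) (a : U) : toDual Q U x a = pf Q x a := rfl

theorem Paired.injective (P : Paired Q U X) :
    Function.Injective ((toDual Q X).comp U.subtype) := by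
  refine (injective_iff_map_eq_zero _).2 fun a ha => Subtype.ext ?_
  exact P.left a a.2 fun b hb => LinearMap.congr_fun ha ⟨b, hb⟩

theorem Paired.finrank_eq (P : Paired Q U X) : finrank F U = finrank F X := by
  have h1 := LinearMap.finrank_le_finrank_of_injective P.injective
  have h2 := LinearMap.finrank_le_finrank_of_injective P.symm.injective
  rw [Subspace.dual_finrank_eq] at h1 h2
  omega

/-- `U` is the dual of `X`. -/
noncomputable def Paired.rep (P : Paired Q U X) : U ≃ₗ[F] Module.Dual F X :=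
  LinearEquiv.ofBijective ((toDual Q X).comp U.subtype) ⟨P.injective,
    (LinearMap.injective_iff_surjective_of_finrank_eq_finrank
      (by rw [Subspace.dual_finrank_eq]; exact P.finrank_eq)).1 P.injective⟩

/-- The projection to `U` along the orthogonal of `X`. -/
noncomputable def Paired.proj (P : Paired Q U X) : (ι → F) →ₗ[F] U :=
  P.rep.symm.toLinearMap.comp (toDual Q X)

theorem Paired.pf_proj (P : Paired Q U X) (x : ι → F) {b : ι → F} (hb : b ∈ X) :
    pf Q (P.proj x : ι → F) b = pf Q x b :=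
  LinearMap.congr_fun (P.rep.apply_symm_apply (toDual Q X x)) ⟨b, hb⟩

theorem Paired.proj_unique (P : Paired Q U X) (x : ι → F) (a : U)
    (h : ∀ b ∈ X, pf Q (a : ι → F) b = pf Q x b) : P.proj x = a := by
  refine sub_eq_zero.1 (Subtype.ext (P.left _ (P.proj x - a).2 fun b hb => ?_))
  rw [AddSubgroupClass.coe_sub, pf, polar_sub_left, ← pf, ← pf, P.pf_proj x hb, h b hb, sub_self]

theorem Paired.proj_self (P : Paired Q U X) (a : U) : P.proj a = a :=
  P.proj_unique _ _ fun _ _ => rfl

/-- The endomorphism of `X` contragredient to one of `U`. -/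
noncomputable def Paired.contra (P : Paired Q U X) (f : Module.End F U) : Module.End F X :=
  P.symm.rep.symm.toLinearMap ∘ₗ LinearMap.dualMap f ∘ₗ P.symm.rep.toLinearMap

theorem Paired.pf_contra (P : Paired Q U X) (f : Module.End F U) (a : U) (b : X) :
    pf Q (a : ι → F) (P.contra f b : ι → F) = pf Q (f a : ι → F) b := by
  rw [pf_comm, pf_comm Q (f a : ι → F)]
  exact LinearMap.congr_fun (P.symm.rep.apply_symm_apply (LinearMap.dualMap f (P.symm.rep b))) a

theorem Paired.contra_unique (P : Paired Q U X) (f : Module.End F U) (b c : X)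
    (h : ∀ a : U, pf Q (a : ι → F) c = pf Q (f a : ι → F) b) : P.contra f b = c := by
  refine sub_eq_zero.1 (Subtype.ext (P.right _ (P.contra f b - c).2 fun a ha => ?_))
  rw [AddSubgroupClass.coe_sub, pf, polar_sub_right, ← pf, ← pf, P.pf_contra f ⟨a, ha⟩, h ⟨a, ha⟩,
    sub_self]

/-- `U` is invariant under `H`. -/
def Inv (H : Module.End F (ι → F)) (U : Submodule F (ι → F)) : Prop := ∀ x ∈ U, H x ∈ U

variable {H : Module.End F (ι → F)}

/-- The restriction of `H`. -/
def res (hU : Inv H U) : Module.End F U := H.restrict hU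

theorem coe_res (hU : Inv H U) (x : U) : (res hU x : ι → F) = H x := rfl

theorem proj_eq_zero (P : Paired Q U X) (hXs : ∀ b ∈ X, Q b = 0) (b : X) :
    P.proj (b : ι → F) = 0 :=
  P.proj_unique _ _ fun c hc => by
    have := hXs _ (X.add_mem b.2 hc)
    rw [Q_add, hXs _ b.2, hXs _ hc, zero_add, zero_add] at this
    rw [this, ZeroMemClass.coe_zero]
    exact polar_zero_left _ _

section Split

variable {V W : Type*} [AddCommGroup V] [Module F V] [AddCommGroup W] [Module F W]

/-- The points outside the kernel of a retraction, fibre by fibre. -/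
theorem card_split [Finite V] [Finite W] (π : V →ₗ[F] W) (s : W →ₗ[F] V) (hs : ∀ a, π (s a) = a)
    (p : V → Prop) (N : ℕ) (hN : ∀ a, a ≠ 0 → Nat.card {u : LinearMap.ker π // p (s a + u)} = N) :
    Nat.card {x // p x ∧ π x ≠ 0} = Nat.card {a : W // a ≠ 0} * N := by
  classical
  letI := Fintype.ofFinite {a : W // a ≠ 0}
  have e : {x // p x ∧ π x ≠ 0} ≃ Σ a : {a : W // a ≠ 0}, {u : LinearMap.ker π // p (s a.1 + u)} :=
    { toFun := fun x => ⟨⟨π x.1, x.2.2⟩, ⟨x.1 - s (π x.1), by simp [hs]⟩, by simpa using x.2.1⟩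
      invFun := fun z => ⟨s z.1.1 + z.2.1, z.2.2, by simpa [hs] using z.1.2⟩
      left_inv := fun x => Subtype.ext (add_sub_cancel _ _)
      right_inv := fun z => by
        obtain ⟨⟨a, ha⟩, ⟨⟨u, hu⟩, hq⟩⟩ := z
        have hu0 : π u = 0 := hu
        refine Sigma.subtype_ext (Subtype.ext (by simp [hs, hu0])) (Subtype.ext ?_)
        simp [hs, hu0] }
  rw [Nat.card_congr e, Nat.card_sigma, Finset.sum_congr rfl fun a _ => hN a.1 a.2, Finset.sum_const,
    smul_eq_mul, Finset.card_univ, ← Nat.card_eq_fintype_card]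

theorem card_or {α : Type*} [Finite α] (p q r : α → Prop) :
    Nat.card {x // p x ∧ (q x ∨ r x)} =
      Nat.card {x // p x ∧ q x} + Nat.card {x // ¬ q x ∧ (p x ∧ r x)} := by
  classical
  rw [← Nat.card_sum]
  refine Nat.card_congr
    { toFun := fun x => if h : q x.1 then Sum.inl ⟨x.1, x.2.1, h⟩
        else Sum.inr ⟨x.1, h, x.2.1, x.2.2.resolve_left h⟩
      invFun := fun z => Sum.elim (fun y => ⟨y.1, y.2.1, Or.inl y.2.2⟩)
        (fun y => ⟨y.1, y.2.2.1, Or.inr y.2.2.2⟩) z
      left_inv := fun x => ?_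
      right_inv := fun z => ?_ }
  · by_cases h : q x.1 <;> simp [h]
  · rcases z with y | y
    · simp [y.2.2]
    · simp [y.2.1]

end Split

/-- The number of moved points on the sphere in the paired case. -/
theorem pair_count (h2 : (2 : F) ≠ 0) (hne : ∃ a : U, a ≠ 0) (P : Paired Q U X)
    (hUs : ∀ a ∈ U, Q a = 0) (hXs : ∀ b ∈ X, Q b = 0) :
    ∃ N, Odd N ∧ Nat.card {x : ι → F // Q x = 1 ∧ (P.proj x ≠ 0 ∨ P.symm.proj x ≠ 0)} =
      Nat.card {a : U // a ≠ 0} * N := by
  set K := LinearMap.ker P.proj with hK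
  have hXK : ∀ b : X, (b : ι → F) ∈ K := fun b => proj_eq_zero P hXs b
  set π₂ : K →ₗ[F] X := P.symm.proj.comp K.subtype with hπ₂
  set s₂ : X →ₗ[F] K := X.subtype.codRestrict K hXK with hs₂
  have hKX : ∀ (u : K) (b : X), pf Q (u : ι → F) b = 0 := fun u b => by
    rw [← P.pf_proj _ b.2, show P.proj (u : ι → F) = 0 from u.2, ZeroMemClass.coe_zero]
    exact polar_zero_left _ _
  obtain ⟨a₀, ha₀⟩ := hne
  have hshift : ∀ a : U, a ≠ 0 →
      Nat.card {u : K // Q ((a : ι → F) + u) = 1} * Nat.card F = Nat.card K := by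
    intro a ha
    obtain ⟨b, hb, hab⟩ : ∃ b ∈ X, pf Q (a : ι → F) b ≠ 0 := by
      by_contra! h0
      exact ha (Subtype.ext (P.left _ a.2 h0))
    refine card_fibre_mul (fun u : K => Q ((a : ι → F) + u))
      (⟨(pf Q (a : ι → F) b)⁻¹ • b, K.smul_mem _ (hXK ⟨b, hb⟩)⟩ : K) (fun u t => ?_) 1
    simp only [Submodule.coe_add, Submodule.coe_smul, ← add_assoc]
    rw [Q_add, smul_smul, QuadraticMap.map_smul, hXs b hb, smul_zero, add_zero]
    show Q _ + polar (⇑Q) _ _ = _
    rw [polar_add_left, polar_smul_right, polar_smul_right,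
      show polar (⇑Q) (u : ι → F) b = 0 from hKX u ⟨b, hb⟩, smul_zero, add_zero,
      smul_eq_mul, mul_assoc, inv_mul_cancel₀ hab, mul_one]
  set T₀ := Nat.card {u : K // Q ((a₀ : ι → F) + u) = 1} with hT₀
  set N₂ := Nat.card {u : LinearMap.ker π₂ // Q ((u : K) : ι → F) = 1} with hN₂def
  have hodd : Odd T₀ := by
    have hodd := odd_card_module h2 K
    rw [← hshift a₀ ha₀, Nat.odd_mul] at hodd
    exact hodd.1
  have hN₂ : Even N₂ := even_card_of_involution
    (fun u : {u : LinearMap.ker π₂ // Q ((u : K) : ι → F) = 1} =>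
      (⟨-u.1, by rw [NegMemClass.coe_neg, NegMemClass.coe_neg, QuadraticMap.map_neg]; exact u.2⟩ :
        {u : LinearMap.ker π₂ // Q ((u : K) : ι → F) = 1}))
    (fun u => Subtype.ext (neg_neg u.1)) fun u e => by
      have e1 : -((u.1 : K) : ι → F) = u.1 := congrArg (fun z => ((z.1 : K) : ι → F)) e
      have : (2 : F) • ((u.1 : K) : ι → F) = 0 := by
        rw [two_smul]; nth_rw 1 [← e1]; exact neg_add_cancel _
      exact one_ne_zero (u.2.symm.trans
        (by rw [(smul_eq_zero.1 this).resolve_left h2, QuadraticMap.map_zero]))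
  have h₁ : Nat.card {x : ι → F // Q x = 1 ∧ P.proj x ≠ 0} = Nat.card {a : U // a ≠ 0} * T₀ :=
    card_split P.proj U.subtype P.proj_self (fun x => Q x = 1) T₀ fun a ha =>
      Nat.eq_of_mul_eq_mul_right (Nat.card_pos (α := F)) ((hshift a ha).trans (hshift a₀ ha₀).symm)
  have h₂ : Nat.card {u : K // Q (u : ι → F) = 1 ∧ π₂ u ≠ 0} = Nat.card {b : X // b ≠ 0} * N₂ :=
    card_split π₂ s₂ P.symm.proj_self (fun u => Q (u : ι → F) = 1) N₂ fun b _ =>
      Nat.card_congr (Equiv.subtypeEquivRight fun u => by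
        show Q ((b : ι → F) + ((u : K) : ι → F)) = 1 ↔ _
        rw [Q_add, hXs _ b.2, zero_add, pf_comm, hKX, add_zero])
  have hX : Nat.card {b : X // b ≠ 0} = Nat.card {a : U // a ≠ 0} :=
    Nat.card_congr ((LinearEquiv.ofFinrankEq X U P.finrank_eq.symm).toEquiv.subtypeEquiv fun b =>
      (not_congr (LinearEquiv.map_eq_zero_iff _)).symm)
  refine ⟨T₀ + N₂, hodd.add_even hN₂, ?_⟩
  rw [card_or, h₁, mul_add, ← hX, ← h₂]
  congr 1
  exact Nat.card_congr
    { toFun := fun x => ⟨⟨x.1, not_not.1 x.2.1⟩, x.2.2.1, x.2.2.2⟩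
      invFun := fun u => ⟨u.1.1, not_not.2 u.1.2, u.2.1, u.2.2⟩
      left_inv := fun x => rfl
      right_inv := fun u => rfl }

/-! ### The two torus elements -/

section

variable (h : Cfsg.isometryGroup F (⇑Q))

/-- The linear map of an isometry. -/
noncomputable def lin : Module.End F (ι → F) :=
  Matrix.mulVecLin ((h : Matrix.GeneralLinearGroup ι F) : Matrix ι ι F)

theorem lin_apply (x : ι → F) : lin h x = act Q h x := rfl

variable {h}

theorem inv_pow_apply (hU : Inv H U) (j : ℕ) : Inv (H ^ j) U := by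
  induction j with
  | zero => exact fun x hx => hx
  | succ j ih => intro x hx; rw [pow_succ', Module.End.mul_apply]; exact hU _ (ih x hx)

theorem act_inv_mem {r : ℕ} (hr : 0 < r) (hhr : h ^ r = 1) (hU : Inv (lin h) U) {x : ι → F}
    (hx : x ∈ U) : act Q h⁻¹ x ∈ U := by
  obtain ⟨k, rfl⟩ := Nat.exists_eq_add_one.2 hr
  rw [inv_eq_of_mul_eq_one_right (b := h ^ k) (by rw [← pow_succ', hhr]),
    act_pow h (lin h) (fun _ => rfl)]
  exact inv_pow_apply hU k x hx

theorem Paired.proj_act (P : Paired Q U X) {r : ℕ} (hr : 0 < r) (hhr : h ^ r = 1)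
    (hU : Inv (lin h) U) (hX : Inv (lin h) X) (x : ι → F) :
    P.proj (act Q h x) = res hU (P.proj x) :=
  P.proj_unique _ _ fun b hb => by
    rw [coe_res, lin_apply, pf_act_left, pf_act_left, P.pf_proj x (act_inv_mem hr hhr hX hb)]

/-- The paired case. -/
theorem exists_of_pair (h2 : (2 : F) ≠ 0) (hn : (polarBilin Q).Nondegenerate) {r : ℕ} (hr : 0 < r)
    (hhr : h ^ r = 1) (hU : Inv (lin h) U) (I : Simple (res hU)) (hX : Inv (lin h) X) (P : Paired Q U X)
    (hUs : ∀ a ∈ U, Q a = 0) (hXs : ∀ b ∈ X, Q b = 0) :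
    ∃ k : Cfsg.isometryGroup F (⇑Q), k * h = h * k ∧ spinSign Q 1 k = -1 := by
  obtain ⟨g, -, hgord⟩ := I.exists_generator ⊤
  rw [Subgroup.card_top, I.card_units] at hgord
  set M := Nat.card {x : U // x ≠ 0} with hM
  set G : Module.End F U := ((g : alg (res hU)) : Module.End F U) with hG
  set Gi : Module.End F U := ((↑g⁻¹ : alg (res hU)) : Module.End F U) with hGi
  have hGiG : ∀ a, Gi (G a) = a := fun a => by
    have e := congrArg (fun z : alg (res hU) => (z : Module.End F U) a) g.inv_mul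
    exact e
  set G' := P.contra Gi with hG'
  let π := P.proj
  let π' := P.symm.proj
  have hππ : ∀ b : X, π (b : ι → F) = 0 := proj_eq_zero P hXs
  have hπ'π : ∀ a : U, π' (a : ι → F) = 0 := proj_eq_zero P.symm hUs
  have hne := I.ne
  set T : Module.End F (ι → F) := 1 + U.subtype ∘ₗ (G - 1) ∘ₗ π + X.subtype ∘ₗ (G' - 1) ∘ₗ π'
    with hTdef
  have hTx : ∀ x, T x = x + ((G (π x) - π x : U) : ι → F) + ((G' (π' x) - π' x : X) : ι → F) :=
    fun x => rfl
  have hTQ : ∀ x, Q (T x) = Q x := fun x => by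
    set α : U := G (π x) - π x with hα
    set β : X := G' (π' x) - π' x with hβ
    rw [hTx, Q_add, Q_add, hUs _ α.2, hXs _ β.2,
      show pf Q (x + (α : ι → F)) β = pf Q x β + pf Q (α : ι → F) β from polar_add_left _ _ _ _,
      ← P.pf_proj x β.2, pf_comm Q x (α : ι → F)]
    have h1 : pf Q (α : ι → F) x = pf Q (α : ι → F) (π' x : ι → F) := by
      rw [pf_comm Q _ x, ← P.symm.pf_proj x α.2, pf_comm]
    have h3 : pf Q (G (π x) : ι → F) (G' (π' x) : ι → F) = pf Q (π x : ι → F) (π' x) := by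
      rw [hG', P.pf_contra, hGiG]
    rw [h1, hα, hβ, AddSubgroupClass.coe_sub, AddSubgroupClass.coe_sub]
    simp only [pf, polar_sub_left, polar_sub_right, π] at h3 ⊢
    linear_combination h3
  obtain ⟨k, hk⟩ := exists_iso hn T hTQ
  have hπT : ∀ x, π (T x) = G (π x) := fun x => by
    simp only [hTx, π, map_add, P.proj_self] at hππ ⊢
    rw [hππ]; abel
  have hπ'T : ∀ x, π' (T x) = G' (π' x) := fun x => by
    simp only [hTx, π', map_add, P.symm.proj_self] at hπ'π ⊢
    rw [hπ'π]; abel
  have hπk : ∀ (j : ℕ) x, π (act Q (k ^ j) x) = (G ^ j) (π x) ∧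
      π' (act Q (k ^ j) x) = (G' ^ j) (π' x) ∧
      act Q (k ^ j) x = x + (((G ^ j) (π x) - π x : U) : ι → F) +
        (((G' ^ j) (π' x) - π' x : X) : ι → F) := by
    intro j
    induction j with
    | zero => intro x; simp [act_one]
    | succ j ih =>
      intro x
      obtain ⟨e1, e2, e3⟩ := ih x
      rw [pow_succ', act_mul, hk]
      refine ⟨by rw [hπT, e1, pow_succ', Module.End.mul_apply],
        by rw [hπ'T, e2, pow_succ', Module.End.mul_apply], ?_⟩
      rw [hTx, e1, e2, e3, pow_succ', pow_succ', Module.End.mul_apply, Module.End.mul_apply]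
      simp only [AddSubgroupClass.coe_sub]
      abel
  have hG'pow : ∀ (j : ℕ) (a : U) (b : X),
      pf Q (a : ι → F) ((G' ^ j) b : ι → F) = pf Q ((Gi ^ j) a : ι → F) b := by
    intro j
    induction j with
    | zero => intro a b; rfl
    | succ j ih =>
      intro a b
      rw [pow_succ, Module.End.mul_apply, ih, hG', P.pf_contra, pow_succ', Module.End.mul_apply]
  have hfixG' : ∀ (j : ℕ) (b : X), b ≠ 0 → (G' ^ j) b = b → M ∣ j := fun j b hb e => by
    rw [← hgord, ← orderOf_inv]
    by_contra hnd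
    apply hb
    refine Subtype.ext (P.right b b.2 fun a ha => ?_)
    have hne : ((g⁻¹ ^ j : (alg (res hU))ˣ) : alg (res hU)) - 1 ≠ 0 := fun h0 =>
      hnd (orderOf_dvd_of_pow_eq_one (Units.ext (sub_eq_zero.1 h0)))
    obtain ⟨c, hc⟩ := (LinearMap.injective_iff_surjective.1 (I.injective _ hne)) ⟨a, ha⟩
    have hc' : a = ((Gi ^ j) c : ι → F) - (c : ι → F) := by
      refine (congrArg Subtype.val hc).symm.trans ?_
      rw [Units.val_pow_eq_pow_val]
      rfl
    rw [hc', pf, polar_sub_left]
    change pf Q _ _ - pf Q _ _ = 0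
    rw [← hG'pow, e, sub_self]
  classical
  have hMeven : Even M := by
    have hsum : M + 1 = Nat.card U := by
      have := Nat.card_congr (Equiv.sumCompl fun x : U => x = 0)
      rw [Nat.card_sum, Nat.card_unique] at this
      rw [hM]
      simp only [ne_eq] at *
      omega
    obtain ⟨t, ht⟩ := odd_card_module h2 U
    exact ⟨t, by omega⟩
  have hM0 : 0 < M := by
    obtain ⟨x, hx⟩ := I.ne
    exact Nat.card_pos_iff.2 ⟨⟨⟨x, hx⟩⟩, inferInstance⟩
  have hmoved : ∀ x, act Q k x ≠ x ↔ π x ≠ 0 ∨ π' x ≠ 0 := fun x => by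
    rw [hk]
    constructor
    · intro hx
      by_contra! h0
      exact hx (by rw [hTx, h0.1, h0.2]; simp)
    · intro hx e
      rcases hx with hx | hx
      · have := hgord ▸ I.dvd_of_fix g 1 hx (by rw [pow_one, ← hG, ← hπT, e])
        rw [Nat.dvd_one.1 this] at hMeven
        exact absurd hMeven (by decide)
      · have := hfixG' 1 _ hx (by rw [pow_one, ← hπ'T, e])
        rw [Nat.dvd_one.1 this] at hMeven
        exact absurd hMeven (by decide)
  obtain ⟨N, hN, hcard'⟩ := pair_count h2 hne P hUs hXs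
  have hcard : Nat.card {x : ι → F // Q x = 1 ∧ act Q k x ≠ x} = M * N :=
    (Nat.card_congr (Equiv.subtypeEquivRight fun x => and_congr_right fun _ => hmoved x)).trans hcard'
  refine ⟨k, ext_act fun x => ?_, ?_⟩
  · rw [act_mul, act_mul, hk, hk, hTx, hTx, act_add, act_add,
      P.proj_act hr hhr hU hX, P.symm.proj_act hr hhr hX hU, add_assoc, add_assoc]
    congr 1
    congr 1
    · have := commute_self (g : alg (res hU)) (π x)
      simp only [π] at this ⊢
      rw [← lin_apply, ← coe_res hU, map_sub, this]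
    · have hc : G' (res hX (π' x)) = res hX (G' (π' x)) := by
        refine P.contra_unique Gi _ _ fun a => ?_
        rw [coe_res, coe_res, lin_apply, lin_apply]
        have hai : act Q h⁻¹ (a : ι → F) ∈ U := act_inv_mem hr hhr hU a.2
        rw [← act_act_inv h (a : ι → F), pf_act, hG',
          show act Q h⁻¹ (a : ι → F) = ((⟨_, hai⟩ : U) : ι → F) from rfl, P.pf_contra,
          ← pf_act h]
        congr 1
        have := commute_self (↑g⁻¹ : alg (res hU)) ⟨_, hai⟩
        rw [← hGi] at this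
        rw [← lin_apply, ← coe_res hU, this,
          show res hU ⟨_, hai⟩ = a from Subtype.ext (act_act_inv h _)]
      simp only [π'] at hc ⊢
      rw [← lin_apply, ← coe_res hX, map_sub, hc]
  · rw [spinSign_eq_of_regular k hMeven hM0 (N := N) ?_ ?_ hcard]
    · exact hN.neg_one_pow
    · intro x
      obtain ⟨-, -, e⟩ := hπk M x
      have e1 : G ^ M = 1 := by
        rw [hG, ← SubmonoidClass.coe_pow, ← Units.val_pow_eq_pow_val, ← hgord, pow_orderOf_eq_one]
        rfl
      have e2 : ∀ b, (G' ^ M) b = b := fun b => sub_eq_zero.1 (Subtype.ext (P.right _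
        ((G' ^ M) b - b).2 fun a ha => by
          have hgi : Gi ^ M = 1 := by
            rw [hGi, ← SubmonoidClass.coe_pow, ← Units.val_pow_eq_pow_val, ← hgord, inv_pow,
              pow_orderOf_eq_one, inv_one]
            rfl
          rw [AddSubgroupClass.coe_sub, pf, polar_sub_right, ← pf, ← pf, hG'pow M ⟨a, ha⟩, hgi]
          exact sub_self _))
      rw [e, e1, e2]
      simp
    · intro x j _ hx e
      obtain ⟨e1, e2, -⟩ := hπk j x
      rw [e] at e1 e2
      rcases (hmoved x).1 hx with h0 | h0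
      · exact hgord ▸ I.dvd_of_fix g j h0 e1.symm
      · exact hfixG' j _ h0 e2.symm

/-! ### The non-degenerate case -/

theorem res_pow_apply (hU : Inv H U) (j : ℕ) (x : U) :
    (((res hU) ^ j) x : ι → F) = (H ^ j) x := by
  induction j with
  | zero => rfl
  | succ j ih => rw [pow_succ', pow_succ', Module.End.mul_apply, Module.End.mul_apply, coe_res, ih]

/-- The non-degenerate case. -/
theorem exists_of_nondeg (h2 : (2 : F) ≠ 0) (hn : (polarBilin Q).Nondegenerate) {r : ℕ}
    (hhr : h ^ r = 1) (hodd : Odd r) (hfree : ∀ x, act Q h x = x → x = 0) (hU : Inv (lin h) U)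
    (I : Simple (res hU)) (P : Paired Q U U) :
    ∃ k : Cfsg.isometryGroup F (⇑Q), k * h = h * k ∧ spinSign Q 1 k = -1 := by
  classical
  have hr : 0 < r := hodd.pos
  let B : LinearMap.BilinForm F U := (polarBilin Q).compl₁₂ U.subtype U.subtype
  have hB : ∀ a b : U, B a b = pf Q (a : ι → F) b := fun a b => rfl
  have G : Good (res hU) B r :=
    { simple := I
      sep := fun b hb => Subtype.ext (P.right _ b.2 fun a ha => hb ⟨a, ha⟩)
      symm := fun a b => pf_comm Q _ _
      pres := fun a b => by rw [hB, hB, coe_res, coe_res]; exact pf_act h _ _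
      pow := LinearMap.ext fun x => Subtype.ext (by
        rw [res_pow_apply, ← act_pow h (lin h) (fun _ => rfl), hhr, act_one]
        rfl)
      odd := hodd
      free := fun a ha => Subtype.ext (hfree _ (congrArg Subtype.val ha)) }
  let π := P.proj
  have hUK : ∀ (a : U) (u : LinearMap.ker π), pf Q (a : ι → F) (u : ι → F) = 0 := fun a u => by
    rw [pf_comm, ← P.pf_proj _ a.2, show P.proj (u : ι → F) = 0 from u.2, ZeroMemClass.coe_zero]
    exact polar_zero_left _ _
  obtain ⟨T₀, n, N, hneven, hn0, hN, hpow, hfix, hTB, hTf, hcard₀⟩ := G.exists_torus h2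
    (fun u : LinearMap.ker π => Q (u : ι → F))
    (fun u => by rw [NegMemClass.coe_neg, QuadraticMap.map_neg])
    (by rw [ZeroMemClass.coe_zero, QuadraticMap.map_zero])
  set T : Module.End F (ι → F) := 1 + U.subtype ∘ₗ (T₀ - 1) ∘ₗ π with hTdef
  have hTx : ∀ x, T x = x + ((T₀ (π x) - π x : U) : ι → F) := fun x => rfl
  have hQhalf : ∀ a : U, Q (a : ι → F) = (2 : F)⁻¹ * B a a := fun a => by
    rw [hB, pf_self, inv_mul_cancel_left₀ h2]
  have hsplit : ∀ (a : U) (u : LinearMap.ker π),
      Q ((a : ι → F) + u) = Q (a : ι → F) + Q (u : ι → F) := fun a u => by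
    rw [Q_add, hUK, add_zero]
  have hdec : ∀ x, x - (π x : ι → F) ∈ LinearMap.ker π := fun x => by
    rw [LinearMap.mem_ker, map_sub, P.proj_self, sub_self]
  have hQx : ∀ x, Q x = Q (π x : ι → F) + Q (x - (π x : ι → F)) := fun x => by
    rw [← hsplit (π x) ⟨_, hdec x⟩, add_sub_cancel]
  have hπT : ∀ x, π (T x) = T₀ (π x) := fun x => by
    simp only [hTx, π, map_add, P.proj_self]
    abel
  have hTQ : ∀ x, Q (T x) = Q x := fun x => by
    rw [hQx (T x), hQx x, hπT, hQhalf, hTB, ← hQhalf, hTx, AddSubgroupClass.coe_sub]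
    congr 2
    abel
  obtain ⟨k, hk⟩ := exists_iso hn T hTQ
  have hπk : ∀ (j : ℕ) x, π (act Q (k ^ j) x) = (T₀ ^ j) (π x) ∧
      act Q (k ^ j) x = x + (((T₀ ^ j) (π x) - π x : U) : ι → F) := by
    intro j
    induction j with
    | zero => intro x; simp [act_one]
    | succ j ih =>
      intro x
      obtain ⟨e1, e3⟩ := ih x
      rw [pow_succ', act_mul, hk]
      refine ⟨by rw [hπT, e1, pow_succ', Module.End.mul_apply], ?_⟩
      rw [hTx, e1, e3, pow_succ', Module.End.mul_apply]
      simp only [AddSubgroupClass.coe_sub]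
      abel
  have hmoved : ∀ x, act Q k x ≠ x ↔ π x ≠ 0 := fun x => by
    rw [hk]
    constructor
    · intro hx h0
      exact hx (by rw [hTx, h0]; simp)
    · intro hx e
      have := hfix 1 _ hx (by rw [pow_one, ← hπT, e])
      rw [Nat.dvd_one.1 this] at hneven
      exact absurd hneven (by decide)
  have hcard : Nat.card {x : ι → F // Q x = 1 ∧ act Q k x ≠ x} = n * N := by
    rw [← hcard₀]
    exact Nat.card_congr
      { toFun := fun x => ⟨(π x.1, ⟨_, hdec x.1⟩), by
          rw [← hQhalf, ← hQx]; exact x.2.1, (hmoved _).1 x.2.2⟩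
        invFun := fun p => ⟨(p.1.1 : ι → F) + p.1.2, by rw [hsplit, hQhalf]; exact p.2.1, by
          rw [hmoved, map_add, P.proj_self, show π (p.1.2 : ι → F) = 0 from p.1.2.2, add_zero]
          exact p.2.2⟩
        left_inv := fun x => Subtype.ext (add_sub_cancel _ _)
        right_inv := fun p => by
          obtain ⟨⟨a, ⟨u, hu⟩⟩, hp⟩ := p
          have hu0 : π u = 0 := hu
          refine Subtype.ext (Prod.ext ?_ (Subtype.ext ?_)) <;> simp [π, P.proj_self, hu0] }
  refine ⟨k, ext_act fun x => ?_, ?_⟩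
  · rw [act_mul, act_mul, hk, hk, hTx, hTx, act_add, P.proj_act hr hhr hU hU]
    congr 1
    rw [← lin_apply, ← coe_res hU, map_sub, hTf]
  · rw [spinSign_eq_of_regular k hneven hn0 (N := N) ?_ ?_ hcard]
    · exact hN.neg_one_pow
    · intro x
      rw [(hπk n x).2, hpow]
      simp
    · intro x j _ hx e
      have e1 := (hπk j x).1
      rw [e] at e1
      exact hfix j _ ((hmoved x).1 hx) e1.symm

/-! ### Existence of an irreducible summand -/

theorem simple_of_minimal {W : Submodule F (ι → F)} (hW : Inv H W) (hne : W ≠ ⊥)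
    (hmin : ∀ W' : Submodule F (ι → F), Inv H W' → W' ≤ W → W' = ⊥ ∨ W' = W) : Simple (res hW) := by
  obtain ⟨x, hx, hx0⟩ := Submodule.exists_mem_ne_zero_of_ne_bot hne
  refine ⟨⟨⟨x, hx⟩, fun e => hx0 (congrArg Subtype.val e)⟩, fun V hV => ?_⟩
  rcases hmin (V.map W.subtype) (by rintro _ ⟨y, hy, rfl⟩; exact ⟨res hW y, hV y hy, rfl⟩)
    (Submodule.map_subtype_le W V) with e | e
  · exact Or.inl (Submodule.map_injective_of_injective W.subtype_injective
      (e.trans (Submodule.map_bot _).symm))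
  · exact Or.inr (Submodule.map_injective_of_injective W.subtype_injective
      (e.trans (Submodule.map_subtype_top W).symm))

/-- The orthogonal complement. -/
noncomputable def orth (Q : QuadraticForm F (ι → F)) (W : Submodule F (ι → F)) : Submodule F (ι → F) :=
  LinearMap.ker (toDual Q W)

theorem mem_orth {W : Submodule F (ι → F)} {x : ι → F} :
    x ∈ orth Q W ↔ ∀ a ∈ W, pf Q x a = 0 :=
  ⟨fun hx a ha => LinearMap.congr_fun (LinearMap.mem_ker.1 hx) ⟨a, ha⟩,
    fun hx => LinearMap.mem_ker.2 (LinearMap.ext fun a => hx a a.2)⟩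

theorem inv_orth {r : ℕ} (hr : 0 < r) (hhr : h ^ r = 1) {W : Submodule F (ι → F)}
    (hW : Inv (lin h) W) : Inv (lin h) (orth Q W) := fun x hx => by
  rw [mem_orth] at hx ⊢
  intro a ha
  rw [lin_apply, pf_act_left]
  exact hx _ (act_inv_mem hr hhr hW ha)

/-- An isometry commuting with `h` of spinor sign `-1`. -/
theorem exists_spin_neg (h2 : (2 : F) ≠ 0) (hn : (polarBilin Q).Nondegenerate) [Nonempty ι]
    {r : ℕ} (hodd : Odd r) (hrF : (r : F) ≠ 0) (hhr : h ^ r = 1)
    (hfree : ∀ x, act Q h x = x → x = 0) :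
    ∃ k : Cfsg.isometryGroup F (⇑Q), k * h = h * k ∧ spinSign Q 1 k = -1 := by
  have hr : 0 < r := hodd.pos
  haveI : Finite (Submodule F (ι → F)) :=
    Finite.of_injective (fun W => (W : Set (ι → F))) SetLike.coe_injective
  have hmin : ∀ P : Submodule F (ι → F) → Prop, (∃ W, P W) →
      ∃ W, P W ∧ ∀ W', P W' → W' ≤ W → W' = W := fun P hP => by
    obtain ⟨W, hW⟩ := (Set.toFinite {W | P W}).exists_minimal hP
    exact ⟨W, hW.1, fun W' h1 h2 => le_antisymm h2 (hW.2 h1 h2)⟩
  obtain ⟨U, ⟨hU, hne⟩, hUmin⟩ := hmin (fun W => Inv (lin h) W ∧ W ≠ ⊥)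
    ⟨⊤, fun _ _ => Submodule.mem_top, top_ne_bot⟩
  have hUmin' : ∀ W', Inv (lin h) W' → W' ≤ U → W' = ⊥ ∨ W' = U := fun W' h1 h2 =>
    or_iff_not_imp_left.2 fun h0 => hUmin W' ⟨h1, h0⟩ h2
  have hI := simple_of_minimal hU hne hUmin'
  have hinf : ∀ {W W' : Submodule F (ι → F)}, Inv (lin h) W → Inv (lin h) W' → Inv (lin h) (W ⊓ W') :=
    fun hW hW' x hx => ⟨hW x hx.1, hW' x hx.2⟩
  rcases hUmin' _ (hinf hU (inv_orth hr hhr hU)) inf_le_left with e | e
  · have hbot : ∀ a ∈ U, (∀ b ∈ U, pf Q a b = 0) → a = 0 := fun a ha h0 =>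
      (Submodule.mem_bot F).1 (e ▸ Submodule.mem_inf.2 ⟨ha, mem_orth.2 h0⟩)
    exact exists_of_nondeg h2 hn hhr hodd hfree hU hI
      ⟨hbot, fun b hb h0 => hbot b hb fun a ha => (pf_comm Q b a).trans (h0 a ha)⟩
  · have hUs : ∀ a ∈ U, Q a = 0 := fun a ha => by
      have := mem_orth.1 (Submodule.mem_inf.1 (e.symm ▸ ha : a ∈ U ⊓ orth Q U)).2 a ha
      rw [pf_self] at this
      exact (mul_eq_zero.1 this).resolve_left h2
    have hsq : Squarefree ((Polynomial.X : Polynomial F) ^ r - Polynomial.C 1) :=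
      (Polynomial.separable_X_pow_sub_C (1 : F) hrF one_ne_zero).squarefree
    have hss : Module.End.IsSemisimple (lin h) := by
      refine Module.End.isSemisimple_of_squarefree_aeval_eq_zero hsq (LinearMap.ext fun x => ?_)
      rw [map_sub, map_pow, Polynomial.aeval_X, Polynomial.aeval_C, map_one, LinearMap.sub_apply,
        ← act_pow h (lin h) (fun _ => rfl), hhr, act_one, Module.End.one_apply, sub_self,
        LinearMap.zero_apply]
    obtain ⟨X, hX, hcompl⟩ := (Module.End.isSemisimple_iff.1 hss) (orth Q U) (inv_orth hr hhr hU)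
    have hXi : Inv (lin h) X := fun x hx => hX hx
    have P : Paired Q U X := by
      refine ⟨fun a ha h0 => eq_zero_of_pf_eq_zero hn fun y => ?_,
        fun b hb h0 => ?_⟩
      · obtain ⟨u, hu, x, hx, rfl⟩ := Submodule.mem_sup.1 (hcompl.sup_eq_top ▸ Submodule.mem_top :
          y ∈ orth Q U ⊔ X)
        rw [pf, polar_add_right]
        show pf Q a u + pf Q a x = 0
        rw [h0 x hx, add_zero, pf_comm]
        exact mem_orth.1 hu a ha
      · refine (Submodule.mem_bot F).1 (hcompl.inf_eq_bot ▸ Submodule.mem_inf.2 ⟨?_, hb⟩)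
        exact mem_orth.2 fun a ha => (pf_comm Q b a).trans (h0 a ha)
    have hXmin : ∀ W', Inv (lin h) W' → W' ≤ X → W' = ⊥ ∨ W' = X := fun W' hW' hle => by
      rcases hUmin' _ (hinf hU (inv_orth hr hhr hW')) inf_le_left with e' | e'
      · refine Or.inr (Submodule.eq_of_le_of_finrank_le hle ?_)
        rw [← P.finrank_eq, ← Subspace.dual_finrank_eq (V := W')]
        refine LinearMap.finrank_le_finrank_of_injective
          (f := (toDual Q W').comp U.subtype) ((injective_iff_map_eq_zero _).2 fun a ha => ?_)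
        refine Subtype.ext ((Submodule.mem_bot F).1 (e' ▸ Submodule.mem_inf.2 ⟨a.2, ?_⟩))
        exact LinearMap.mem_ker.2 ha
      · refine Or.inl ((Submodule.eq_bot_iff _).2 fun w hw => P.right w (hle hw) fun a ha => ?_)
        exact mem_orth.1 (Submodule.mem_inf.1 (e'.symm ▸ ha : a ∈ U ⊓ orth Q W')).2 w hw
    have hXne : X ≠ ⊥ := fun e0 => hne ((Submodule.eq_bot_iff _).2 fun a ha => P.left a ha fun b hb => by
      rw [e0, Submodule.mem_bot] at hb
      rw [hb]; exact polar_zero_right _ _)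
    rcases hXmin _ (hinf hXi (inv_orth hr hhr hXi)) inf_le_left with e' | e'
    · have hbot : ∀ a ∈ X, (∀ b ∈ X, pf Q a b = 0) → a = 0 := fun a ha h0 =>
        (Submodule.mem_bot F).1 (e' ▸ Submodule.mem_inf.2 ⟨ha, mem_orth.2 h0⟩)
      exact exists_of_nondeg h2 hn hhr hodd hfree hXi (simple_of_minimal hXi hXne hXmin)
        ⟨hbot, fun b hb h0 => hbot b hb fun a ha => (pf_comm Q b a).trans (h0 a ha)⟩
    · refine exists_of_pair h2 hn hr hhr hU hI hXi P hUs fun b hb => ?_
      have := mem_orth.1 (Submodule.mem_inf.1 (e'.symm ▸ hb : b ∈ X ⊓ orth Q X)).2 b hb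
      rw [pf_self] at this
      exact (mul_eq_zero.1 this).resolve_left h2

end

end CfsgLib.ReflectionsSpinor.POmegaTorus
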