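import Mathlib

/-!
# The fundamental theorem of projective geometry over a finite field

A map of non-zero vectors that respects spans in dimension at least three is semilinear on points.
-/

set_option autoImplicit false
set_option linter.unusedSectionVars false

open Matrix

namespace CfsgLib.ReflectionsSpinor

universe u

variable {F : Type u} [Field F] [Finite F] {κ : Type} [Fintype κ] [DecidableEq κ]

/-- A span-preserving map of non-zero vectors is semilinear up to scalars. -/
theorem exists_semilinear_of_span (hκ : 3 ≤ Fintype.card κ) (T : (κ → F) → (κ → F))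
    (hne : ∀ v, v ≠ 0 → T v ≠ 0)
    (hspan : ∀ (w : κ → F) (S : Finset (κ → F)), w ≠ 0 → (∀ s ∈ S, s ≠ 0) →
      (w ∈ Submodule.span F (S : Set (κ → F)) ↔ T w ∈ Submodule.span F (T '' (S : Set (κ → F))))) :
    ∃ (g : GL κ F) (σ : F ≃+* F), ∀ v, v ≠ 0 → ∃ c : F, c ≠ 0 ∧ T v = c • ((g : Matrix κ κ F) *ᵥ (σ ∘ v)) := by
  classical
  let e : κ → (κ → F) := fun i => Pi.single i 1
  have he : ∀ i, e i ≠ 0 := fun i => Pi.single_ne_zero_iff.2 one_ne_zero
  have hmem : ∀ (v : κ → F) (i : κ), v i = 0 ↔ v ∈ Submodule.span F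
      (((Finset.univ.erase i).image e : Finset (κ → F)) : Set (κ → F)) := by
    intro v i
    constructor
    · intro hv
      rw [show v = ∑ j, v j • e j from pi_eq_sum_univ' v]
      refine Submodule.sum_mem _ fun j _ => ?_
      by_cases hj : j = i
      · rw [hj, hv, zero_smul]; exact Submodule.zero_mem _
      · exact Submodule.smul_mem _ _ (Submodule.subset_span (by simpa using ⟨j, hj, rfl⟩))
    · intro hv
      refine Submodule.span_induction (p := fun x _ => x i = 0) ?_ rfl
        (fun x y _ _ hx hy => by simp [hx, hy]) (fun c x _ hx => by simp [hx]) hv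
      intro x hx
      obtain ⟨j, hj, rfl⟩ : ∃ j, j ≠ i ∧ e j = x := by simpa using hx
      simp [e, Ne.symm hj]
  have hes : ∀ i, ∀ s ∈ (Finset.univ.erase i).image e, s ≠ 0 := by
    intro i s hs
    obtain ⟨j, -, rfl⟩ := Finset.mem_image.1 hs
    exact he j
  have hTimg : ∀ i, T '' (((Finset.univ.erase i).image e : Finset (κ → F)) : Set (κ → F)) =
      (fun j => T (e j)) '' (Set.univ \ {i}) := by
    intro i
    rw [Finset.coe_image, Finset.coe_erase, Finset.coe_univ, Set.image_image]
  have hli : LinearIndependent F (fun j => T (e j)) := by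
    rw [linearIndependent_iff_notMem_span]
    intro i hi
    rw [← hTimg, ← hspan _ _ (he i) (hes i), ← hmem] at hi
    simp [e] at hi
  haveI : Nonempty κ := Fintype.card_pos_iff.1 (by omega)
  let B : Module.Basis κ F (κ → F) :=
    basisOfLinearIndependentOfCardEqFinrank hli (by rw [Module.finrank_fintype_fun_eq_card])
  have hB : ∀ j, B j = T (e j) := fun j => by simp [B]
  let crd : κ → (κ → F) →ₗ[F] F := fun i => B.coord i
  have hcrd : ∀ i j, crd i (T (e j)) = if j = i then 1 else 0 := fun i j => by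
    rw [← hB]; simp [crd, Module.Basis.coord_apply, Finsupp.single_apply]
  -- linear relations pass from the spanning vectors to the image
  have rel : ∀ (ℓ : (κ → F) →ₗ[F] F) (v : κ → F) (S : Finset (κ → F)), v ≠ 0 → (∀ s ∈ S, s ≠ 0) →
      v ∈ Submodule.span F (S : Set (κ → F)) → (∀ s ∈ S, ℓ (T s) = 0) → ℓ (T v) = 0 := by
    intro ℓ v S hv hS hvS hℓ
    have h1 : Submodule.span F (T '' (S : Set (κ → F))) ≤ LinearMap.ker ℓ := by
      rw [Submodule.span_le]
      rintro _ ⟨s, hs, rfl⟩
      exact hℓ s hs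
    exact h1 ((hspan v S hv hS).1 hvS)
  have hsupp : ∀ (v : κ → F) (i : κ), v ≠ 0 → (crd i (T v) = 0 ↔ v i = 0) := by
    intro v i hv
    constructor
    · intro h
      rw [hmem, hspan v _ hv (hes i), hTimg]
      rw [show T v = ∑ j, crd j (T v) • B j from (B.sum_repr (T v)).symm]
      refine Submodule.sum_mem _ fun j _ => ?_
      by_cases hj : j = i
      · rw [hj, h, zero_smul]; exact Submodule.zero_mem _
      · exact Submodule.smul_mem _ _ (Submodule.subset_span ⟨j, by simpa using hj, (hB j).symm⟩)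
    · intro h
      refine rel _ v _ hv (hes i) ((hmem v i).1 h) fun s hs => ?_
      obtain ⟨j, hj, rfl⟩ := Finset.mem_image.1 hs
      rw [hcrd, if_neg (Finset.ne_of_mem_erase hj)]
  obtain ⟨o⟩ := ‹Nonempty κ›
  let fn : κ → F → F := fun i a => crd i (T (e o + a • e i)) / crd o (T (e o + a • e i))
  have hne1 : ∀ (i : κ) (a : F), i ≠ o → e o + a • e i ≠ 0 := fun i a hi h => by
    have h1 := congrFun h o
    simp [e, Pi.smul_apply, Pi.single_apply, Ne.symm hi] at h1
  have hfn0 : ∀ i, i ≠ o → fn i 0 = 0 := fun i hi => by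
    simp [fn, hcrd, Ne.symm hi]
  have hfnne : ∀ i a, i ≠ o → a ≠ 0 → fn i a ≠ 0 := fun i a hi ha => by
    refine div_ne_zero ?_ ?_
    · rw [Ne, hsupp _ _ (hne1 i a hi)]; simp [e, hi, ha]
    · rw [Ne, hsupp _ _ (hne1 i a hi)]; simp [e, Ne.symm hi]
  -- vectors off the hyperplane at `o`
  have lemA : ∀ (v : κ → F) (i : κ), v o = 1 → i ≠ o → crd i (T v) = fn i (v i) * crd o (T v) := by
    intro v i hv hi
    have hv0 : v ≠ 0 := fun h => by simp [h] at hv
    have := rel (crd i - fn i (v i) • crd o) v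
      (insert (e o + v i • e i) (((Finset.univ.erase o).erase i).image e)) hv0 ?_ ?_ ?_
    · simpa [sub_eq_zero] using this
    · intro s hs
      rcases Finset.mem_insert.1 hs with rfl | hs
      · exact hne1 i _ hi
      · obtain ⟨j, -, rfl⟩ := Finset.mem_image.1 hs; exact he j
    · rw [Finset.coe_insert]
      rw [SetLike.mem_coe.symm]
      set W := Submodule.span F (insert (e o + v i • e i)
        (((Finset.univ.erase o).erase i).image e : Set (κ → F))) with hW
      have h2 : v - (e o + v i • e i) ∈ W := by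
        rw [show v - (e o + v i • e i) = ∑ j, (v - (e o + v i • e i)) j • e j from pi_eq_sum_univ' _]
        refine Submodule.sum_mem _ fun j _ => ?_
        by_cases hjo : j = o
        · subst hjo; simp [e, hv, Ne.symm hi]
        by_cases hji : j = i
        · subst hji; simp [e, hjo]
        exact Submodule.smul_mem _ _ (Submodule.subset_span (Set.mem_insert_of_mem _ (by simpa using ⟨j, ⟨hjo, hji⟩, rfl⟩)))
      have h3 := W.add_mem (Submodule.subset_span (Set.mem_insert _ _)) h2
      rw [add_sub_cancel] at h3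
      exact h3
    · intro s hs
      rcases Finset.mem_insert.1 hs with rfl | hs
      · have hne0 : crd o (T (e o + v i • e i)) ≠ 0 := by
          rw [Ne, hsupp _ _ (hne1 i _ hi)]; simp [e, Ne.symm hi]
        simp [fn, hne0]
      · obtain ⟨j, hj, rfl⟩ := Finset.mem_image.1 hs
        simp only [Finset.mem_erase, Finset.mem_univ, and_true] at hj
        simp [hcrd, hj.1, hj.2]
  -- vectors on the hyperplane at `o`
  have lemB : ∀ (v : κ → F) (i k : κ), v ≠ 0 → v o = 0 → i ≠ o → k ≠ o →
      fn k (v k) * crd i (T v) = fn i (v i) * crd k (T v) := by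
    intro v i k hv0 hv hi hk
    have hu : (e o + v) o = 1 := by simp [e, hv]
    have hu0 : e o + v ≠ 0 := fun h => by rw [h] at hu; exact zero_ne_one hu
    have := rel (fn k (v k) • crd i - fn i (v i) • crd k) v {e o + v, e o} hv0 ?_ ?_ ?_
    · simpa [sub_eq_zero] using this
    · intro s hs
      simp only [Finset.mem_insert, Finset.mem_singleton] at hs
      rcases hs with rfl | rfl
      · exact hu0
      · exact he o
    · rw [Finset.coe_insert, Finset.coe_singleton]
      exact Submodule.mem_span_pair.2 ⟨1, -1, by simp⟩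
    · intro s hs
      simp only [Finset.mem_insert, Finset.mem_singleton] at hs
      rcases hs with rfl | rfl
      · have h1 := lemA _ i hu hi
        have h2 := lemA _ k hu hk
        simp [e, hi, hk] at h1 h2 ⊢
        rw [h1, h2]; ring
      · simp [hcrd, Ne.symm hi, Ne.symm hk]
  -- multiplicativity
  have hmul : ∀ i k, i ≠ o → k ≠ o → i ≠ k → ∀ c a : F, c ≠ 0 →
      fn k (c * a) * fn i 1 = fn i c * fn k a := by
    intro i k hi hk hik c a hc
    set u := e i + a • e k with hu
    have hu0 : u ≠ 0 := fun h => by simpa [hu, e, hik] using congrFun h i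
    have huo : u o = 0 := by simp [hu, e, Ne.symm hi, Ne.symm hk]
    have hv0 : c • u ≠ 0 := smul_ne_zero hc hu0
    have hui : u i = 1 := by simp [hu, e, hik]
    have huk : u k = a := by simp [hu, e, Ne.symm hik]
    have h1 := lemB u i k hu0 huo hi hk
    rw [hui, huk] at h1
    have h2 := lemB (c • u) i k hv0 (by simp [huo]) hi hk
    rw [Pi.smul_apply, Pi.smul_apply, hui, huk, smul_eq_mul, smul_eq_mul, mul_one] at h2
    obtain ⟨s, hs⟩ : ∃ s : F, T (c • u) = s • T u := by
      have h3 : T (c • u) ∈ Submodule.span F (T '' ((({u} : Finset (κ → F))) : Set (κ → F))) :=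
        (hspan _ _ hv0 (by simpa using hu0)).1 (by
          rw [Finset.coe_singleton]; exact Submodule.mem_span_singleton.2 ⟨c, rfl⟩)
      rw [Finset.coe_singleton, Set.image_singleton] at h3
      obtain ⟨s, hs⟩ := Submodule.mem_span_singleton.1 h3
      exact ⟨s, hs.symm⟩
    have hs0 : s ≠ 0 := fun h => hne _ hv0 (by rw [hs, h, zero_smul])
    rw [hs, map_smul, map_smul, smul_eq_mul, smul_eq_mul] at h2
    have hci : crd i (T u) ≠ 0 := by rw [Ne, hsupp u i hu0, hui]; exact one_ne_zero
    apply mul_right_cancel₀ (mul_ne_zero hs0 hci)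
    linear_combination fn i 1 * h2 - fn i c * s * h1
  have hd : ∀ i, i ≠ o → fn i 1 ≠ 0 := fun i hi => hfnne i 1 hi one_ne_zero
  have hsame : ∀ i k, i ≠ o → k ≠ o → ∀ a, fn k a * fn i 1 = fn i a * fn k 1 := by
    intro i k hi hk a
    by_cases hik : i = k
    · subst hik; rfl
    rcases eq_or_ne a 0 with rfl | ha
    · simp [hfn0 _ hi, hfn0 _ hk]
    · have := hmul i k hi hk hik a 1 ha
      rwa [mul_one] at this
  obtain ⟨i₁, k₁, hi₁, hk₁, hik₁⟩ : ∃ i k : κ, i ≠ o ∧ k ≠ o ∧ i ≠ k := by
    have : 1 < (Finset.univ.erase o).card := by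
      rw [Finset.card_erase_of_mem (Finset.mem_univ o), Finset.card_univ]; omega
    obtain ⟨i, hi, k, hk, hik⟩ := Finset.one_lt_card.1 this
    exact ⟨i, k, Finset.ne_of_mem_erase hi, Finset.ne_of_mem_erase hk, hik⟩
  let s₀ : F → F := fun a => fn i₁ a / fn i₁ 1
  have hs₀ : ∀ i, i ≠ o → ∀ a, fn i a = fn i 1 * s₀ a := by
    intro i hi a
    have := hsame i₁ i hi₁ hi a
    simp only [s₀]
    field_simp [hd i₁ hi₁]
    linear_combination this
  have hs1 : s₀ 1 = 1 := div_self (hd i₁ hi₁)
  have hs0 : s₀ 0 = 0 := by simp [s₀, hfn0 _ hi₁]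
  have hsmul : ∀ a b, s₀ (a * b) = s₀ a * s₀ b := by
    intro a b
    rcases eq_or_ne a 0 with rfl | ha
    · simp [hs0]
    have h := hmul i₁ k₁ hi₁ hk₁ hik₁ a b ha
    rw [hs₀ k₁ hk₁ (a * b), hs₀ i₁ hi₁ a, hs₀ k₁ hk₁ b] at h
    exact mul_left_cancel₀ (mul_ne_zero (hd k₁ hk₁) (hd i₁ hi₁)) (by linear_combination h)
  have hsadd : ∀ a b, s₀ (a + b) = s₀ a + s₀ b := by
    intro a b
    set u1 := e o + a • e i₁ with hu1
    set u2 := b • e i₁ + e k₁ with hu2
    set v := u1 + u2 with hv
    have h20 : u2 ≠ 0 := fun h => by simpa [hu2, e, Ne.symm hik₁] using congrFun h k₁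
    have hvo : v o = 1 := by simp [hv, hu1, hu2, e, Ne.symm hi₁, Ne.symm hk₁]
    have hv0 : v ≠ 0 := fun h => by simp [h] at hvo
    have hvi : v i₁ = a + b := by simp [hv, hu1, hu2, e, hi₁, hik₁]
    have hvk : v k₁ = 1 := by simp [hv, hu1, hu2, e, hk₁, Ne.symm hik₁]
    obtain ⟨x, y, hxy⟩ : ∃ x y : F, x • T u1 + y • T u2 = T v := by
      have h3 : T v ∈ Submodule.span F (T '' (({u1, u2} : Finset (κ → F)) : Set (κ → F))) :=
        (hspan _ _ hv0 (by
          intro s hs
          simp only [Finset.mem_insert, Finset.mem_singleton] at hs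
          rcases hs with rfl | rfl
          · exact hne1 i₁ a hi₁
          · exact h20)).1 (by
          rw [Finset.coe_insert, Finset.coe_singleton]
          exact Submodule.mem_span_pair.2 ⟨1, 1, by rw [hv, one_smul, one_smul]⟩)
      rw [Finset.coe_insert, Finset.coe_singleton, Set.image_pair] at h3
      exact Submodule.mem_span_pair.1 h3
    have e0 := congrArg (crd o) hxy
    have ei := congrArg (crd i₁) hxy
    have ek := congrArg (crd k₁) hxy
    simp only [map_add, map_smul, smul_eq_mul] at e0 ei ek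
    have u1o : u1 o = 1 := by simp [hu1, e, Ne.symm hi₁]
    have a1 : crd i₁ (T u1) = fn i₁ a * crd o (T u1) := by
      have := lemA u1 i₁ u1o hi₁
      rwa [show u1 i₁ = a by simp [hu1, e, hi₁]] at this
    have a2 : crd k₁ (T u1) = 0 := by
      rw [hsupp _ _ (hne1 i₁ a hi₁)]; simp [e, hk₁, Ne.symm hik₁]
    have b0 : crd o (T u2) = 0 := by
      rw [hsupp _ _ h20]; simp [hu2, e, Ne.symm hi₁, Ne.symm hk₁]
    have b1 := lemB u2 i₁ k₁ h20 (by simp [hu2, e, Ne.symm hi₁, Ne.symm hk₁]) hi₁ hk₁
    rw [show u2 k₁ = 1 by simp [hu2, e, Ne.symm hik₁], show u2 i₁ = b by simp [hu2, e, hik₁]] at b1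
    have c1 := lemA v i₁ hvo hi₁
    have c2 := lemA v k₁ hvo hk₁
    rw [hvi] at c1
    rw [hvk] at c2
    have hcv : crd o (T v) ≠ 0 := by rw [Ne, hsupp v o hv0, hvo]; exact one_ne_zero
    rw [b0, mul_zero, add_zero] at e0
    rw [a1] at ei
    rw [a2, mul_zero, zero_add] at ek
    have key : fn i₁ (a + b) = fn i₁ a + fn i₁ b := by
      apply mul_right_cancel₀ (mul_ne_zero hcv (hd k₁ hk₁))
      linear_combination -fn k₁ 1 * c1 - fn k₁ 1 * ei + fn i₁ a * fn k₁ 1 * e0 + y * b1 +
        fn i₁ b * (ek + c2)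
    simp only [s₀]
    rw [key, add_div]
  let σ0 : F →+* F :=
    { toFun := s₀, map_one' := hs1, map_mul' := hsmul, map_zero' := hs0, map_add' := hsadd }
  let σ : F ≃+* F := RingEquiv.ofBijective σ0 ⟨σ0.injective, Finite.surjective_of_injective σ0.injective⟩
  have hσ : ∀ a, σ a = s₀ a := fun a => rfl
  let d : κ → F := fun i => if i = o then 1 else fn i 1
  let G : Matrix κ κ F := Matrix.of fun r i => d i * T (e i) r
  have hGv : ∀ w : κ → F, G *ᵥ w = ∑ i, (w i * d i) • T (e i) := fun w => by
    funext r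
    simp only [G, Matrix.mulVec, dotProduct, Matrix.of_apply, Finset.sum_apply, Pi.smul_apply, smul_eq_mul]
    exact Finset.sum_congr rfl fun i _ => by ring
  have hd0 : ∀ i, d i ≠ 0 := fun i => by
    simp only [d]; split
    · exact one_ne_zero
    · exact hd i ‹_›
  have hGu : IsUnit G := by
    refine Matrix.mulVec_injective_iff_isUnit.1 fun w w' h => ?_
    rw [hGv, hGv] at h
    funext i
    have := congrArg (crd i) h
    simp only [map_sum, map_smul, hcrd, smul_eq_mul, mul_ite, mul_one, mul_zero, Finset.sum_ite_eq',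
      Finset.mem_univ, if_true] at this
    exact mul_right_cancel₀ (hd0 i) this
  refine ⟨hGu.unit, σ, fun v hv => ?_⟩
  -- it is enough to compare coordinates
  suffices h : ∃ c : F, ∀ i, crd i (T v) = c * (σ (v i) * d i) by
    obtain ⟨c, hc⟩ := h
    have hT : T v = c • (G *ᵥ (σ ∘ v)) := by
      rw [hGv, Finset.smul_sum]
      conv_lhs => rw [show T v = ∑ i, crd i (T v) • B i from (B.sum_repr (T v)).symm]
      exact Finset.sum_congr rfl fun i _ => by rw [hB, smul_smul, hc, Function.comp_apply]
    refine ⟨c, fun h0 => hne v hv (by rw [hT, h0, zero_smul]), hT⟩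
  by_cases hvo : v o = 0
  · obtain ⟨k, hk⟩ := Function.ne_iff.1 hv
    have hko : k ≠ o := fun h => hk (by rw [h, hvo]; rfl)
    have hσk : σ (v k) ≠ 0 := by simpa using hk
    refine ⟨crd k (T v) / (σ (v k) * d k), fun i => ?_⟩
    by_cases hio : i = o
    · subst hio
      rw [(hsupp v i hv).2 hvo, hvo, map_zero, zero_mul, mul_zero]
    · have h := lemB v i k hv hvo hio hko
      rw [hs₀ k hko, hs₀ i hio, ← hσ, ← hσ] at h
      simp only [d, if_neg hio, if_neg hko]
      field_simp [hd k hko, hσk]
      linear_combination h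
  · set u := (v o)⁻¹ • v with hu
    have huo : u o = 1 := by simp [hu, hvo]
    have hu0 : u ≠ 0 := fun h => by simp [h] at huo
    obtain ⟨s, hs⟩ : ∃ s : F, T v = s • T u := by
      have h3 : T v ∈ Submodule.span F (T '' ((({u} : Finset (κ → F))) : Set (κ → F))) :=
        (hspan _ _ hv (by simpa using hu0)).1 (by
          rw [Finset.coe_singleton]
          exact Submodule.mem_span_singleton.2 ⟨v o, by rw [hu, smul_inv_smul₀ hvo]⟩)
      rw [Finset.coe_singleton, Set.image_singleton] at h3
      obtain ⟨s, hs⟩ := Submodule.mem_span_singleton.1 h3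
      exact ⟨s, hs.symm⟩
    refine ⟨s * crd o (T u) / σ (v o), fun i => ?_⟩
    have hσo : σ (v o) ≠ 0 := by simpa using hvo
    rw [hs, map_smul, smul_eq_mul]
    by_cases hio : i = o
    · subst hio
      simp only [d, if_true, mul_one]
      field_simp
    · rw [lemA u i huo hio, hs₀ i hio, ← hσ, show u i = (v o)⁻¹ * v i from rfl, map_mul, map_inv₀]
      simp only [d, if_neg hio]
      field_simp

end CfsgLib.ReflectionsSpinor
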