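import Cfsg.Agent.Lib.ReflectionsSpinor.PSpAutSylow
import Cfsg.Agent.Lib.ReflectionsSpinor.ProjGeom
import Cfsg.Agent.Lib.Geometric.LinearSp

/-!
# The automorphisms of `PSp_{2m}(F)` for a finite field `F`

Outside the exceptional case `(2m, p) = (4, 2)` every automorphism is semilinear.
-/

set_option autoImplicit false
set_option linter.unusedSectionVars false

open Matrix
open CfsgLib.ClassicalLinear

namespace CfsgLib.ReflectionsSpinor.PSpAut

universe u

variable {m : ℕ} {F : Type u} [Field F] [Fintype F]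

local notation "V" => (Fin m ⊕ Fin m → F)
local notation "Mm" => Matrix (Fin m) (Fin m) F
local notation "M2" => Matrix (Fin m ⊕ Fin m) (Fin m ⊕ Fin m) F
local notation "Sp" => Matrix.symplecticGroup (Fin m) F
local notation "ω" => Cfsg.sympForm m F
local notation "PS" => Cfsg.PSp m F

theorem T_conj_isTr {x : PS} (hx : IsTr x) (y : PS) : IsTr (y * x * y⁻¹) := by
  obtain ⟨w, a, hw, ha, rfl⟩ := hx
  obtain ⟨g, rfl⟩ := cl_surjective y
  exact ⟨g • w, a, fun h => hw (by simpa using congrArg (g⁻¹ • ·) h), ha, conj_T g w a⟩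

theorem T_ne_one (hm : 2 ≤ m) {w : V} {a : F} (hw : w ≠ 0) (ha : a ≠ 0) : T w a ≠ 1 := by
  intro h
  have h1 : T w a = T w 0 := by
    rw [h]
    show _ = cl (spT w (0 : F))
    rw [spT_zero]
    rfl
  obtain ⟨v, hv⟩ := exists_omega_one hw
  have h2 := congrArg (fun s : Sp => s • v) (spT_eq_of_cl_eq hm h1)
  simp only [spT_smul, add_right_inj, hv, mul_one, zero_smul] at h2
  exact smul_ne_zero ha hw h2

/-- The class of a transvection is small. -/
theorem card_class_le (hm : 2 ≤ m) {w : V} {a : F} (hw : w ≠ 0) :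
    Nat.card {y : PS // IsConj (T w a) y} ≤ Nat.card F ^ (2 * m) - 1 := by
  classical
  have hcard : Nat.card {v : V // v ≠ 0} = Nat.card F ^ (2 * m) - 1 := by
    rw [Nat.card_eq_fintype_card, Fintype.card_subtype_compl, Fintype.card_subtype_eq, Fintype.card_fun,
      Fintype.card_sum, Fintype.card_fin, Nat.card_eq_fintype_card, two_mul]
  rw [← hcard]
  refine Nat.card_le_card_of_surjective (fun v => ⟨T v.1 a, ?_⟩) ?_
  · obtain ⟨g, hg⟩ := exists_sp_smul_eq hw v.2
    exact isConj_iff.2 ⟨cl g, by rw [conj_T, hg]⟩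
  · rintro ⟨y, hy⟩
    obtain ⟨c, hc⟩ := isConj_iff.1 hy
    obtain ⟨g, rfl⟩ := cl_surjective c
    exact ⟨⟨g • w, fun h => hw (by simpa using congrArg (g⁻¹ • ·) h)⟩, Subtype.ext ((conj_T g w a).symm.trans hc)⟩

theorem card_perp {u : V} (hu : u ≠ 0) :
    Nat.card {v : V // ω u v = 0} * Nat.card F = Nat.card F ^ (2 * m) := by
  let l : V →ₗ[F] F := CfsgLib.Omega.sympBilin m F u
  have hl : Function.Surjective l := by
    obtain ⟨v, hv⟩ := exists_sympForm_eq_one hu
    intro c
    exact ⟨c • v, by rw [map_smul]; show c • CfsgLib.Omega.sympBilin m F u v = c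
                     rw [CfsgLib.Omega.sympBilin_apply, hv, smul_eq_mul, mul_one]⟩
  have h := Submodule.card_eq_card_quotient_mul_card (LinearMap.ker l)
  rw [Nat.card_congr (l.quotKerEquivOfSurjective hl).toEquiv, Nat.card_fun] at h
  have e : Nat.card {v : V // ω u v = 0} = Nat.card (LinearMap.ker l) :=
    Nat.card_congr (Equiv.subtypeEquivRight fun v => by
      rw [LinearMap.mem_ker]; show _ ↔ CfsgLib.Omega.sympBilin m F u v = 0
      rw [CfsgLib.Omega.sympBilin_apply])
  rw [e, show (2 * m) = Nat.card (Fin m ⊕ Fin m) by simp [two_mul], h, mul_comm]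

/-- The class of an element with two-dimensional totally isotropic image is large. -/
theorem class_large (hm : 3 ≤ m) (h2 : (2 : F) = 0) {s : Sp} {w₀ w₁ : V}
    (hind : LinearIndependent F ![w₀, w₁]) (horth : ω w₀ w₁ = 0)
    (hR : ∀ x, s • x - x ∈ Submodule.span F ({w₀, w₁} : Set V))
    (h0 : ∃ x, s • x - x = w₀) (h1 : ∃ x, s • x - x = w₁) :
    Nat.card F ^ (2 * m) - 1 < Nat.card {y : PS // IsConj (cl s) y} := by
  classical
  set q := Nat.card F with hq
  set C := {y : PS // IsConj (cl s) y} with hC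
  let R : C → Set V := fun y => {v | ∃ t : Sp, cl t = y.1 ∧ ∃ x, t • x - x = v}
  have hlift : ∀ t t' : Sp, cl t = cl t' → t = t' := by
    intro t t' h
    rcases (cl_eq_cl_iff (by omega)).1 h with h' | h'
    · exact (Subtype.ext h').symm
    · refine (Subtype.ext ?_).symm
      rw [h']
      ext i j
      show -((t : M2) i j) = (t : M2) i j
      linear_combination -((t : M2) i j) * h2
  have hRcard : ∀ y : C, Nat.card (R y) ≤ q ^ 2 := by
    rintro ⟨y, hy⟩
    obtain ⟨c, hc⟩ := isConj_iff.1 hy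
    obtain ⟨g, rfl⟩ := cl_surjective c
    rw [← cl_inv, ← cl_mul, ← cl_mul] at hc
    have hsub : R ⟨y, hy⟩ ⊆ Set.range fun c : F × F => c.1 • (g • w₀) + c.2 • (g • w₁) := by
      rintro v ⟨t, ht, x, rfl⟩
      obtain rfl := hlift t (g * s * g⁻¹) (ht.trans hc.symm)
      obtain ⟨a, b, hab⟩ := Submodule.mem_span_pair.1 (hR (g⁻¹ • x))
      refine ⟨(a, b), ?_⟩
      show a • (g • w₀) + b • (g • w₁) = _
      rw [smul_comm a g w₀, smul_comm b g w₁, ← smul_add, hab, smul_sub, smul_smul, smul_smul g g⁻¹,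
        mul_inv_cancel, one_smul, ← mul_smul, mul_assoc]
    refine (Nat.card_mono (Set.toFinite _) hsub).trans ((Finite.card_range_le _).trans (le_of_eq ?_))
    rw [Nat.card_prod, sq]
  let P := Σ u : {u : V // u ≠ 0}, {v : V // ω u.1 v = 0 ∧ v ∉ Submodule.span F ({u.1} : Set V)}
  have hP : (q ^ (2 * m) - 1) * (q ^ (2 * m - 1) - q) ≤ Nat.card P := by
    rw [Nat.card_sigma]
    have hfib : ∀ u : {u : V // u ≠ 0}, q ^ (2 * m - 1) - q ≤
        Nat.card {v : V // ω u.1 v = 0 ∧ v ∉ Submodule.span F ({u.1} : Set V)} := by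
      intro u
      have hk : Nat.card {v : V // ω u.1 v = 0} = q ^ (2 * m - 1) := by
        have := card_perp u.2
        refine Nat.eq_of_mul_eq_mul_right (Nat.card_pos (α := F)) (this.trans ?_)
        rw [← hq, ← pow_succ]; congr 1; omega
      have hspan : Nat.card {v : V // v ∈ Submodule.span F ({u.1} : Set V)} = q :=
        (Nat.card_congr (LinearEquiv.toSpanNonzeroSingleton F V u.1 u.2).toEquiv).symm
      rw [Nat.card_eq_fintype_card, Fintype.card_subtype] at hk hspan ⊢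
      rw [← hk, ← hspan]
      refine le_trans (Finset.le_card_sdiff _ _) (le_of_eq (congrArg _ ?_))
      ext v
      simp
    refine le_trans (le_of_eq ?_) (Finset.sum_le_sum fun u _ => hfib u)
    rw [Finset.sum_const, smul_eq_mul, Finset.card_univ, Fintype.card_subtype_compl, Fintype.card_subtype_eq,
      Fintype.card_fun, Fintype.card_sum, Fintype.card_fin, hq, Nat.card_eq_fintype_card, two_mul]
  have hinj : Nat.card P ≤ Nat.card (Σ y : C, R y × R y) := by
    have hex : ∀ z : P, ∃ g : Sp, g • w₀ = z.1.1 ∧ g • w₁ = z.2.1 := by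
      intro z
      refine exists_sp_map_indep w₀ w₁ z.1.1 z.2.1 hind ?_ (horth.trans z.2.2.1.symm)
      rw [LinearIndependent.pair_iff' z.1.2]
      intro c hc
      exact z.2.2.2 (Submodule.mem_span_singleton.2 ⟨c, hc⟩)
    choose g hg0 hg1 using hex
    have key : ∀ z : P, ∀ w : V, (∃ x, s • x - x = w) →
        g z • w ∈ R ⟨cl (g z * s * (g z)⁻¹), isConj_iff.2 ⟨cl (g z), by rw [← cl_inv, ← cl_mul, ← cl_mul]⟩⟩ := by
      rintro z w ⟨x, rfl⟩
      exact ⟨_, rfl, g z • x, by rw [smul_sub, ← mul_smul, ← mul_smul, inv_mul_cancel_right]⟩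
    let f : P → (Σ y : C, R y × R y) := fun z => ⟨_, ⟨⟨_, key z w₀ h0⟩, ⟨_, key z w₁ h1⟩⟩⟩
    refine Nat.card_le_card_of_injective f fun z z' h => ?_
    have e0 : g z • w₀ = g z' • w₀ := congrArg (fun o : Σ y : C, R y × R y => (o.2.1 : V)) h
    have e1 : g z • w₁ = g z' • w₁ := congrArg (fun o : Σ y : C, R y × R y => (o.2.2 : V)) h
    rw [hg0, hg0] at e0
    rw [hg1, hg1] at e1
    obtain ⟨u, v⟩ := z
    obtain ⟨u', v'⟩ := z'
    obtain rfl : u = u' := Subtype.ext e0
    obtain rfl : v = v' := Subtype.ext e1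
    rfl
  have hsum : Nat.card (Σ y : C, R y × R y) ≤ Nat.card C * q ^ 4 := by
    rw [Nat.card_sigma, Nat.card_eq_fintype_card (α := C)]
    refine le_trans (Finset.sum_le_sum fun y _ => ?_) (le_of_eq (by rw [Finset.sum_const, smul_eq_mul, Finset.card_univ]))
    rw [Nat.card_prod, show q ^ 4 = q ^ 2 * q ^ 2 by ring]
    exact Nat.mul_le_mul (hRcard y) (hRcard y)
  by_contra hle
  push Not at hle
  have hbig := (hP.trans hinj).trans hsum
  have hQ : 0 < q ^ (2 * m) - 1 := by
    have hq2 : 2 ≤ q := Finite.one_lt_card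
    have : 2 ≤ q ^ (2 * m) := hq2.trans (Nat.le_self_pow (by omega) _)
    omega
  have h6 : q ^ (2 * m - 1) - q ≤ q ^ 4 :=
    Nat.le_of_mul_le_mul_left (hbig.trans (Nat.mul_le_mul_right _ hle)) hQ
  have hq2 : 2 ≤ q := Finite.one_lt_card
  have h5 : q ^ 5 ≤ q ^ (2 * m - 1) := Nat.pow_le_pow_right (by omega) (by omega)
  have h7 : 2 * q ^ 4 ≤ q ^ 5 := by rw [pow_succ' q 4]; exact Nat.mul_le_mul_right _ hq2
  have h8 : q < q ^ 4 := by
    calc q = q ^ 1 := (pow_one q).symm
      _ < q ^ 4 := Nat.pow_lt_pow_right (by omega) (by omega)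
  omega

/-- Every automorphism maps transvection classes to transvection classes. -/
theorem isTr_image (hm : 2 ≤ m) (h4 : m = 2 → (2 : F) ≠ 0) (φ : MulAut PS) {x : PS} (hx : IsTr x) :
    IsTr (φ x) := by
  let i₀ : Fin m := ⟨0, by omega⟩
  let i₁ : Fin m := ⟨1, by omega⟩
  set w₀ : V := Pi.single (.inl i₀) 1 with hw₀def
  have hw₀ : w₀ ≠ 0 := Pi.single_ne_zero_iff.2 one_ne_zero
  obtain ⟨w, a, hw, ha, rfl⟩ := hx
  obtain ⟨g, hg⟩ := exists_sp_smul_eq hw₀ hw
  rw [← hg, ← conj_T, map_mul, map_mul, map_inv]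
  refine T_conj_isTr ?_ _
  obtain ⟨p, hp⟩ := CharP.exists F
  haveI : Fact p.Prime := ⟨CharP.char_is_prime F p⟩
  obtain ⟨P, hP⟩ := exists_sylow_image (m := m) (F := F) p
  obtain ⟨y, hy⟩ := MulAction.exists_smul_eq PS P (φ • P)
  have hset : (MulAut.conj y) '' (P : Set PS) = φ '' (P : Set PS) :=
    congrArg (fun Q : Sylow p PS => (Q : Set PS)) hy
  have hfix : ∀ u ∈ uniU m F, u • w₀ = w₀ := by
    intro u hu
    obtain ⟨h21, hu1⟩ := mem_uniU.1 hu
    funext i
    rw [sp_smul_eq, hw₀def, Matrix.mulVec_single_one, Matrix.col_apply, Pi.single_apply]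
    rcases i with i | i
    · have h := hu1 i i₀ (Fin.le_def.2 (by simp [i₀]))
      simpa [Matrix.toBlocks₁₁] using h
    · have h := congrFun (congrFun h21 i) i₀
      simpa [Matrix.toBlocks₂₁] using h
  have hx0P : T w₀ a ∈ (P : Set PS) := by
    rw [hP]
    refine ⟨spT w₀ a, ?_, rfl⟩
    have hM : (spT w₀ a : M2) = Matrix.fromBlocks 1 (Matrix.single i₀ i₀ a) 0 1 := by
      refine Matrix.ext_of_mulVec_single fun j => ?_
      rw [← sp_smul_eq, spT_smul, hw₀def, Omega.sympForm_eq_sum, Matrix.fromBlocks_mulVec]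
      funext i
      rcases i with i | i <;> rcases j with j | j <;>
        simp [Pi.single_apply, Matrix.single_apply, Matrix.mulVec, dotProduct, Matrix.one_apply, eq_comm] <;>
        split_ifs <;> simp_all
    show spT w₀ a ∈ uniU m F
    rw [mem_uniU, hM, Matrix.toBlocks_fromBlocks₂₁, Matrix.toBlocks_fromBlocks₁₁]
    exact ⟨rfl, isUni_one⟩
  have hx0c : ∀ z ∈ (P : Set PS), T w₀ a * z = z * T w₀ a := by
    rw [hP]
    rintro _ ⟨u, hu, rfl⟩
    exact ((commute_T_iff hm hw₀ ha u).2 (Or.inl (hfix u hu))).symm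
  set z := y⁻¹ * φ (T w₀ a) * y with hz
  have hzconj : φ (T w₀ a) = y * z * y⁻¹ := by rw [hz]; group
  rw [hzconj]
  refine T_conj_isTr ?_ _
  have hzP : z ∈ (P : Set PS) := by
    obtain ⟨c, hc, he⟩ := hset ▸ Set.mem_image_of_mem φ hx0P
    rw [hz, ← he, MulAut.conj_apply]
    simpa [mul_assoc] using hc
  have hzc : ∀ c ∈ (P : Set PS), z * c = c * z := by
    intro c hc
    obtain ⟨b, hb, he⟩ := hset ▸ Set.mem_image_of_mem (MulAut.conj y) hc
    have h1 := congrArg φ (hx0c b hb)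
    rw [map_mul, map_mul, he, MulAut.conj_apply] at h1
    calc z * c = y⁻¹ * (φ (T w₀ a) * (y * c * y⁻¹)) * y := by rw [hz]; group
      _ = y⁻¹ * (y * c * y⁻¹ * φ (T w₀ a)) * y := by rw [h1]
      _ = c * z := by rw [hz]; group
  rw [hP] at hzP hzc
  obtain ⟨s, hs, hsz⟩ := hzP
  have hscomm : ∀ u ∈ uniU m F, s * u = u * s := by
    intro u hu
    have h1 := hzc (cl u) ⟨u, hu, rfl⟩
    rw [← hsz, ← cl_mul, ← cl_mul] at h1
    rcases (cl_eq_cl_iff (by omega)).1 h1 with h | h
    · exact (Subtype.ext h).symm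
    · have e1 := (mem_uniU.1 ((uniU m F).mul_mem hu hs)).2 i₀ i₀ le_rfl
      have e2 := (mem_uniU.1 ((uniU m F).mul_mem hs hu)).2 i₀ i₀ le_rfl
      simp only [Matrix.toBlocks₁₁, Matrix.of_apply, if_true] at e1 e2
      rw [h, Matrix.neg_apply, e2] at e1
      have h2 : (2 : F) = 0 := by linear_combination -e1
      refine (Subtype.ext ?_).symm
      rw [h]
      ext i j
      show -((s * u : Sp) : M2) i j = ((s * u : Sp) : M2) i j
      linear_combination -((s * u : Sp) : M2) i j * h2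
  obtain ⟨B, hB, hsM, hB0, hB2⟩ := centre_shape hm hs hscomm
  change (2 : F) * B i₀ i₁ = 0 at hB2
  rw [← hsz]
  have hsx : ∀ x : V, s • x - x = Sum.elim (B *ᵥ (x ∘ Sum.inr)) 0 := by
    intro x
    rw [sp_smul_eq, hsM, Matrix.fromBlocks_mulVec]
    funext i
    rcases i with i | i <;> simp
  have hB' : ∀ (v : Fin m → F) (i : Fin m), (B *ᵥ v) i =
      if i = i₀ then B i₀ i₀ * v i₀ + B i₀ i₁ * v i₁ else if i = i₁ then B i₀ i₁ * v i₀ else 0 := by
    intro v i
    have h01 : i₀ ≠ i₁ := by simp [i₀, i₁]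
    have hz0 : ∀ i j, ¬(i = i₀ ∧ j = i₀) → ¬(i = i₀ ∧ j = i₁) → ¬(i = i₁ ∧ j = i₀) → B i j = 0 := by
      intro i j a1 a2 a3
      exact hB0 i j (fun h => a1 ⟨Fin.ext h.1, Fin.ext h.2⟩) (fun h => a2 ⟨Fin.ext h.1, Fin.ext h.2⟩)
        (fun h => a3 ⟨Fin.ext h.1, Fin.ext h.2⟩)
    rw [Matrix.mulVec, dotProduct]
    by_cases hi : i = i₀
    · subst hi
      rw [if_pos rfl, Finset.sum_eq_add_of_mem i₀ i₁ (Finset.mem_univ _) (Finset.mem_univ _) h01]
      intro j _ hj
      rw [hz0 i₀ j (fun h => hj.1 h.2) (fun h => hj.2 h.2) (fun h => h01 h.1), zero_mul]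
    · rw [if_neg hi]
      by_cases hi1 : i = i₁
      · subst hi1
        rw [if_pos rfl, Finset.sum_eq_single i₀]
        · rw [show B i₁ i₀ = B i₀ i₁ from congrFun (congrFun hB i₀) i₁]
        · intro j _ hj
          rw [hz0 i₁ j (fun h => hi h.1) (fun h => hi h.1) (fun h => hj h.2), zero_mul]
        · simp
      · rw [if_neg hi1]
        exact Finset.sum_eq_zero fun j _ => by
          rw [hz0 i j (fun h => hi h.1) (fun h => hi h.1) (fun h => hi1 h.1), zero_mul]
  by_cases hβ : B i₀ i₁ = 0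
  · -- a transvection
    have hsT : s = spT w₀ (B i₀ i₀) := by
      refine sp_ext fun x => ?_
      rw [spT_smul, ← sub_eq_iff_eq_add', hsx]
      funext i
      rcases i with i | i
      · rw [Sum.elim_inl, hB', hβ, Omega.sympForm_eq_sum, hw₀def]
        simp only [zero_mul, add_zero, ite_self]
        simp [Pi.single_apply]
      · simp [hw₀def]
    refine ⟨w₀, B i₀ i₀, hw₀, fun h0 => ?_, by rw [hsT]⟩
    have h1 : z = 1 := by rw [← hsz, hsT, h0, spT_zero]; rfl
    have h2 : φ (T w₀ a) = 1 := by rw [hzconj, h1]; group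
    exact T_ne_one hm hw₀ ha (φ.injective (h2.trans (map_one φ).symm))
  · -- the class would be too large
    exfalso
    have h2 : (2 : F) = 0 := (mul_eq_zero.1 hB2).resolve_right hβ
    have hm3 : 3 ≤ m := by
      rcases Nat.eq_or_lt_of_le hm with h | h
      · exact absurd h2 (h4 h.symm)
      · omega
    set w₁ : V := Pi.single (.inl i₁) 1 with hw₁def
    have h01 : i₀ ≠ i₁ := by simp [i₀, i₁]
    have hlarge := class_large hm3 h2 (s := s) (w₀ := w₀) (w₁ := w₁) ?_ ?_ ?_ ?_ ?_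
    · have hcl : Nat.card {c : PS // IsConj (cl s) c} = Nat.card {c : PS // IsConj (T w₀ a) c} := by
        refine (Nat.card_congr (φ.toEquiv.subtypeEquiv fun c => ?_)).symm
        have hzs : IsConj (φ (T w₀ a)) (cl s) := isConj_iff.2 ⟨y⁻¹, by rw [hsz, hz]; group⟩
        constructor
        · intro hc
          exact hzs.symm.trans (φ.toMonoidHom.map_isConj hc)
        · intro hc
          have := φ.symm.toMonoidHom.map_isConj (hzs.trans hc)
          simpa using this
      rw [hcl] at hlarge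
      exact absurd hlarge (not_lt.2 (card_class_le hm hw₀))
    · rw [LinearIndependent.pair_iff' hw₀]
      intro c hc
      simpa [hw₀def, hw₁def, h01, h01.symm] using congrFun hc (.inl i₁)
    · simp [hw₀def, hw₁def, Omega.sympForm_eq_sum]
    · intro x
      rw [hsx]
      refine Submodule.mem_span_pair.2 ⟨(B *ᵥ (x ∘ Sum.inr)) i₀, (B *ᵥ (x ∘ Sum.inr)) i₁, funext fun i => ?_⟩
      rcases i with i | i
      · by_cases hi : i = i₀
        · subst hi; simp [hw₀def, hw₁def, h01]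
        · by_cases hi1 : i = i₁
          · subst hi1; simp [hw₀def, hw₁def, h01.symm]
          · rw [Sum.elim_inl, hB' _ i, if_neg hi, if_neg hi1]
            simp [hw₀def, hw₁def, hi, hi1]
      · simp [hw₀def, hw₁def]
    · refine ⟨Pi.single (.inr i₁) (B i₀ i₁)⁻¹, ?_⟩
      rw [hsx]
      funext i
      rcases i with i | i
      · rw [Sum.elim_inl, hB']
        by_cases hi : i = i₀
        · subst hi; simp [hw₀def, h01, hβ]
        · simp [hw₀def, hi, h01]
      · simp [hw₀def]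
    · refine ⟨Pi.single (.inr i₀) (B i₀ i₁)⁻¹ + Pi.single (.inr i₁) (-(B i₀ i₀ * (B i₀ i₁)⁻¹ * (B i₀ i₁)⁻¹)), ?_⟩
      rw [hsx]
      funext i
      rcases i with i | i
      · rw [Sum.elim_inl, hB']
        by_cases hi : i = i₀
        · subst hi
          simp [hw₁def, h01, h01.symm]
          field_simp
          ring
        · by_cases hi1 : i = i₁
          · subst hi1; simp [hw₁def, h01, h01.symm, hβ]
          · simp [hw₁def, hi, hi1]
      · simp [hw₁def]

/-- Spans are the double orthogonals. -/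
theorem mem_span_iff_orth (w : V) (S : Set V) :
    w ∈ Submodule.span F S ↔ ∀ u, (∀ s ∈ S, ω s u = 0) → ω w u = 0 := by
  constructor
  · intro hw u hu
    refine Submodule.span_induction (p := fun x _ => ω x u = 0) hu ?_
      (fun x y _ _ hx hy => by rw [sympForm_add_left, hx, hy, add_zero])
      (fun c x _ hx => by rw [sympForm_smul_left, hx, mul_zero]) hw
    rw [← zero_smul F (0 : V), sympForm_smul_left, zero_mul]
  · intro h
    by_contra hw
    obtain ⟨l, hl, hlS⟩ := Submodule.exists_dual_map_eq_bot_of_notMem hw inferInstance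
    let a : V := fun i => l (Pi.single i 1)
    have hla : ∀ x, l x = x ⬝ᵥ a := fun x => by
      conv_lhs => rw [pi_eq_sum_univ' x]
      simp [map_sum, dotProduct, a]
    let u : V := (-(Matrix.J (Fin m) F)) *ᵥ a
    have hu : ∀ x, ω x u = l x := fun x => by
      rw [hla]
      show x ⬝ᵥ Matrix.J (Fin m) F *ᵥ ((-(Matrix.J (Fin m) F)) *ᵥ a) = _
      rw [Matrix.mulVec_mulVec, Matrix.mul_neg, Matrix.J_squared, neg_neg, Matrix.one_mulVec]
    apply hl
    rw [← hu]
    refine h u fun s hs => ?_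
    rw [hu]
    have : l s ∈ (Submodule.span F S).map l := ⟨s, Submodule.subset_span hs, rfl⟩
    rwa [hlS, Submodule.mem_bot] at this

/-- Every automorphism of `PSp_{2m}(F)` is semilinear, unless `m = 2` and `F` has characteristic two. -/
theorem exists_semiAut (hm : 2 ≤ m) (h4 : m = 2 → (2 : F) ≠ 0) (φ : MulAut PS) :
    ∃ (g : ↥(Cfsg.GSp m F)) (σ : F ≃+* F), φ = semiAut g σ := by
  classical
  have hex : ∀ w : V, ∃ v : V, ∃ b : F, w ≠ 0 → v ≠ 0 ∧ b ≠ 0 ∧ φ (T w 1) = T v b := by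
    intro w
    by_cases hw : w = 0
    · exact ⟨0, 0, fun h => absurd hw h⟩
    · obtain ⟨v, b, hv, hb, he⟩ := isTr_image hm h4 φ ⟨w, 1, hw, one_ne_zero, rfl⟩
      exact ⟨v, b, fun _ => ⟨hv, hb, he⟩⟩
  choose pt al hpt using hex
  have horth : ∀ w u, w ≠ 0 → u ≠ 0 → (ω (pt w) (pt u) = 0 ↔ ω w u = 0) := by
    intro w u hw hu
    obtain ⟨a1, a2, a3⟩ := hpt w hw
    obtain ⟨b1, b2, b3⟩ := hpt u hu
    rw [← commute_T_T_iff hm a1 b1 a2 b2, ← commute_T_T_iff hm hw hu one_ne_zero one_ne_zero, ← a3, ← b3,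
      ← map_mul, ← map_mul, φ.injective.eq_iff]
  have hsurj : ∀ u, u ≠ 0 → ∃ w, w ≠ 0 ∧ u ∈ Submodule.span F ({pt w} : Set V) := by
    intro u hu
    obtain ⟨w, a, hw, ha, he⟩ := isTr_image hm h4 φ.symm ⟨u, 1, hu, one_ne_zero, rfl⟩
    obtain ⟨a1, a2, a3⟩ := hpt w hw
    refine ⟨w, hw, line_of_centralizer hm a1 hu a2 one_ne_zero fun x hx => ?_⟩
    obtain ⟨x', rfl⟩ := φ.surjective x
    rw [← a3, ← map_mul, ← map_mul, φ.injective.eq_iff] at hx
    have h2 : φ (T w a) = T u 1 := by rw [← he, MulEquiv.apply_symm_apply]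
    rw [← h2, ← map_mul, ← map_mul, φ.injective.eq_iff]
    have := (centralizer_of_line hm hw one_ne_zero ha one_ne_zero x').1 hx
    rwa [one_smul] at this
  have hspan : ∀ (w : V) (S : Finset V), w ≠ 0 → (∀ s ∈ S, s ≠ 0) →
      (w ∈ Submodule.span F (S : Set V) ↔ pt w ∈ Submodule.span F (pt '' (S : Set V))) := by
    intro w S hw hS
    rw [mem_span_iff_orth, mem_span_iff_orth]
    constructor
    · intro h u hu
      by_cases hu0 : u = 0
      · rw [hu0, ← zero_smul F (0 : V), sympForm_smul_right, zero_mul]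
      obtain ⟨u', hu', he⟩ := hsurj u hu0
      obtain ⟨c, hc⟩ := Submodule.mem_span_singleton.1 he
      have hc0 : c ≠ 0 := fun h => hu0 (by rw [← hc, h, zero_smul])
      rw [← hc, sympForm_smul_right, (horth w u' hw hu').2 (h u' fun s hs => ?_), mul_zero]
      have := hu (pt s) ⟨s, hs, rfl⟩
      rw [← hc, sympForm_smul_right] at this
      exact (horth s u' (hS s hs) hu').1 ((mul_eq_zero.1 this).resolve_left hc0)
    · intro h u hu
      by_cases hu0 : u = 0
      · rw [hu0, ← zero_smul F (0 : V), sympForm_smul_right, zero_mul]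
      refine (horth w u hw hu0).1 (h (pt u) ?_)
      rintro _ ⟨s, hs, rfl⟩
      exact (horth s u (hS s hs) hu0).2 (hu s hs)
  obtain ⟨g, σ, hgσ⟩ := exists_semilinear_of_span (by rw [Fintype.card_sum, Fintype.card_fin]; omega) pt
    (fun w hw => (hpt w hw).1) hspan
  have hg : g ∈ Cfsg.GSp m F := by
    refine CfsgLib.Geometric.Symp.mem_similarityGroup_of_orth
      (CfsgLib.Geometric.isSymplecticForm_sympForm m F) fun u v huv => ?_
    obtain ⟨u', rfl⟩ : ∃ u', σ ∘ u' = u := ⟨σ.symm ∘ u, funext fun i => σ.apply_symm_apply _⟩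
    obtain ⟨v', rfl⟩ : ∃ v', σ ∘ v' = v := ⟨σ.symm ∘ v, funext fun i => σ.apply_symm_apply _⟩
    rw [sympForm_map, map_eq_zero] at huv
    simp only [CfsgLib.Geometric.ap_def]
    by_cases hu : u' = 0
    · subst hu
      rw [show σ ∘ (0 : V) = 0 from funext fun i => map_zero σ, Matrix.mulVec_zero, ← zero_smul F (0 : V),
        sympForm_smul_left, zero_mul]
    by_cases hv : v' = 0
    · subst hv
      rw [show σ ∘ (0 : V) = 0 from funext fun i => map_zero σ, Matrix.mulVec_zero, ← zero_smul F (0 : V),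
        sympForm_smul_right, zero_mul]
    obtain ⟨c, hc, hcu⟩ := hgσ u' hu
    obtain ⟨d, hd, hdv⟩ := hgσ v' hv
    have := (horth u' v' hu hv).2 huv
    rw [hcu, hdv, sympForm_smul_left, sympForm_smul_right] at this
    simpa [hc, hd] using this
  refine ⟨⟨g, hg⟩, σ, ?_⟩
  set θ := (semiAut ⟨g, hg⟩ σ)⁻¹ * φ with hθ
  suffices θ = 1 by
    rw [hθ, inv_mul_eq_one] at this
    exact this.symm
  have hθT : ∀ w, w ≠ 0 → ∃ b : F, b ≠ 0 ∧ θ (T w 1) = T w b := by
    intro w hw
    obtain ⟨a1, a2, a3⟩ := hpt w hw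
    obtain ⟨c, hc, hcw⟩ := hgσ w hw
    -- the scalar relating the semilinear image of a transvection
    obtain ⟨k, hk, hke⟩ : ∃ k : F, k ≠ 0 ∧ ∀ b : F,
        semiHom ⟨g, hg⟩ σ (spT w b) = spT ((Units.val g : M2) *ᵥ (σ ∘ w)) (σ b * k) := by
      obtain ⟨k, hk, hk1⟩ := semiHom_spT ⟨g, hg⟩ σ w (1 : F)
      refine ⟨k, hk, fun b => ?_⟩
      obtain ⟨k', hk', hkb⟩ := semiHom_spT ⟨g, hg⟩ σ w b
      obtain ⟨x, hx⟩ := exists_omega_one hw
      obtain ⟨e, he⟩ := (⟨g, hg⟩ : ↥(Cfsg.GSp m F)).2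
      have hgw : (Units.val g : M2) *ᵥ (σ ∘ w) ≠ 0 := by
        intro h0
        have := congrArg ((Units.val g⁻¹ : M2) *ᵥ ·) h0
        simp only [Matrix.mulVec_mulVec, Units.inv_mul, Matrix.one_mulVec, Matrix.mulVec_zero] at this
        exact hw (funext fun i => (map_eq_zero σ).1 (congrFun this i))
      have key : ∀ (b k : F), semiHom ⟨g, hg⟩ σ (spT w b) = spT ((Units.val g : M2) *ᵥ (σ ∘ w)) (σ b * k) →
          σ b * k * (e : F) = σ b := by
        intro b k h
        have h1 := congrArg (fun t : Sp => t • ((Units.val g : M2) *ᵥ (σ ∘ x))) h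
        simp only [spT_smul] at h1
        rw [sp_smul_eq, coe_semiHom, Matrix.mulVec_mulVec, Matrix.mul_assoc, Units.inv_mul, Matrix.mul_one,
          ← Matrix.mulVec_mulVec, gmap_mulVec, ← sp_smul_eq (spT w b), spT_smul, hx, mul_one, he, sympForm_map,
          hx, map_one, mul_one, show σ ∘ (x + b • w) = σ ∘ x + σ b • (σ ∘ w) from funext fun i => by simp,
          Matrix.mulVec_add, Matrix.mulVec_smul, add_right_inj] at h1
        exact (smul_left_injective F hgw h1).symm
      rcases eq_or_ne b 0 with rfl | hb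
      · rw [spT_zero, map_one, map_zero, zero_mul, spT_zero]
      · have e1 := key 1 k hk1
        rw [map_one, one_mul] at e1
        have e2 := key b k' hkb
        have hσb : σ b ≠ 0 := by simpa using hb
        have : k' = k := mul_right_cancel₀ e.ne_zero (mul_left_cancel₀ hσb (by rw [← mul_assoc, e2, e1, mul_one]))
        rw [hkb, this]
    refine ⟨σ.symm (c ^ 2 * al w * k⁻¹), by simp [hc, a2, hk], ?_⟩
    rw [hθ, MulAut.mul_apply, a3]
    apply (semiAut ⟨g, hg⟩ σ).injective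
    rw [MulAut.apply_inv_self, semiAut_cl, hke, σ.apply_symm_apply, inv_mul_cancel_right₀ hk, ← spT_smul_vec,
      ← hcw]
  refine aut_ext fun s => ?_
  obtain ⟨s', hs'⟩ := cl_surjective (θ (cl s))
  rw [← hs', MulAut.one_apply]
  have hline : ∀ w : V, ∃ r : F, (s⁻¹ * s') • w = r • w := by
    intro w
    by_cases hw : w = 0
    · exact ⟨1, by rw [hw, smul_zero, smul_zero]⟩
    have hsw : s • w ≠ 0 := fun h => hw (by simpa using congrArg (s⁻¹ • ·) h)
    obtain ⟨b1, hb1, e1⟩ := hθT w hw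
    obtain ⟨b2, hb2, e2⟩ := hθT (s • w) hsw
    have h1 := congrArg θ (conj_T s w 1)
    rw [map_mul, map_mul, map_inv, ← hs', e1, e2, conj_T] at h1
    have hs'w : s' • w ≠ 0 := fun h => hw (by simpa using congrArg (s'⁻¹ • ·) h)
    obtain ⟨r, hr⟩ := Submodule.mem_span_singleton.1 (T_line hm hs'w hb1 h1)
    exact ⟨r, by rw [mul_smul, ← hr, smul_comm (s⁻¹) r, ← mul_smul, inv_mul_cancel, one_smul]⟩
  refine ((cl_eq_cl_iff (by omega)).2 ?_).symm
  have := eq_one_or_neg_of_forall_smul (by omega) hline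
  have h : (s' : M2) = (s : M2) * ((s⁻¹ * s' : Sp) : M2) := by
    rw [← Submonoid.coe_mul, mul_inv_cancel_left]
  rcases this with h1 | h1
  · left; rw [h, h1, Matrix.mul_one]
  · right; rw [h, h1, Matrix.mul_neg, Matrix.mul_one]

theorem gammaPSp_eq_top (hm : 2 ≤ m) (h4 : m = 2 → (2 : F) ≠ 0) : Cfsg.gammaPSp m F = ⊤ :=
  (Subgroup.eq_top_iff' _).2 fun φ => by
    obtain ⟨g, σ, rfl⟩ := exists_semiAut hm h4 φ
    exact semiAut_mem_gamma g σ

end CfsgLib.ReflectionsSpinor.PSpAut
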